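import Cfsg.Agent.Lib.ChevBN.GraphFix
import Cfsg.Agent.Lib.ChevBN.RootCent

/-!
Centralisers of products of commuting root elements, from tables: the Bruhat decomposition, a commuting
block normalised by `U`, the stabiliser in the Weyl group of a dominant combination and the torus.
-/

set_option autoImplicit false
set_option linter.unusedSectionVars false

namespace Cfsg.Agent.Lib.ChevBN.CentGen

open Cfsg.Lie Cfsg.Agent.Lib.ChevBN.Elem Cfsg.Agent.Lib.ChevBN.Entries Cfsg.Agent.Lib.ChevBN.Table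
open Cfsg.Agent.Lib.ChevBN.Collect Cfsg.Agent.Lib.ChevBN.Rel Cfsg.Agent.Lib.ChevBN.Torus
open Cfsg.Agent.Lib.ChevBN.Monomial Cfsg.Agent.Lib.ChevBN.Core Cfsg.Agent.Lib.ChevBN.Pair
open Cfsg.Agent.Lib.ChevBN.Stmts Cfsg.Agent.Lib.ChevBN.BruhatForm Cfsg.Agent.Lib.ChevBN.Opp
open Cfsg.Agent.Lib.ChevBN.ConjH Cfsg.Agent.Lib.ChevBN.Cent Cfsg.Agent.Lib.ChevBN.Fix
open Cfsg.Agent.Lib.ChevBN.GraphFix Cfsg.Agent.Lib.ChevBN.RootCent
open Cfsg.Agent.Lib.ChevOrder.Chev Cfsg.Agent.Lib.ChevOrder.BNCount Cfsg.Agent.Lib.ChevOrder.Cox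
open Cfsg.Agent.Lib.BNPair.CoxeterExchange
open Cfsg.Agent.Lib.BNPair.Basic Cfsg.Agent.Lib.BNPair.Parabolic

variable {D : ChevalleyDatum} {F : Type*} [Field F] {η : ℕ → ℕ → ℤ}

section Coeff

variable {hA : AddRel D F}

theorem W_map_ite (B : List ℕ) (f : ℕ → F) (L : List ℕ) :
    W hA (L.map fun s => (s, if s ∈ B then f s else 0)) = bl hA (L.filter (· ∈ B)) f := by
  induction L with
  | nil => simp
  | cons a L ih =>
    by_cases h : a ∈ B
    · simp [h, ih, W_cons, bl_cons]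
    · simp [h, ih, W_cons]

theorem posRoots_nodup : D.posRoots.Nodup := posRoots_sorted.imp (fun h => ne_of_lt h)

theorem bl_eq_posRoots {B : List ℕ} (hnd : B.Nodup) (hp : ∀ q ∈ B, D.IsPosRoot q)
    (hC : ∀ q₁ ∈ B, ∀ q₂ ∈ B, q₁ ≠ q₂ → ∀ s t : F, Commute (X hA q₁ s) (X hA q₂ t)) (f : ℕ → F) :
    bl hA B f = W hA (D.posRoots.map fun s => (s, if s ∈ B then f s else 0)) := by
  rw [W_map_ite]
  apply bl_perm _ hnd hC
  rw [List.perm_ext_iff_of_nodup hnd (posRoots_nodup.filter _)]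
  intro a
  simp only [List.mem_filter, mem_posRoots, decide_eq_true_eq]
  exact ⟨fun h => ⟨hp a h, h⟩, fun h => h.2⟩

/-- The coefficients of a product over a commuting block of positive roots are determined. -/
theorem bl_coeff (hT : Tbl D) {B₁ B₂ : List ℕ} (hnd₁ : B₁.Nodup) (hnd₂ : B₂.Nodup)
    (hp₁ : ∀ q ∈ B₁, D.IsPosRoot q) (hp₂ : ∀ q ∈ B₂, D.IsPosRoot q)
    (hC₁ : ∀ q₁ ∈ B₁, ∀ q₂ ∈ B₁, q₁ ≠ q₂ → ∀ s t : F, Commute (X hA q₁ s) (X hA q₂ t))
    (hC₂ : ∀ q₁ ∈ B₂, ∀ q₂ ∈ B₂, q₁ ≠ q₂ → ∀ s t : F, Commute (X hA q₁ s) (X hA q₂ t))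
    {f₁ f₂ : ℕ → F} (h : bl hA B₁ f₁ = bl hA B₂ f₂) {s : ℕ} (hs : D.IsPosRoot s) :
    (if s ∈ B₁ then f₁ s else 0) = (if s ∈ B₂ then f₂ s else 0) := by
  rw [bl_eq_posRoots hnd₁ hp₁ hC₁, bl_eq_posRoots hnd₂ hp₂ hC₂] at h
  exact ordered_unique (hA := hA) hT _ posRoots_sorted (fun r hr => mem_posRoots.mp hr)
    (fun s => if s ∈ B₁ then f₁ s else 0) (fun s => if s ∈ B₂ then f₂ s else 0) h s (mem_posRoots.mpr hs)

theorem bl_zero (L : List ℕ) : bl hA L (fun _ => 0) = 1 := by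
  induction L with
  | nil => rfl
  | cons a L ih => simp [ih]

theorem bl_single {L : List ℕ} (hnd : L.Nodup) {r : ℕ} (hr : r ∈ L) (t : F) :
    bl hA L (fun q => if q = r then t else 0) = X hA r t := by
  induction L with
  | nil => simp at hr
  | cons a L ih =>
    rw [List.nodup_cons] at hnd
    rw [bl_cons]
    rcases List.mem_cons.mp hr with h | h
    · subst h
      have h0 : bl hA L (fun q => if q = r then t else 0) = 1 := by
        rw [bl_congr (g := fun _ => 0) (fun q hq => if_neg (fun e : q = r => hnd.1 (e ▸ hq))), bl_zero]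
      rw [h0]
      simp
    · have hne : a ≠ r := fun e => hnd.1 (e ▸ h)
      rw [if_neg hne, ih hnd.2 h]
      simp

/-- The subgroup generated by a commuting family of roots is abelian. -/
theorem gen_comm {Ψ : Set ℕ} (hC : ∀ q₁ ∈ Ψ, ∀ q₂ ∈ Ψ, q₁ ≠ q₂ → ∀ s t : F, Commute (X hA q₁ s) (X hA q₂ t))
    {a b : GL D.Idx F} (ha : a ∈ gen hA Ψ) (hb : b ∈ gen hA Ψ) : Commute a b := by
  have h1 : ∀ q ∈ Ψ, ∀ s : F, Commute (X hA q s) b := by
    intro q hq s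
    refine gen_induction hA (P := fun b => Commute (X hA q s) b) (Commute.one_right _) ?_ ?_ hb
    · intro r hr t
      by_cases hqr : q = r
      · subst hqr
        show X hA q s * X hA q t = X hA q t * X hA q s
        rw [X_mul, X_mul, add_comm]
      · exact hC q hq r hr hqr s t
    · intro x y hx hy
      exact hx.mul_right hy
  refine gen_induction hA (P := fun a => Commute a b) (Commute.one_left _) ?_ ?_ ha
  · intro r hr t
    exact h1 r hr t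
  · intro x y hx hy
    exact hx.mul_left hy

theorem bl_mem_gen {L : List ℕ} {Ψ : Set ℕ} (h : ∀ q ∈ L, q ∈ Ψ) (f : ℕ → F) : bl hA L f ∈ gen hA Ψ := by
  apply W_mem_gen
  intro p hp
  obtain ⟨q, hq, rfl⟩ := List.mem_map.mp hp
  exact h q hq

end Coeff

/-- The tables for the centraliser of `∏_{r ∈ L} x_r(1)`. -/
structure CD (D : ChevalleyDatum) (F : Type*) [Field F] (η : ℕ → ℕ → ℤ) (L Ψ Bad K : List ℕ) (a : ℕ → ℤ)
    (m : ℕ → ℕ → ℤ) (orb : ℕ → ℕ) : Prop where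
  Ψ_nodup : Ψ.Nodup
  Ψ_pos : ∀ q ∈ Ψ, D.IsPosRoot q
  L_nodup : L.Nodup
  L_sub : ∀ r ∈ L, r ∈ Ψ
  Ψ_comm : ∀ q₁ ∈ Ψ, ∀ q₂ ∈ Ψ, q₁ ≠ q₂ → D.commTerms q₁ q₂ = []
  act : ∀ s, D.IsPosRoot s → ∀ r ∈ Ψ, s ≠ r → ∀ c ∈ D.commTerms s r,
    (c.2.1 : F) = 0 ∨ (c.1 ∈ Ψ ∧ c.1 ∉ L)
  orb_refl : ∀ i < D.rank, ∀ s < D.nroots, orb (D.reflectRoot i s) = orb s
  sep : ∀ g : ℕ → ℕ, (∀ r ∈ L, g r ∈ Ψ ∧ orb (g r) = orb r) →
    (∀ r ∈ L, ∀ r' ∈ L, Ad D (cr D (g r)) (g r') = Ad D (cr D r) r') → ∀ r ∈ L, g r = r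
  dom : ∀ s, D.IsPosRoot s → 0 ≤ (L.map fun r => a r * Ad D (cr D r) s).sum
  K_spec : ∀ i < D.rank, (L.map fun r => a r * Ad D (cr D r) (D.simple i)).sum = 0 → i ∈ K
  K_lt : ∀ k ∈ K, k < D.rank
  K_refl : ∀ k ∈ K, ∀ r ∈ L, D.reflectRoot k r = r
  eta : ∀ k ∈ K, ∀ r ∈ L, (η k r : F) = 1
  Bad_pos : ∀ q ∈ Bad, D.IsPosRoot q
  Bad_refl : ∀ k ∈ K, ∀ q ∈ Bad, D.reflectRoot k q ∈ Bad
  Good_comm : ∀ q, D.IsPosRoot q → q ∉ Bad → ∀ r ∈ L, q ≠ r → ∀ c ∈ D.commTerms q r, (c.2.1 : F) = 0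
  K_good : ∀ k ∈ K, D.simple k ∉ Bad
  torus : ∀ j < D.rank, j ∉ K → ∀ j' < D.rank, (L.map fun r => m j r * D.cartan j' r).sum = if j = j' then 1 else 0

/-- The subgroup generated by the good positive roots and the negatives of the fundamental roots of `K`. -/
noncomputable def RR (hA : AddRel D F) (Bad K : List ℕ) : Subgroup (GL D.Idx F) :=
  gen hA ({q | D.IsPosRoot q ∧ q ∉ Bad} ∪ {s | ∃ k ∈ K, s = D.neg (D.simple k)})

section Main

variable {L Ψ Bad K : List ℕ} {a : ℕ → ℤ} {m : ℕ → ℕ → ℤ} {orb : ℕ → ℕ}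
variable (hR : Sys D F η) (hT : Tbl D) (hd : CD D F η L Ψ Bad K a m orb)
include hR hT hd

theorem Ψ_lt {q : ℕ} (hq : q ∈ Ψ) : q < D.nroots := (hd.Ψ_pos q hq).1

theorem comm_Ψ : ∀ q₁ ∈ Ψ, ∀ q₂ ∈ Ψ, q₁ ≠ q₂ → ∀ s t : F,
    Commute (X hR.toAddRel q₁ s) (X hR.toAddRel q₂ t) := by
  intro q₁ h₁ q₂ h₂ hne s t
  exact comm_of_nil (commPos hR) (hd.Ψ_pos _ h₁) (hd.Ψ_pos _ h₂) hne (hd.Ψ_comm _ h₁ _ h₂ hne) s t

theorem comm_sub {Ψ' : List ℕ} (hsub : ∀ q ∈ Ψ', q ∈ Ψ) : ∀ q₁ ∈ Ψ', ∀ q₂ ∈ Ψ', q₁ ≠ q₂ → ∀ s t : F,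
    Commute (X hR.toAddRel q₁ s) (X hR.toAddRel q₂ t) :=
  fun q₁ h₁ q₂ h₂ hne s t => comm_Ψ hR hT hd q₁ (hsub _ h₁) q₂ (hsub _ h₂) hne s t

/-- Elements of the subgroup generated by a part of the block. -/
theorem mem_gen_bl {g : GL D.Idx F} (hg : g ∈ gen hR.toAddRel {q | q ∈ Ψ ∧ q ∉ L}) :
    ∃ f : ℕ → F, (∀ q ∈ L, f q = 0) ∧ g = bl hR.toAddRel Ψ f := by
  refine gen_induction hR.toAddRel (P := fun g => ∃ f : ℕ → F, (∀ q ∈ L, f q = 0) ∧ g = bl hR.toAddRel Ψ f)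
    ⟨fun _ => 0, fun _ _ => rfl, (bl_zero _).symm⟩ ?_ ?_ hg
  · rintro r ⟨hr, hrL⟩ t
    refine ⟨fun q => if q = r then t else 0, fun q hq => if_neg (fun e : q = r => hrL (e ▸ hq)), ?_⟩
    rw [bl_single hd.Ψ_nodup hr]
  · rintro x y ⟨f, hf, rfl⟩ ⟨g, hg, rfl⟩
    refine ⟨f + g, fun q hq => by simp [hf q hq, hg q hq], ?_⟩
    rw [bl_mul hd.Ψ_nodup (comm_Ψ hR hT hd)]

/-- Conjugation of an element of the block by a root element of `U`. -/
theorem conj_root {s : ℕ} (hs : D.IsPosRoot s) {r : ℕ} (hr : r ∈ Ψ) (c b : F) :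
    ∃ f : ℕ → F, (∀ q ∈ L, f q = 0) ∧
      X hR.toAddRel s c * X hR.toAddRel r b * (X hR.toAddRel s c)⁻¹ =
        X hR.toAddRel r b * bl hR.toAddRel Ψ f := by
  by_cases hsr : s = r
  · subst hsr
    refine ⟨fun _ => 0, fun _ _ => rfl, ?_⟩
    rw [bl_zero, X_inv, X_mul, X_mul, mul_one]
    congr 1
    ring
  · have h1 := commPos hR s r hs (hd.Ψ_pos r hr) (fun e => hsr e.symm) (-c) b
    have h2 : ∀ T : List (ℕ × ℤ × ℕ × ℕ), (∀ c' ∈ T, (c'.2.1 : F) = 0 ∨ (c'.1 ∈ Ψ ∧ c'.1 ∉ L)) →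
        W hR.toAddRel (T.map fun c' => (c'.1, (c'.2.1 : F) * (- (-c)) ^ c'.2.2.1 * b ^ c'.2.2.2)) ∈
          gen hR.toAddRel {q | q ∈ Ψ ∧ q ∉ L} := by
      intro T
      induction T with
      | nil =>
        intro _
        exact Subgroup.one_mem _
      | cons c' T ih =>
        intro hT'
        rw [List.map_cons, W_cons]
        refine Subgroup.mul_mem _ ?_ (ih fun x hx => hT' x (List.mem_cons_of_mem _ hx))
        rcases hT' c' (by simp) with h0 | h0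
        · simp only [h0]
          simp
        · exact X_mem_gen _ h0 _
    have h3 := h2 _ (hd.act s hs r hr hsr)
    obtain ⟨f, hf, hfe⟩ := mem_gen_bl hR hT hd h3
    refine ⟨f, hf, ?_⟩
    rw [← hfe]
    have h4 : X hR.toAddRel r b * X hR.toAddRel s (-c) = X hR.toAddRel s (-c) * X hR.toAddRel r b *
        W hR.toAddRel ((D.commTerms s r).map fun c' => (c'.1, (c'.2.1 : F) * (- (-c)) ^ c'.2.2.1 * b ^ c'.2.2.2)) := h1
    have h5 : (X hR.toAddRel s c)⁻¹ = X hR.toAddRel s (-c) := X_inv _ _ _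
    have h6 : X hR.toAddRel s c = (X hR.toAddRel s (-c))⁻¹ := by
      rw [X_inv, neg_neg]
    rw [h5, h6]
    calc (X hR.toAddRel s (-c))⁻¹ * X hR.toAddRel r b * (X hR.toAddRel s (-c))⁻¹⁻¹
        = (X hR.toAddRel s (-c))⁻¹ * (X hR.toAddRel r b * X hR.toAddRel s (-c)) := by group
      _ = _ := by
        rw [h4]
        group

theorem conj_sub {s : ℕ} (hs : D.IsPosRoot s) (c : F) (f : ℕ → F) : ∀ P : List ℕ, (∀ q ∈ P, q ∈ Ψ) →
    ∃ g : ℕ → F, (∀ q ∈ L, g q = 0) ∧ X hR.toAddRel s c * bl hR.toAddRel P f * (X hR.toAddRel s c)⁻¹ =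
      bl hR.toAddRel P f * bl hR.toAddRel Ψ g := by
  intro P
  induction P with
  | nil =>
    intro _
    refine ⟨fun _ => 0, fun _ _ => rfl, ?_⟩
    simp [bl_zero]
  | cons q P ih =>
    intro hP
    obtain ⟨g₁, hg₁, h1⟩ := ih fun x hx => hP x (List.mem_cons_of_mem _ hx)
    obtain ⟨g₂, hg₂, h2⟩ := conj_root hR hT hd hs (hP q (by simp)) c (f q)
    refine ⟨g₂ + g₁, fun x hx => by simp [hg₁ x hx, hg₂ x hx], ?_⟩
    have hcomm := comm_Ψ hR hT hd
    have hc : Commute (bl hR.toAddRel Ψ g₂) (bl hR.toAddRel P f) :=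
      gen_comm (Ψ := {q | q ∈ Ψ}) hcomm (bl_mem_gen (fun _ h => h) _)
        (bl_mem_gen (fun x hx => hP x (List.mem_cons_of_mem _ hx)) _)
    rw [bl_cons, ← bl_mul hd.Ψ_nodup hcomm]
    calc X hR.toAddRel s c * (X hR.toAddRel q (f q) * bl hR.toAddRel P f) * (X hR.toAddRel s c)⁻¹
        = (X hR.toAddRel s c * X hR.toAddRel q (f q) * (X hR.toAddRel s c)⁻¹) *
          (X hR.toAddRel s c * bl hR.toAddRel P f * (X hR.toAddRel s c)⁻¹) := by group
      _ = X hR.toAddRel q (f q) * (bl hR.toAddRel Ψ g₂ * bl hR.toAddRel P f) * bl hR.toAddRel Ψ g₁ := by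
          rw [h1, h2]
          group
      _ = X hR.toAddRel q (f q) * (bl hR.toAddRel P f * bl hR.toAddRel Ψ g₂) * bl hR.toAddRel Ψ g₁ := by
          rw [hc.eq]
      _ = _ := by group

/-- Conjugation by `U` does not change the coefficients on `L`. -/
theorem conj_bl_U {y : GL D.Idx F} (hy : y ∈ D.posUnipotent F) : ∀ f : ℕ → F, (∀ q ∈ L, f q = 1) →
    ∃ f' : ℕ → F, (∀ q ∈ L, f' q = 1) ∧ y * bl hR.toAddRel Ψ f * y⁻¹ = bl hR.toAddRel Ψ f' := by
  rw [posUnipotent_eq hR.toAddRel] at hy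
  refine gen_induction hR.toAddRel (P := fun y => ∀ f : ℕ → F, (∀ q ∈ L, f q = 1) →
    ∃ f' : ℕ → F, (∀ q ∈ L, f' q = 1) ∧ y * bl hR.toAddRel Ψ f * y⁻¹ = bl hR.toAddRel Ψ f') ?_ ?_ ?_ hy
  · intro f hf
    exact ⟨f, hf, by simp⟩
  · intro s hs c f hf
    obtain ⟨g, hg, h1⟩ := conj_sub hR hT hd hs c f Ψ (fun _ h => h)
    refine ⟨f + g, fun q hq => by simp [hf q hq, hg q hq], ?_⟩
    rw [h1, bl_mul hd.Ψ_nodup (comm_Ψ hR hT hd)]
  · intro a b ha hb f hf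
    obtain ⟨f₁, hf₁, h1⟩ := hb f hf
    obtain ⟨f₂, hf₂, h2⟩ := ha f₁ hf₁
    refine ⟨f₂, hf₂, ?_⟩
    rw [← h2, ← h1]
    group

/-- The element of the statement. -/
theorem vv_eq : bl hR.toAddRel L (fun _ => (1 : F)) =
    bl hR.toAddRel Ψ (fun q => if q ∈ L then (1 : F) else 0) := by
  have hsub := hd.L_sub
  rw [bl_eq_posRoots hd.L_nodup (fun q hq => hd.Ψ_pos q (hsub q hq)) (comm_sub hR hT hd hsub),
    bl_eq_posRoots hd.Ψ_nodup hd.Ψ_pos (comm_Ψ hR hT hd)]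
  congr 1
  apply List.map_congr_left
  intro s _
  by_cases h : s ∈ L
  · simp [h, hsub s h]
  · simp [h]

theorem conj_vv_U {y : GL D.Idx F} (hy : y ∈ D.posUnipotent F) :
    ∃ f : ℕ → F, (∀ q ∈ L, f q = 1) ∧
      y * bl hR.toAddRel L (fun _ => (1 : F)) * y⁻¹ = bl hR.toAddRel Ψ f := by
  rw [vv_eq hR hT hd]
  exact conj_bl_U hR hT hd hy _ (fun q hq => by simp [hq])

/-- The image of a coefficient of the block under an element of `N` is in the block. -/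
theorem mono_step {n : GL D.Idx F} (hn : n ∈ D.monomialSubgroup F) (hm : n ∈ monoSub D F) {f₂ f₃ : ℕ → F}
    (h : n * bl hR.toAddRel Ψ f₂ * n⁻¹ = bl hR.toAddRel Ψ f₃) {r : ℕ} (hr : r ∈ Ψ) (hf : f₂ r ≠ 0) :
    ((permOf ⟨n, hm⟩ ⟨r, Ψ_lt hR hT hd hr⟩ : Fin D.nroots) : ℕ) ∈ Ψ := by
  classical
  set π := permOf (⟨n, hm⟩ : monoSub D F) with hπ
  let ρ : ℕ → ℕ := fun q => if h : q < D.nroots then (π ⟨q, h⟩).val else q
  let ρ' : ℕ → ℕ := fun q => if h : q < D.nroots then (π⁻¹ ⟨q, h⟩).val else q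
  have hρ : ∀ q (h : q < D.nroots), ρ q = (π ⟨q, h⟩).val := fun q h => dif_pos h
  have hρ' : ∀ q (_ : q < D.nroots), ρ' (ρ q) = q := by
    intro q h
    rw [hρ q h]
    show (if h' : (π ⟨q, h⟩).val < D.nroots then (π⁻¹ ⟨(π ⟨q, h⟩).val, h'⟩).val else _) = q
    rw [dif_pos (Fin.isLt _)]
    simp
  have hρlt : ∀ q (_ : q < D.nroots), ρ q < D.nroots := by
    intro q h
    rw [hρ q h]
    exact Fin.isLt _
  have hex : ∀ q : ℕ, ∃ κ : F, q < D.nroots → κ ≠ 0 ∧ ∀ t : F,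
      n * X hR.toAddRel q t * n⁻¹ = X hR.toAddRel (ρ q) (κ * t) := by
    intro q
    by_cases hq : q < D.nroots
    · obtain ⟨κ, h0, h1⟩ := conj_of_mem_N hR hT hn hm ⟨q, hq⟩
      refine ⟨κ, fun _ => ⟨h0, fun t => ?_⟩⟩
      rw [hρ q hq]
      exact h1 t
    · exact ⟨1, fun h => absurd h hq⟩
  choose κ hκ using hex
  have hΨlt : ∀ q ∈ Ψ, q < D.nroots := fun q hq => Ψ_lt hR hT hd hq
  have hconj : ∀ (P : List ℕ) (_ : ∀ q ∈ P, q ∈ Ψ) (f : ℕ → F), n * bl hR.toAddRel P f * n⁻¹ =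
      W hR.toAddRel (P.map fun q => (ρ q, κ q * f q)) := by
    intro P
    induction P with
    | nil =>
      intro _ f
      simp
    | cons q P ih =>
      intro hP f
      have e1 := (hκ q (hΨlt q (hP q (by simp)))).2 (f q)
      rw [bl_cons, List.map_cons, W_cons, ← ih (fun x hx => hP x (List.mem_cons_of_mem _ hx)) f, ← e1]
      group
  set Pp := Ψ.filter (fun q => decide (D.IsPosRoot (ρ q))) with hPp
  set Pn := Ψ.filter (fun q => !decide (D.IsPosRoot (ρ q))) with hPn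
  have hsubp : ∀ q ∈ Pp, q ∈ Ψ := fun q hq => (List.mem_filter.mp hq).1
  have hsubn : ∀ q ∈ Pn, q ∈ Ψ := fun q hq => (List.mem_filter.mp hq).1
  have hperm : (Pn ++ Pp).Perm Ψ := by
    refine List.Perm.trans List.perm_append_comm ?_
    exact List.filter_append_perm _ _
  have hsplit : bl hR.toAddRel Ψ f₂ = bl hR.toAddRel Pn f₂ * bl hR.toAddRel Pp f₂ := by
    rw [bl_perm hperm.symm hd.Ψ_nodup (comm_Ψ hR hT hd), bl, bl, bl, List.map_append, W_append]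
  have hyn : n * bl hR.toAddRel Pn f₂ * n⁻¹ ∈ D.negUnipotent F := by
    rw [hconj Pn hsubn, negUnipotent_eq hR.toAddRel]
    apply W_mem_gen
    intro p hp
    obtain ⟨q, hq, rfl⟩ := List.mem_map.mp hp
    have h1 := (List.mem_filter.mp hq).2
    have h2 : ¬ D.IsPosRoot (ρ q) := by simpa using h1
    rcases hT.pos_or_neg (hρlt q (hΨlt q (hsubn q hq))) with h3 | h3
    · exact absurd h3 h2
    · exact h3
  have hyp : n * bl hR.toAddRel Pp f₂ * n⁻¹ ∈ D.posUnipotent F := by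
    rw [hconj Pp hsubp, posUnipotent_eq hR.toAddRel]
    apply W_mem_gen
    intro p hp
    obtain ⟨q, hq, rfl⟩ := List.mem_map.mp hp
    have h1 := (List.mem_filter.mp hq).2
    simpa using h1
  have hprod : (n * bl hR.toAddRel Pn f₂ * n⁻¹) * (n * bl hR.toAddRel Pp f₂ * n⁻¹) = bl hR.toAddRel Ψ f₃ := by
    rw [← h, hsplit]
    group
  have h3U : bl hR.toAddRel Ψ f₃ ∈ D.posUnipotent F := by
    rw [posUnipotent_eq hR.toAddRel]
    exact bl_mem_gen hd.Ψ_pos _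
  have hynU : n * bl hR.toAddRel Pn f₂ * n⁻¹ ∈ D.posUnipotent F := by
    have e : n * bl hR.toAddRel Pn f₂ * n⁻¹ = bl hR.toAddRel Ψ f₃ * (n * bl hR.toAddRel Pp f₂ * n⁻¹)⁻¹ := by
      rw [← hprod]
      group
    rw [e]
    exact Subgroup.mul_mem _ h3U (Subgroup.inv_mem _ hyp)
  have hy1 : n * bl hR.toAddRel Pn f₂ * n⁻¹ = 1 := by
    have : n * bl hR.toAddRel Pn f₂ * n⁻¹ ∈ D.borelSubgroup F ⊓ D.negUnipotent F :=
      ⟨U_le_B hR hT hynU, hyn⟩
    rw [B_inf_V hR hT, Subgroup.mem_bot] at this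
    exact this
  have hb1 : bl hR.toAddRel Pn f₂ = 1 := by
    have e : bl hR.toAddRel Pn f₂ = n⁻¹ * (n * bl hR.toAddRel Pn f₂ * n⁻¹) * n := by group
    rw [e, hy1]
    group
  have hnot : r ∉ Pn := by
    intro hrn
    have h4 := bl_coeff (hA := hR.toAddRel) hT (B₁ := Pn) (B₂ := []) (f₁ := f₂) (f₂ := fun _ => 0)
      (hd.Ψ_nodup.filter _) List.nodup_nil (fun q hq => hd.Ψ_pos q (hsubn q hq)) (by simp)
      (comm_sub hR hT hd hsubn) (by simp) (by rw [hb1]; rfl) (hd.Ψ_pos r hr)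
    rw [if_pos hrn] at h4
    simp at h4
    exact hf h4
  have hrp : r ∈ Pp := by
    have h1 : r ∈ Ψ := hr
    refine List.mem_filter.mpr ⟨h1, ?_⟩
    by_contra h2
    exact hnot (List.mem_filter.mpr ⟨h1, by simpa using h2⟩)
  -- the positive part
  have hyp2 : n * bl hR.toAddRel Pp f₂ * n⁻¹ = bl hR.toAddRel Ψ f₃ := by
    rw [← hprod, hy1, one_mul]
  set f₄ : ℕ → F := fun s => κ (ρ' s) * f₂ (ρ' s) with hf₄
  have hbl : n * bl hR.toAddRel Pp f₂ * n⁻¹ = bl hR.toAddRel (Pp.map ρ) f₄ := by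
    rw [hconj Pp hsubp, bl, List.map_map]
    congr 1
    apply List.map_congr_left
    intro q hq
    have h1 := hρ' q (hΨlt q (hsubp q hq))
    simp [hf₄, h1]
  have hinj : ∀ x ∈ Pp, ∀ y ∈ Pp, ρ x = ρ y → x = y := by
    intro x hx y hy e
    have e1 := hρ' x (hΨlt x (hsubp x hx))
    have e2 := hρ' y (hΨlt y (hsubp y hy))
    rw [← e1, ← e2, e]
  have hnd : (Pp.map ρ).Nodup := by
    refine List.Nodup.map_on ?_ (hd.Ψ_nodup.filter _)
    exact hinj
  have hposB : ∀ s ∈ Pp.map ρ, D.IsPosRoot s := by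
    intro s hs
    obtain ⟨q, hq, rfl⟩ := List.mem_map.mp hs
    have h1 := (List.mem_filter.mp hq).2
    simpa using h1
  have hCB : ∀ q₁ ∈ Pp.map ρ, ∀ q₂ ∈ Pp.map ρ, q₁ ≠ q₂ → ∀ s t : F,
      Commute (X hR.toAddRel q₁ s) (X hR.toAddRel q₂ t) := by
    intro q₁ h₁ q₂ h₂ hne s t
    obtain ⟨x, hx, rfl⟩ := List.mem_map.mp h₁
    obtain ⟨y, hy, rfl⟩ := List.mem_map.mp h₂
    have hxy : x ≠ y := fun e => hne (by rw [e])
    have hxl := hΨlt x (hsubp x hx)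
    have hyl := hΨlt y (hsubp y hy)
    obtain ⟨hκx, ex⟩ := hκ x hxl
    obtain ⟨hκy, ey⟩ := hκ y hyl
    have e1 : X hR.toAddRel (ρ x) s = n * X hR.toAddRel x ((κ x)⁻¹ * s) * n⁻¹ := by
      rw [ex, ← mul_assoc, mul_inv_cancel₀ hκx, one_mul]
    have e2 : X hR.toAddRel (ρ y) t = n * X hR.toAddRel y ((κ y)⁻¹ * t) * n⁻¹ := by
      rw [ey, ← mul_assoc, mul_inv_cancel₀ hκy, one_mul]
    rw [e1, e2]
    have hc := comm_Ψ hR hT hd x (hsubp x hx) y (hsubp y hy) hxy ((κ x)⁻¹ * s) ((κ y)⁻¹ * t)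
    show n * X hR.toAddRel x ((κ x)⁻¹ * s) * n⁻¹ * (n * X hR.toAddRel y ((κ y)⁻¹ * t) * n⁻¹) =
      n * X hR.toAddRel y ((κ y)⁻¹ * t) * n⁻¹ * (n * X hR.toAddRel x ((κ x)⁻¹ * s) * n⁻¹)
    calc n * X hR.toAddRel x ((κ x)⁻¹ * s) * n⁻¹ * (n * X hR.toAddRel y ((κ y)⁻¹ * t) * n⁻¹)
        = n * (X hR.toAddRel x ((κ x)⁻¹ * s) * X hR.toAddRel y ((κ y)⁻¹ * t)) * n⁻¹ := by group
      _ = n * (X hR.toAddRel y ((κ y)⁻¹ * t) * X hR.toAddRel x ((κ x)⁻¹ * s)) * n⁻¹ := by rw [hc.eq]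
      _ = _ := by group
  have hmem : ρ r ∈ Pp.map ρ := List.mem_map.mpr ⟨r, hrp, rfl⟩
  have h5 := bl_coeff (hA := hR.toAddRel) hT hnd hd.Ψ_nodup hposB hd.Ψ_pos hCB (comm_Ψ hR hT hd)
    (hbl.symm.trans hyp2) (hposB _ hmem)
  rw [if_pos hmem] at h5
  have hrl := hΨlt r hr
  have h6 : f₄ (ρ r) ≠ 0 := by
    simp only [hf₄]
    rw [hρ' r hrl]
    exact mul_ne_zero (hκ r hrl).1 hf
  have h7 : ρ r ∈ Ψ := by
    by_contra h8
    rw [if_neg h8] at h5
    exact h6 h5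
  rw [hρ r hrl] at h7
  exact h7

omit hT hd in
theorem sum_neg_aux {S : List ℕ} (g h : ℕ → ℤ) (e : ∀ r ∈ S, g r = - h r) :
    (S.map g).sum = - (S.map h).sum := by
  induction S with
  | nil => simp
  | cons x S ih =>
    simp only [List.map_cons, List.sum_cons]
    rw [e x (by simp), ih fun r hr => e r (List.mem_cons_of_mem _ hr)]
    ring

/-- The stabiliser in the Weyl group of the elements of `L`. -/
theorem stab : ∀ (n : ℕ) (w : WW (pair hR hT)), LL (pair hR hT) w = n →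
    (∀ r (hr : r ∈ L), ((σW hR hT w ⟨r, Ψ_lt hR hT hd (hd.L_sub r hr)⟩ : Fin D.nroots) : ℕ) = r) →
    ∃ l : List (Fin D.rank), (∀ i ∈ l, i.val ∈ K) ∧ pr (fW hR hT) l = w := by
  intro n
  induction n using Nat.strong_induction_on with
  | _ n ih =>
    intro w hw hσ
    obtain ⟨l, hl1, hl2⟩ := (setupW hR hT).ex w
    cases l with
    | nil =>
      exact ⟨[], by simp, hl1⟩
    | cons i l' =>
      have hlen : LL (pair hR hT) (fW hR hT i * w) < LL (pair hR hT) w := by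
        have h1 : fW hR hT i * w = pr (fW hR hT) l' := by
          rw [← hl1, pr_cons, ← mul_assoc, (setupW hR hT).sq, one_mul]
        rw [h1]
        have h2 := (setupW hR hT).le l'
        simp only [List.length_cons] at hl2
        omega
      have hy := hK hR hT i w hlen
      set y := (σW hR hT w)⁻¹ (alphaR hT i) with hydef
      have hyw : σW hR hT w y = alphaR hT i := by
        rw [hydef]
        simp
      have hneg : D.IsNegRoot y := by
        rcases hT.pos_or_neg y.isLt with h | h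
        · exact absurd h hy
        · exact h
      have hAd : ∀ r ∈ L, Ad D (cr D r) (D.simple i) = Ad D (cr D r) y := by
        intro r hr
        have hrl := Ψ_lt hR hT hd (hd.L_sub r hr)
        have h1 := Ad_σW hR hT w ⟨r, hrl⟩ y
        rw [hyw] at h1
        have h2 : (σW hR hT w ⟨r, hrl⟩ : Fin D.nroots) = ⟨r, hrl⟩ := Fin.ext (hσ r hr)
        rw [h2] at h1
        exact h1
      have h3 := hd.dom _ (hT.pos_of_neg hneg)
      have h4 := hd.dom _ (hT.simple_pos i i.2)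
      have h5 : (L.map fun r => a r * Ad D (cr D r) (D.simple i)).sum =
          - (L.map fun r => a r * Ad D (cr D r) (D.neg y)).sum := by
        apply sum_neg_aux hR
        intro r hr
        rw [hAd r hr, Ad_neg hR hT _ y.isLt]
        ring
      have h6 : (L.map fun r => a r * Ad D (cr D r) (D.simple i)).sum = 0 := by omega
      have hiK : i.val ∈ K := hd.K_spec i i.2 h6
      have hσ' : ∀ r (hr : r ∈ L), ((σW hR hT (fW hR hT i * w) ⟨r, Ψ_lt hR hT hd (hd.L_sub r hr)⟩ : Fin D.nroots) : ℕ) = r := by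
        intro r hr
        rw [map_mul, σW_fW, Equiv.Perm.mul_apply, Tbl.wPerm_val, hσ r hr]
        exact hd.K_refl i hiK r hr
      obtain ⟨l₂, hl₂, hpr⟩ := ih _ (by omega) (fW hR hT i * w) rfl hσ'
      refine ⟨i :: l₂, ?_, ?_⟩
      · intro k hk
        rcases List.mem_cons.mp hk with rfl | hk
        · exact hiK
        · exact hl₂ k hk
      · rw [pr_cons, hpr, ← mul_assoc, (setupW hR hT).sq, one_mul]

/-! ### The subgroup `RR` -/

theorem pos_mem_RR {q : ℕ} (hq : D.IsPosRoot q) (hb : q ∉ Bad) (t : F) :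
    X hR.toAddRel q t ∈ RR hR.toAddRel Bad K :=
  X_mem_gen _ (Or.inl ⟨hq, hb⟩) t

theorem neg_mem_RR {k : ℕ} (hk : k ∈ K) (t : F) :
    X hR.toAddRel (D.neg (D.simple k)) t ∈ RR hR.toAddRel Bad K :=
  X_mem_gen _ (Or.inr ⟨k, hk, rfl⟩) t

theorem nG_mem_RR {k : ℕ} (hk : k ∈ K) (c : F) : nG hR.toAddRel (D.simple k) c ∈ RR hR.toAddRel Bad K := by
  rw [nG]
  have h := hT.simple_pos k (hd.K_lt k hk)
  exact Subgroup.mul_mem _ (Subgroup.mul_mem _ (pos_mem_RR hR hT hd h (hd.K_good k hk) c)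
    (neg_mem_RR hR hT hd hk _)) (pos_mem_RR hR hT hd h (hd.K_good k hk) c)

theorem hG_mem_RR {k : ℕ} (hk : k ∈ K) (c : F) : hG hR.toAddRel (D.simple k) c ∈ RR hR.toAddRel Bad K := by
  rw [hG]
  exact Subgroup.mul_mem _ (nG_mem_RR hR hT hd hk _) (nG_mem_RR hR hT hd hk _)

theorem A_comm' {k : ℕ} (hk : k ∈ K) {r : ℕ} (hr : r ∈ L) (t : F) :
    A hR k * X hR.toAddRel r t = X hR.toAddRel r t * A hR k := by
  rw [A_mul_X hR (hd.K_lt k hk) (Ψ_lt hR hT hd (hd.L_sub r hr)), hd.K_refl k hk r hr, hd.eta k hk r hr, one_mul]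

omit hT hd in
theorem commute_bl_of {y : GL D.Idx F} (f : ℕ → F) {S : List ℕ}
    (h : ∀ r ∈ S, y * X hR.toAddRel r (f r) = X hR.toAddRel r (f r) * y) :
    y * bl hR.toAddRel S f = bl hR.toAddRel S f * y := by
  induction S with
  | nil => simp
  | cons x S ih =>
    rw [bl_cons, ← mul_assoc, h x (by simp), mul_assoc, ih fun r hr => h r (List.mem_cons_of_mem _ hr), mul_assoc]

/-- The words in `K`. -/
theorem nL_K (l : List (Fin D.rank)) (hl : ∀ i ∈ l, i.val ∈ K) :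
    ((nL hR hT l : ↥(D.group F)) : GL D.Idx F) ∈ RR hR.toAddRel Bad K ∧
    ∀ r ∈ L, ∀ t : F, ((nL hR hT l : ↥(D.group F)) : GL D.Idx F) * X hR.toAddRel r t =
      X hR.toAddRel r t * ((nL hR hT l : ↥(D.group F)) : GL D.Idx F) := by
  induction l with
  | nil =>
    have : ((nL hR hT [] : ↥(D.group F)) : GL D.Idx F) = 1 := rfl
    rw [this]
    exact ⟨Subgroup.one_mem _, by simp⟩
  | cons i l ih =>
    have hne := hl i (by simp)
    obtain ⟨h1, h2⟩ := ih (fun k hk => hl k (List.mem_cons_of_mem _ hk))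
    have e : ((nL hR hT (i :: l) : ↥(D.group F)) : GL D.Idx F) =
        A hR i * ((nL hR hT l : ↥(D.group F)) : GL D.Idx F) := rfl
    rw [e]
    constructor
    · exact Subgroup.mul_mem _ (nG_mem_RR hR hT hd hne _) h1
    · intro r hr t
      rw [mul_assoc, h2 r hr t, ← mul_assoc, A_comm' hR hT hd hne hr, mul_assoc]

/-- The bad roots stay positive under words in `K`. -/
theorem bad_word (l : List (Fin D.rank)) (hl : ∀ i ∈ l, i.val ∈ K) {q : ℕ} (hq : q ∈ Bad) :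
    ((σW hR hT (pr (fW hR hT) l) ⟨q, (hd.Bad_pos q hq).1⟩ : Fin D.nroots) : ℕ) ∈ Bad := by
  induction l with
  | nil => simpa using hq
  | cons i l ih =>
    rw [pr_cons, map_mul, σW_fW, Equiv.Perm.mul_apply, Tbl.wPerm_val]
    exact hd.Bad_refl i (hl i (by simp)) _ (ih fun k hk => hl k (List.mem_cons_of_mem _ hk))

/-- The torus part. -/
theorem torus_param {c : ℕ → F} (hc : ∀ j < D.rank, c j ≠ 0) (h1 : ∀ r ∈ L, chi D c r = 1) {j : ℕ}
    (hj : j < D.rank) (hK' : j ∉ K) : c j = 1 := by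
  have hcomm : ∀ (S : List ℕ) (g : ℕ → ℕ → F), ∏ j' ∈ Finset.range D.rank, (S.map (g j')).prod =
      (S.map fun r => ∏ j' ∈ Finset.range D.rank, g j' r).prod := by
    intro S g
    induction S with
    | nil => simp
    | cons x S ih =>
      simp only [List.map_cons, List.prod_cons]
      rw [Finset.prod_mul_distrib, ih]
  have e1 : ∏ j' ∈ Finset.range D.rank, c j' ^ (L.map fun r => m j r * D.cartan j' r).sum = c j := by
    rw [Finset.prod_eq_single j]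
    · rw [hd.torus j hj hK' j hj, if_pos rfl, zpow_one]
    · intro b hb hne
      rw [hd.torus j hj hK' b (Finset.mem_range.mp hb), if_neg hne.symm, zpow_zero]
    · intro h
      exact absurd (Finset.mem_range.mpr hj) h
  have e2 : ∏ j' ∈ Finset.range D.rank, c j' ^ (L.map fun r => m j r * D.cartan j' r).sum =
      (L.map fun r => (chi D c r) ^ (m j r)).prod := by
    have e3 : ∀ j' ∈ Finset.range D.rank, c j' ^ (L.map fun r => m j r * D.cartan j' r).sum =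
        (L.map fun r => c j' ^ (m j r * D.cartan j' r)).prod := by
      intro j' hj'
      exact zpow_list_sum' (hc j' (Finset.mem_range.mp hj')) _ _
    rw [Finset.prod_congr rfl e3, hcomm]
    congr 1
    apply List.map_congr_left
    intro r _
    rw [chi_eq_prod, ← Finset.prod_zpow]
    apply Finset.prod_congr rfl
    intro j' _
    rw [← zpow_mul, mul_comm]
  rw [← e1, e2]
  apply List.prod_eq_one
  intro x hx
  obtain ⟨r, hr, rfl⟩ := List.mem_map.mp hx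
  rw [h1 r hr, one_zpow]

theorem hP_mem_RR {c : ℕ → F} (hc : ∀ j < D.rank, c j ≠ 0) (h1 : ∀ r ∈ L, chi D c r = 1) :
    hP hR c ∈ RR hR.toAddRel Bad K := by
  rw [hP]
  apply Subgroup.list_prod_mem
  intro x hx
  obtain ⟨j, hj, rfl⟩ := List.mem_map.mp hx
  have hj' := List.mem_range.mp hj
  by_cases hjK : j ∈ K
  · exact hG_mem_RR hR hT hd hjK _
  · rw [torus_param hR hT hd hc h1 hj' hjK, hG_one hR]
    exact Subgroup.one_mem _

/-- `RR` centralises the element. -/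
theorem RR_comm {g : GL D.Idx F} (hg : g ∈ RR hR.toAddRel Bad K) {r : ℕ} (hr : r ∈ L) (t : F) :
    g * X hR.toAddRel r t = X hR.toAddRel r t * g := by
  have hpos : ∀ q, D.IsPosRoot q → q ∉ Bad → ∀ c : F, X hR.toAddRel q c * X hR.toAddRel r t =
      X hR.toAddRel r t * X hR.toAddRel q c := by
    intro q hq hb c
    by_cases hqr : q = r
    · subst hqr
      rw [X_mul, X_mul, add_comm]
    · have h1 := commPos hR q r hq (hd.Ψ_pos r (hd.L_sub r hr)) (fun e => hqr e.symm) c t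
      have h2 : X hR.toAddRel r t * X hR.toAddRel q c = X hR.toAddRel q c * X hR.toAddRel r t := by
        rw [h1, ChevalleyDatum.commWord]
        have key : ∀ T : List (ℕ × ℤ × ℕ × ℕ), (∀ c' ∈ T, (c'.2.1 : F) = 0) →
            W hR.toAddRel (T.map fun c' => (c'.1, (c'.2.1 : F) * (-c) ^ c'.2.2.1 * t ^ c'.2.2.2)) = 1 := by
          intro T
          induction T with
          | nil => intro _; rfl
          | cons x T ih =>
            intro hT'
            rw [List.map_cons, W_cons, ih fun y hy => hT' y (List.mem_cons_of_mem _ hy), hT' x (by simp)]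
            simp
        rw [key _ (hd.Good_comm q hq hb r hr hqr), mul_one]
      exact h2.symm
  refine gen_induction hR.toAddRel (P := fun g => g * X hR.toAddRel r t = X hR.toAddRel r t * g)
    (by simp) ?_ ?_ hg
  · rintro s (⟨hs, hb⟩ | ⟨k, hk, rfl⟩) c
    · exact hpos s hs hb c
    · have hkl := hd.K_lt k hk
      have hp := hT.simple_pos k hkl
      have h1 := A_conj_X hR hkl hp.1 ((η k (D.simple k) : F) * c)
      rw [← mul_assoc, eta_sq hR hkl hp.1, one_mul, hT.w_simple k hkl] at h1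
      rw [← h1]
      have h2 := A_comm' hR hT hd hk hr t
      have h3 := hpos _ hp (hd.K_good k hk) ((η k (D.simple k) : F) * c)
      have h4 : (A hR k)⁻¹ * X hR.toAddRel r t = X hR.toAddRel r t * (A hR k)⁻¹ := by
        rw [inv_mul_eq_iff_eq_mul, ← mul_assoc, h2]
        group
      calc A hR k * X hR.toAddRel (D.simple k) ((η k (D.simple k) : F) * c) * (A hR k)⁻¹ * X hR.toAddRel r t
          = A hR k * X hR.toAddRel (D.simple k) ((η k (D.simple k) : F) * c) * ((A hR k)⁻¹ * X hR.toAddRel r t) := by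
            group
        _ = A hR k * (X hR.toAddRel (D.simple k) ((η k (D.simple k) : F) * c) * X hR.toAddRel r t) * (A hR k)⁻¹ := by
            rw [h4]
            group
        _ = (A hR k * X hR.toAddRel r t) * X hR.toAddRel (D.simple k) ((η k (D.simple k) : F) * c) * (A hR k)⁻¹ := by
            rw [h3]
            group
        _ = _ := by
            rw [h2]
            group
  · intro x y hx hy
    rw [mul_assoc, hy, ← mul_assoc, hx, mul_assoc]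

theorem RR_comm_vv {g : GL D.Idx F} (hg : g ∈ RR hR.toAddRel Bad K) :
    g * bl hR.toAddRel L (fun _ => (1 : F)) = bl hR.toAddRel L (fun _ => (1 : F)) * g :=
  commute_bl_of hR _ fun r hr => RR_comm hR hT hd hg hr _

theorem RR_le_G : RR hR.toAddRel Bad K ≤ D.group F := by
  rw [group_eq hR.toAddRel]
  refine gen_mono _ ?_
  rintro s (⟨hs, -⟩ | ⟨k, hk, rfl⟩)
  · exact hs.1
  · exact hT.neg_lt (hT.simple_lt (hd.K_lt k hk))

/-- The main inclusion. -/
theorem cent_le (hU : ∀ u ∈ D.posUnipotent F, u * bl hR.toAddRel L (fun _ => (1 : F)) =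
      bl hR.toAddRel L (fun _ => (1 : F)) * u → u ∈ RR hR.toAddRel Bad K)
    {c : GL D.Idx F} (hc : c ∈ D.group F)
    (hcv : c * bl hR.toAddRel L (fun _ => (1 : F)) = bl hR.toAddRel L (fun _ => (1 : F)) * c) :
    c ∈ RR hR.toAddRel Bad K := by
  obtain ⟨b, hb, n, hn, u, hu, rfl⟩ := normal_form_exists hR hT hc
  have huU := Un_le_U hR hT n hu
  obtain ⟨u₁, hu₁, h₁, hh₁, rfl⟩ := (mem_B_iff hR hT).mp hb
  set v := bl hR.toAddRel L (fun _ => (1 : F)) with hv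
  have hm := mem_mono_of_N hR hT hn
  -- the two conjugates of `v`
  obtain ⟨f₂, hf₂, e₂⟩ := conj_vv_U hR hT hd huU
  obtain ⟨f₁, hf₁, e₁⟩ := conj_vv_U hR hT hd (Subgroup.inv_mem _ hu₁)
  rw [← hv] at e₁ e₂
  rw [inv_inv] at e₁
  obtain ⟨ξ, hξ, -, hξc⟩ := exists_of_mem_H hR hT (Subgroup.inv_mem _ hh₁)
  have hconjH : ∀ (S : List ℕ), (∀ q ∈ S, q < D.nroots) → ∀ f : ℕ → F,
      h₁⁻¹ * bl hR.toAddRel S f * (h₁⁻¹)⁻¹ = bl hR.toAddRel S (fun q => ξ q * f q) := by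
    intro S
    induction S with
    | nil =>
      intro _ f
      simp
    | cons x S ih =>
      intro hS f
      rw [bl_cons, bl_cons, ← hξc x (hS x (by simp)) (f x), ← ih (fun q hq => hS q (List.mem_cons_of_mem _ hq)) f]
      group
  have hΨlt : ∀ q ∈ Ψ, q < D.nroots := fun q hq => Ψ_lt hR hT hd hq
  have hrel : n * bl hR.toAddRel Ψ f₂ * n⁻¹ = bl hR.toAddRel Ψ (fun q => ξ q * f₁ q) := by
    rw [← e₂, ← hconjH Ψ hΨlt f₁, ← e₁]
    have e : n * (u * v * u⁻¹) * n⁻¹ = h₁⁻¹ * (u₁⁻¹ * v * u₁) * h₁ := by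
      have h3 : (u₁ * h₁ * n * u) * v * (u₁ * h₁ * n * u)⁻¹ = v := by
        rw [hcv]
        group
      have h4 : n * (u * v * u⁻¹) * n⁻¹ = h₁⁻¹ * u₁⁻¹ * ((u₁ * h₁ * n * u) * v * (u₁ * h₁ * n * u)⁻¹) * u₁ * h₁ := by
        group
      rw [h4, h3]
      group
    rw [e]
    group
  -- the permutation
  have hperm : ∀ r (hr : r ∈ L), ((permOf ⟨n, hm⟩ ⟨r, Ψ_lt hR hT hd (hd.L_sub r hr)⟩ : Fin D.nroots) : ℕ) ∈ Ψ := by
    intro r hr
    refine mono_step hR hT hd hn hm hrel (hd.L_sub r hr) ?_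
    rw [hf₂ r hr]
    exact one_ne_zero
  have hnG : n ∈ D.group F := N_le_G hR hT hn
  have hnP : (⟨n, hnG⟩ : ↥(D.group F)) ∈ (pair hR hT).N := (mem_PN hR hT).2 hn
  set w : WW (pair hR hT) := QuotientGroup.mk (⟨⟨n, hnG⟩, hnP⟩ : (pair hR hT).N) with hw
  have hσw : ∀ s, σW hR hT w s = permOf ⟨n, hm⟩ s := by
    intro s
    rw [hw, σW_mk]
    rfl
  -- the invariants
  have horbit : ∀ (l : List (Fin D.rank)) (s : Fin D.nroots),
      orb ((σW hR hT (pr (fW hR hT) l) s : Fin D.nroots) : ℕ) = orb s := by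
    intro l s
    induction l with
    | nil => simp
    | cons i l ih =>
      rw [pr_cons, map_mul, σW_fW, Equiv.Perm.mul_apply, Tbl.wPerm_val, hd.orb_refl i i.2 _ (Fin.isLt _), ih]
  have hfix : ∀ r (hr : r ∈ L), ((σW hR hT w ⟨r, Ψ_lt hR hT hd (hd.L_sub r hr)⟩ : Fin D.nroots) : ℕ) = r := by
    let g : ℕ → ℕ := fun r => if h : r < D.nroots then (σW hR hT w ⟨r, h⟩).val else r
    have hg : ∀ r (h : r < D.nroots), g r = (σW hR hT w ⟨r, h⟩).val := fun _ h => dif_pos h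
    have := hd.sep g ?_ ?_
    · intro r hr
      have h1 := this r hr
      rw [hg r (Ψ_lt hR hT hd (hd.L_sub r hr))] at h1
      exact h1
    · intro r hr
      have hrl := Ψ_lt hR hT hd (hd.L_sub r hr)
      rw [hg r hrl, hσw]
      refine ⟨hperm r hr, ?_⟩
      rw [← hσw]
      obtain ⟨l, hl, -⟩ := (setupW hR hT).ex w
      rw [← hl]
      exact horbit l _
    · intro r hr r' hr'
      have hrl := Ψ_lt hR hT hd (hd.L_sub r hr)
      have hrl' := Ψ_lt hR hT hd (hd.L_sub r' hr')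
      rw [hg r hrl, hg r' hrl']
      exact Ad_σW hR hT w ⟨r, hrl⟩ ⟨r', hrl'⟩
  obtain ⟨l, hl, hpr⟩ := stab hR hT hd _ w rfl hfix
  have hmk := hpr
  rw [pr_fW, hw, mk_eq] at hmk
  have hB := (mem_PB hR hT).1 hmk
  have hN : ((nL hR hT l : ↥(D.group F)) : GL D.Idx F)⁻¹ * n ∈ D.monomialSubgroup F :=
    Subgroup.mul_mem _ (Subgroup.inv_mem _ ((mem_PN hR hT).1 (nL_mem hR hT l))) hn
  have hH : ((nL hR hT l : ↥(D.group F)) : GL D.Idx F)⁻¹ * n ∈ D.diagonalSubgroup F := by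
    rw [← B_inf_N hR hT]
    exact ⟨hB, hN⟩
  set μ : GL D.Idx F := ((nL hR hT l : ↥(D.group F)) : GL D.Idx F) with hμdef
  obtain ⟨hμR₀, hμc₀⟩ := nL_K hR hT hd l hl
  have hμR : μ ∈ RR hR.toAddRel Bad K := hμR₀
  have hμN : μ ∈ D.monomialSubgroup F := (mem_PN hR hT).1 (nL_mem hR hT l)
  -- `u` lies in `RR`
  have huR : u ∈ RR hR.toAddRel Bad K := by
    have hle : Un D F n ≤ RR hR.toAddRel Bad K := by
      rw [Un, Subgroup.closure_le]
      rintro x ⟨q, t, hq, h2, hx⟩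
      rw [eq_X hR.toAddRel] at hx
      rw [hx]
      apply pos_mem_RR hR hT hd hq
      intro hqb
      -- the image of a bad root is positive
      have h3 := bad_word hR hT hd l hl hqb
      rw [hpr, hσw] at h3
      have h4 := (hd.Bad_pos _ h3)
      obtain ⟨κ, hκ, h5⟩ := conj_of_mem_N hR hT hn hm ⟨q, hq.1⟩
      have h6 : X hR.toAddRel q 1 ∈ (D.rootSubgroup F q) := by
        rw [rootSubgroup_eq hR.toAddRel]
        exact X_mem_gen _ (Set.mem_singleton _) _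
      have h7 : n * X hR.toAddRel q 1 * n⁻¹ ∈ D.negUnipotent F := h2 ⟨_, h6, rfl⟩
      rw [h5] at h7
      have h8 : X hR.toAddRel (permOf ⟨n, hm⟩ ⟨q, hq.1⟩) (κ * 1) ∈ D.borelSubgroup F ⊓ D.negUnipotent F :=
        ⟨U_le_B hR hT (X_mem_U hR hT h4 _), h7⟩
      rw [B_inf_V hR hT, Subgroup.mem_bot] at h8
      have h9 := X_inj hR hT h4 (h8.trans (X_zero _ _).symm)
      rw [mul_one] at h9
      exact hκ h9
    exact hle hu
  -- the Borel part
  set h₂ := μ⁻¹ * n with hh₂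
  set h₄ := h₁ * (μ * h₂ * μ⁻¹) with hh₄
  have hh₄H : h₄ ∈ D.diagonalSubgroup F :=
    Subgroup.mul_mem _ hh₁ (H_norm_N hR hT hμN hH)
  have e3 : u₁ * h₁ * n * u = u₁ * h₄ * μ * u := by
    rw [hh₄, hh₂]
    group
  have hμv : μ * v = v * μ := RR_comm_vv hR hT hd hμR
  have huv : u * v = v * u := RR_comm_vv hR hT hd huR
  have hbv : (u₁ * h₄) * v = v * (u₁ * h₄) := by
    have h5 : (u₁ * h₄ * μ * u) * v = v * (u₁ * h₄ * μ * u) := by
      rw [← e3]
      exact hcv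
    have h6 : (u₁ * h₄) * (μ * u * v) = v * (u₁ * h₄) * (μ * u) := by
      calc (u₁ * h₄) * (μ * u * v) = (u₁ * h₄ * μ * u) * v := by group
        _ = v * (u₁ * h₄ * μ * u) := h5
        _ = _ := by group
    have h7 : μ * u * v = v * (μ * u) := by
      rw [mul_assoc, huv, ← mul_assoc, hμv, mul_assoc]
    rw [h7, ← mul_assoc] at h6
    exact mul_right_cancel h6
  obtain ⟨c₀, hc₀, hc₀e⟩ : h₄ ∈ torus hR := by
    rw [← diagonal_eq hR hT]
    exact hh₄H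
  obtain ⟨f₅, hf₅, e₅⟩ := conj_vv_U hR hT hd (Subgroup.inv_mem _ hu₁)
  rw [← hv, inv_inv] at e₅
  have hconjP : ∀ (S : List ℕ), (∀ q ∈ S, q < D.nroots) → ∀ f : ℕ → F,
      hP hR c₀ * bl hR.toAddRel S f * (hP hR c₀)⁻¹ = bl hR.toAddRel S (fun q => chi D c₀ q * f q) := by
    intro S
    induction S with
    | nil =>
      intro _ f
      simp
    | cons x S ih =>
      intro hS f
      rw [bl_cons, bl_cons, ← hP_conj hR hc₀ (hS x (by simp)) (f x), ← ih (fun q hq => hS q (List.mem_cons_of_mem _ hq)) f]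
      group
  have h8 : bl hR.toAddRel L (fun q => chi D c₀ q * 1) = bl hR.toAddRel Ψ f₅ := by
    rw [← e₅, ← hconjP L (fun q hq => hΨlt q (hd.L_sub q hq)), ← hc₀e, ← hv]
    have h9 : h₄ * v * h₄⁻¹ = u₁⁻¹ * ((u₁ * h₄) * v * (u₁ * h₄)⁻¹) * u₁ := by group
    rw [h9, hbv]
    group
  have hchi : ∀ r ∈ L, chi D c₀ r = 1 := by
    intro r hr
    have hrΨ := hd.L_sub r hr
    have h10 := bl_coeff (hA := hR.toAddRel) hT hd.L_nodup hd.Ψ_nodup (fun q hq => hd.Ψ_pos q (hd.L_sub q hq))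
      hd.Ψ_pos (comm_sub hR hT hd hd.L_sub) (comm_Ψ hR hT hd) h8 (hd.Ψ_pos r hrΨ)
    rw [if_pos hr, if_pos hrΨ, hf₅ r hr, mul_one] at h10
    exact h10
  have hh₄R : h₄ ∈ RR hR.toAddRel Bad K := by
    rw [hc₀e]
    exact hP_mem_RR hR hT hd hc₀ hchi
  have hu₁v : u₁ * v = v * u₁ := by
    have h11 : h₄ * v = v * h₄ := RR_comm_vv hR hT hd hh₄R
    have h12 : u₁ * (v * h₄) = v * (u₁ * h₄) := by
      rw [← h11, ← mul_assoc]
      exact hbv
    rw [← mul_assoc] at h12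
    have h13 : v * (u₁ * h₄) = (v * u₁) * h₄ := by group
    rw [h13] at h12
    exact mul_right_cancel h12
  have hu₁R := hU u₁ hu₁ hu₁v
  rw [e3]
  exact Subgroup.mul_mem _ (Subgroup.mul_mem _ (Subgroup.mul_mem _ hu₁R hh₄R) hμR) huR

/-- The centraliser theorem. -/
theorem cent_eq (hU : ∀ u ∈ D.posUnipotent F, u * bl hR.toAddRel L (fun _ => (1 : F)) =
      bl hR.toAddRel L (fun _ => (1 : F)) * u → u ∈ RR hR.toAddRel Bad K) :
    D.group F ⊓ Subgroup.centralizer {bl hR.toAddRel L (fun _ => (1 : F))} = RR hR.toAddRel Bad K := by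
  apply le_antisymm
  · rintro c ⟨h1, h2⟩
    exact cent_le hR hT hd hU h1 (Subgroup.mem_centralizer_singleton_iff.mp h2)
  · intro c hc
    exact ⟨RR_le_G hR hT hd hc, Subgroup.mem_centralizer_singleton_iff.mpr (RR_comm_vv hR hT hd hc)⟩

end Main

end Cfsg.Agent.Lib.ChevBN.CentGen
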