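import Cfsg.Agent.Lib.ChevBN.CentGen
import Cfsg.Agent.Lib.ChevBN.FastData
import Cfsg.Agent.Lib.Chevalley.Tbl.G2Sys
import Cfsg.Agent.Lib.Chevalley.Tbl.F4Sys

/-!
The tables of the centraliser theorem in characteristic two, and the statements for `G₂` and `F₄`.
-/

set_option autoImplicit false
set_option linter.unusedSectionVars false

namespace Cfsg.Agent.Lib.ChevBN.CentTab

open Cfsg.Lie Cfsg.Agent.Lib.ChevBN.Elem Cfsg.Agent.Lib.ChevBN.Entries Cfsg.Agent.Lib.ChevBN.Table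
open Cfsg.Agent.Lib.ChevBN.Collect Cfsg.Agent.Lib.ChevBN.Rel Cfsg.Agent.Lib.ChevBN.Torus
open Cfsg.Agent.Lib.ChevBN.GraphFix Cfsg.Agent.Lib.ChevBN.CentGen Cfsg.Agent.Lib.ChevBN.Stmts

/-- The decidable tables. -/
structure CT (D : ChevalleyDatum) (L Ψ Bad K : List ℕ) (a : ℕ → ℤ) (m : ℕ → ℕ → ℤ) (orb : ℕ → ℕ) : Prop where
  Ψ_nodup : Ψ.Nodup
  Ψ_pos : ∀ q ∈ Ψ, D.IsPosRoot q
  L_nodup : L.Nodup
  L_sub : ∀ r ∈ L, r ∈ Ψ
  Ψ_comm : ∀ q₁ ∈ Ψ, ∀ q₂ ∈ Ψ, q₁ ≠ q₂ → D.commTerms q₁ q₂ = []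
  act : ∀ s < D.nroots, D.IsPosRoot s → ∀ r ∈ Ψ, s ≠ r → ∀ c ∈ D.commTerms s r,
    (2 : ℤ) ∣ c.2.1 ∨ (c.1 ∈ Ψ ∧ c.1 ∉ L)
  orb_refl : ∀ i < D.rank, ∀ s < D.nroots, orb (D.reflectRoot i s) = orb s
  dom : ∀ s < D.nroots, D.IsPosRoot s → 0 ≤ (L.map fun r => a r * Ad D (cr D r) s).sum
  K_spec : ∀ i < D.rank, (L.map fun r => a r * Ad D (cr D r) (D.simple i)).sum = 0 → i ∈ K
  K_lt : ∀ k ∈ K, k < D.rank
  K_refl : ∀ k ∈ K, ∀ r ∈ L, D.reflectRoot k r = r
  Bad_pos : ∀ q ∈ Bad, D.IsPosRoot q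
  Bad_refl : ∀ k ∈ K, ∀ q ∈ Bad, D.reflectRoot k q ∈ Bad
  Good_comm : ∀ q < D.nroots, D.IsPosRoot q → q ∉ Bad → ∀ r ∈ L, q ≠ r → ∀ c ∈ D.commTerms q r, (2 : ℤ) ∣ c.2.1
  K_good : ∀ k ∈ K, D.simple k ∉ Bad
  torus : ∀ j < D.rank, j ∉ K → ∀ j' < D.rank, (L.map fun r => m j r * D.cartan j' r).sum = if j = j' then 1 else 0

section

variable {D : ChevalleyDatum} {L Ψ Bad K : List ℕ} {a : ℕ → ℤ} {m : ℕ → ℕ → ℤ} {orb : ℕ → ℕ}

theorem int_cast_even {F : Type*} [Field F] [CharP F 2] {n : ℤ} (h : (2 : ℤ) ∣ n) : (n : F) = 0 := by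
  obtain ⟨k, rfl⟩ := h
  push_cast
  rw [CharTwo.two_eq_zero, zero_mul]

theorem CT.toCD (h : CT D L Ψ Bad K a m orb) {F : Type*} [Field F] [CharP F 2] {η : ℕ → ℕ → ℤ}
    (hR : Sys D F η)
    (hsep : ∀ g : ℕ → ℕ, (∀ r ∈ L, g r ∈ Ψ ∧ orb (g r) = orb r) →
      (∀ r ∈ L, ∀ r' ∈ L, Ad D (cr D (g r)) (g r') = Ad D (cr D r) r') → ∀ r ∈ L, g r = r) :
    CD D F η L Ψ Bad K a m orb where
  Ψ_nodup := h.Ψ_nodup
  Ψ_pos := h.Ψ_pos
  L_nodup := h.L_nodup
  L_sub := h.L_sub
  Ψ_comm := h.Ψ_comm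
  act := by
    intro s hs r hr hsr c hc
    rcases h.act s hs.1 hs r hr hsr c hc with h1 | h1
    · exact Or.inl (int_cast_even h1)
    · exact Or.inr h1
  orb_refl := h.orb_refl
  sep := hsep
  dom := fun s hs => h.dom s hs.1 hs
  K_spec := h.K_spec
  K_lt := h.K_lt
  K_refl := h.K_refl
  eta := by
    intro k hk r hr
    rcases hR.eta_sign k (h.K_lt k hk) r (h.Ψ_pos r (h.L_sub r hr)).1 with h1 | h1
    · rw [h1]
      simp
    · rw [h1]
      push_cast
      rw [CharTwo.neg_eq]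
  Bad_pos := h.Bad_pos
  Bad_refl := h.Bad_refl
  Good_comm := fun q hq hb r hr hne c hc => int_cast_even (h.Good_comm q hq.1 hq hb r hr hne c hc)
  K_good := h.K_good
  torus := h.torus

theorem sep_one {r : ℕ} (h : ∀ x ∈ Ψ, orb x = orb r → x = r) (g : ℕ → ℕ)
    (h1 : ∀ q ∈ [r], g q ∈ Ψ ∧ orb (g q) = orb q)
    (_ : ∀ q ∈ [r], ∀ q' ∈ [r], Ad D (cr D (g q)) (g q') = Ad D (cr D q) q') : ∀ q ∈ [r], g q = q := by
  intro q hq
  obtain rfl : q = r := by simpa using hq
  exact h _ (h1 q hq).1 (h1 q hq).2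

theorem sep_two {r₁ r₂ : ℕ}
    (h : ∀ x ∈ Ψ, ∀ y ∈ Ψ, orb x = orb r₁ → orb y = orb r₂ → Ad D (cr D x) y = Ad D (cr D r₁) r₂ → x = r₁ ∧ y = r₂)
    (g : ℕ → ℕ) (h1 : ∀ q ∈ [r₁, r₂], g q ∈ Ψ ∧ orb (g q) = orb q)
    (h2 : ∀ q ∈ [r₁, r₂], ∀ q' ∈ [r₁, r₂], Ad D (cr D (g q)) (g q') = Ad D (cr D q) q') :
    ∀ q ∈ [r₁, r₂], g q = q := by
  have h3 := h _ (h1 r₁ (by simp)).1 _ (h1 r₂ (by simp)).1 (h1 r₁ (by simp)).2 (h1 r₂ (by simp)).2
    (h2 r₁ (by simp) r₂ (by simp))
  intro q hq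
  have hq' : q = r₁ ∨ q = r₂ := by simpa using hq
  rcases hq' with rfl | rfl
  · exact h3.1
  · exact h3.2

end

/-! ### Conjugation steps -/

section Step

variable {D : ChevalleyDatum} {F : Type*} [Field F] [CharP F 2] {η : ℕ → ℕ → ℤ} (hR : Sys D F η)
include hR

theorem X_conj_even {s r : ℕ} (hs : D.IsPosRoot s) (hr : D.IsPosRoot r) (hsr : s ≠ r)
    (h : ∀ c ∈ D.commTerms s r, (2 : ℤ) ∣ c.2.1) (c b : F) :
    X hR.toAddRel s c * X hR.toAddRel r b * (X hR.toAddRel s c)⁻¹ = X hR.toAddRel r b := by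
  have h1 := commPos hR s r hs hr (fun e => hsr e.symm) (-c) b
  have h2 : ∀ T : List (ℕ × ℤ × ℕ × ℕ), (∀ c' ∈ T, (2 : ℤ) ∣ c'.2.1) →
      W hR.toAddRel (T.map fun c' => (c'.1, (c'.2.1 : F) * (- (-c)) ^ c'.2.2.1 * b ^ c'.2.2.2)) = 1 := by
    intro T
    induction T with
    | nil =>
      intro _
      rfl
    | cons c' T ih =>
      intro hT'
      rw [List.map_cons, W_cons, ih (fun x hx => hT' x (List.mem_cons_of_mem _ hx)),
        int_cast_even (hT' c' (by simp))]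
      simp
  have h3 := h2 _ h
  have h4 : X hR.toAddRel r b * X hR.toAddRel s (-c) = X hR.toAddRel s (-c) * X hR.toAddRel r b *
      W hR.toAddRel ((D.commTerms s r).map fun c' => (c'.1, (c'.2.1 : F) * (- (-c)) ^ c'.2.2.1 * b ^ c'.2.2.2)) := h1
  rw [h3, mul_one] at h4
  have h5 : (X hR.toAddRel s c)⁻¹ = X hR.toAddRel s (-c) := X_inv _ _ _
  have h6 : X hR.toAddRel s c = (X hR.toAddRel s (-c))⁻¹ := by
    rw [X_inv, neg_neg]
  rw [h5, h6, mul_assoc, h4]
  group

theorem X_conj_one {s r q : ℕ} {n : ℤ} (hs : D.IsPosRoot s) (hr : D.IsPosRoot r) (hsr : s ≠ r)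
    (h : D.commTerms s r = [(q, n, 1, 1)]) (hn : n % 2 = 1) (c b : F) :
    X hR.toAddRel s c * X hR.toAddRel r b * (X hR.toAddRel s c)⁻¹ = X hR.toAddRel r b * X hR.toAddRel q (c * b) := by
  have h1 := commPos hR s r hs hr (fun e => hsr e.symm) (-c) b
  have h4 : X hR.toAddRel r b * X hR.toAddRel s (-c) = X hR.toAddRel s (-c) * X hR.toAddRel r b *
      W hR.toAddRel ((D.commTerms s r).map fun c' => (c'.1, (c'.2.1 : F) * (- (-c)) ^ c'.2.2.1 * b ^ c'.2.2.2)) := h1
  have hn1 : (n : F) = 1 := by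
    have h2 : n = 2 * (n / 2) + 1 := by omega
    rw [h2]
    push_cast
    rw [CharTwo.two_eq_zero]
    simp
  rw [h] at h4
  simp only [List.map_cons, List.map_nil, W_cons, W_nil, mul_one, hn1, one_mul, pow_one, neg_neg] at h4
  have h5 : (X hR.toAddRel s c)⁻¹ = X hR.toAddRel s (-c) := X_inv _ _ _
  have h6 : X hR.toAddRel s c = (X hR.toAddRel s (-c))⁻¹ := by
    rw [X_inv, neg_neg]
  rw [h5]
  nth_rewrite 1 [h6]
  rw [mul_assoc, h4]
  group

/-- Add `e` to the coefficient at `q`. -/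
def upd (f : ℕ → F) (q : ℕ) (e : F) : ℕ → F := fun x => if x = q then f x + e else f x

theorem conj_step_list {s r₀ q₀ : ℕ} {n : ℤ} (hs : D.IsPosRoot s)
    (h₀ : D.commTerms s r₀ = [(q₀, n, 1, 1)]) (hn : n % 2 = 1) (c : F) (f : ℕ → F) :
    ∀ P : List ℕ, P.Nodup → (∀ r ∈ P, D.IsPosRoot r) → s ∉ P →
      (∀ r ∈ P, r ≠ r₀ → ∀ c ∈ D.commTerms s r, (2 : ℤ) ∣ c.2.1) →
      (∀ r ∈ P, ∀ t t' : F, Commute (X hR.toAddRel r t) (X hR.toAddRel q₀ t')) →
      X hR.toAddRel s c * bl hR.toAddRel P f * (X hR.toAddRel s c)⁻¹ =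
        bl hR.toAddRel P f * (if r₀ ∈ P then X hR.toAddRel q₀ (c * f r₀) else 1) := by
  intro P
  induction P with
  | nil =>
    intro _ _ _ _ _
    simp
  | cons a P ih =>
    intro hnd hp hsP hev hC
    rw [List.nodup_cons] at hnd
    have hsa : s ≠ a := fun e => hsP (by simp [e])
    have ih' := ih hnd.2 (fun r hr => hp r (List.mem_cons_of_mem _ hr))
      (fun h => hsP (List.mem_cons_of_mem _ h)) (fun r hr => hev r (List.mem_cons_of_mem _ hr))
      (fun r hr => hC r (List.mem_cons_of_mem _ hr))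
    have e1 : X hR.toAddRel s c * (X hR.toAddRel a (f a) * bl hR.toAddRel P f) * (X hR.toAddRel s c)⁻¹ =
        (X hR.toAddRel s c * X hR.toAddRel a (f a) * (X hR.toAddRel s c)⁻¹) *
          (X hR.toAddRel s c * bl hR.toAddRel P f * (X hR.toAddRel s c)⁻¹) := by group
    rw [bl_cons, e1, ih']
    by_cases hra : a = r₀
    · subst hra
      have hnot : a ∉ P := hnd.1
      rw [X_conj_one hR hs (hp a (by simp)) hsa h₀ hn, if_neg hnot, if_pos (by simp), mul_one]
      have hc := commute_X_bl (hA := hR.toAddRel) (a := q₀) (L := P)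
        (fun q hq s t => (hC q (List.mem_cons_of_mem _ hq) t s).symm) (c * f a) f
      rw [mul_assoc, hc.eq, mul_assoc]
    · rw [X_conj_even hR hs (hp a (by simp)) hsa (hev a (by simp) hra)]
      have : (r₀ ∈ a :: P) ↔ r₀ ∈ P := by
        simp [Ne.symm hra]
      simp only [this, mul_assoc]

theorem conj_step {Ψ : List ℕ} (hnd : Ψ.Nodup) (hp : ∀ r ∈ Ψ, D.IsPosRoot r)
    (hC : ∀ q₁ ∈ Ψ, ∀ q₂ ∈ Ψ, q₁ ≠ q₂ → ∀ s t : F, Commute (X hR.toAddRel q₁ s) (X hR.toAddRel q₂ t))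
    {s r₀ q₀ : ℕ} {n : ℤ} (hs : D.IsPosRoot s) (hsΨ : s ∉ Ψ) (hr₀ : r₀ ∈ Ψ) (hq₀ : q₀ ∈ Ψ)
    (h₀ : D.commTerms s r₀ = [(q₀, n, 1, 1)]) (hn : n % 2 = 1)
    (hev : ∀ r ∈ Ψ, r ≠ r₀ → ∀ c ∈ D.commTerms s r, (2 : ℤ) ∣ c.2.1) (c : F) (f : ℕ → F) :
    X hR.toAddRel s c * bl hR.toAddRel Ψ f * (X hR.toAddRel s c)⁻¹ =
      bl hR.toAddRel Ψ (upd f q₀ (c * f r₀)) := by
  have hCq : ∀ r ∈ Ψ, ∀ t t' : F, Commute (X hR.toAddRel r t) (X hR.toAddRel q₀ t') := by
    intro r hr t t'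
    by_cases h : r = q₀
    · subst h
      have h1 : X hR.toAddRel r t * X hR.toAddRel r t' = X hR.toAddRel r t' * X hR.toAddRel r t := by
        rw [X_mul, X_mul, add_comm]
      exact h1
    · exact hC r hr q₀ hq₀ h t t'
  rw [conj_step_list hR hs h₀ hn c f Ψ hnd hp hsΨ hev hCq, if_pos hr₀, ← bl_single hnd hq₀, bl_mul hnd hC]
  apply bl_congr
  intro q _
  by_cases h : q = q₀
  · simp [upd, h]
  · simp [upd, h]

end Step

/-! ### Tables -/

/-- The short roots of `G₂`. -/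
def orbG2 (s : ℕ) : ℕ := if s ∈ [2, 3, 4, 7, 8, 9] then 1 else 0

/-- The short roots of `F₄`. -/
def orbF4 (s : ℕ) : ℕ :=
  if s ∈ [3, 7, 8, 9, 10, 11, 12, 13, 14, 18, 19, 20, 27, 28, 29, 33, 34, 35, 36, 37, 38, 39, 40, 44] then 1 else 0

theorem ct_z : CT chevG2 [11] [11] [] [0] (fun _ => 1) (fun _ _ => 1) orbG2 :=
  ⟨by decide +kernel, by decide +kernel, by decide +kernel, by decide +kernel, by decide +kernel,
   by decide +kernel, by decide +kernel, by decide +kernel, by decide +kernel, by decide +kernel,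
   by decide +kernel, by decide +kernel, by decide +kernel, by decide +kernel, by decide +kernel,
   by decide +kernel⟩

theorem ct_t : CT chevG2 [9] [9, 10, 11] [7, 8] [1] (fun _ => 1) (fun _ _ => 1) orbG2 :=
  ⟨by decide +kernel, by decide +kernel, by decide +kernel, by decide +kernel, by decide +kernel,
   by decide +kernel, by decide +kernel, by decide +kernel, by decide +kernel, by decide +kernel,
   by decide +kernel, by decide +kernel, by decide +kernel, by decide +kernel, by decide +kernel,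
   by decide +kernel⟩

/-- The torus matrix for `x₄₇(1) x₄₄(1)`. -/
def mW (j r : ℕ) : ℤ := if (j = 3 ∧ r = 47) ∨ (j = 0 ∧ r = 44) then 1 else 0

theorem ct_w : CT chevF4 [47, 44] [44, 47] [] [1, 2] (fun _ => 1) mW orbF4 :=
  ⟨by decide +kernel, by decide +kernel, by decide +kernel, by decide +kernel, by decide +kernel,
   by decide +kernel, by decide +kernel, by decide +kernel, by decide +kernel, by decide +kernel,
   by decide +kernel, by decide +kernel, by decide +kernel, by decide +kernel, by decide +kernel,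
   by decide +kernel⟩

/-- The torus matrix for `x₃₉(1) x₄₅(1)`. -/
def mV (j r : ℕ) : ℤ := if j = 2 ∧ r = 39 then 2 else 1

/-- The weights for `x₃₉(1) x₄₅(1)`. -/
def aV (r : ℕ) : ℤ := if r = 39 then 2 else 3

theorem ct_v : CT chevF4 [39, 45] [39, 40, 44, 45, 46, 47] [25, 26, 27, 34] [0, 3] aV mV orbF4 :=
  ⟨by decide +kernel, by decide +kernel, by decide +kernel, by decide +kernel, by decide +kernel,
   by decide +kernel, by decide +kernel, by decide +kernel, by decide +kernel, by decide +kernel,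
   by decide +kernel, by decide +kernel, by decide +kernel, by decide +kernel, by decide +kernel,
   by decide +kernel⟩

theorem sep_v : ∀ x ∈ [39, 40, 44, 45, 46, 47], ∀ y ∈ [39, 40, 44, 45, 46, 47], orbF4 x = orbF4 39 → orbF4 y = orbF4 45 →
    Ad chevF4 (cr chevF4 x) y = Ad chevF4 (cr chevF4 39) 45 → x = 39 ∧ y = 45 := by decide +kernel

theorem sep_w : ∀ x ∈ [44, 47], ∀ y ∈ [44, 47], orbF4 x = orbF4 47 → orbF4 y = orbF4 44 →
    Ad chevF4 (cr chevF4 x) y = Ad chevF4 (cr chevF4 47) 44 → x = 47 ∧ y = 44 := by decide +kernel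

theorem sep_t : ∀ x ∈ [9, 10, 11], orbG2 x = orbG2 9 → x = 9 := by decide +kernel
theorem sep_z : ∀ x ∈ [11], orbG2 x = orbG2 11 → x = 11 := by decide +kernel

/-! ### The statements -/

section Stmts

variable {D : ChevalleyDatum} {F : Type*} [Field F] (hA : AddRel D F)

theorem gen_union (A B : Set ℕ) : gen hA (A ∪ B) = gen hA A ⊔ gen hA B := by
  apply le_antisymm
  · refine gen_le hA ?_
    rintro r (hr | hr) t
    · exact (le_sup_left : gen hA A ≤ _) (X_mem_gen hA hr t)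
    · exact (le_sup_right : gen hA B ≤ _) (X_mem_gen hA hr t)
  · exact sup_le (gen_mono hA Set.subset_union_left) (gen_mono hA Set.subset_union_right)

theorem gen_pos_nil : gen hA {q | D.IsPosRoot q ∧ q ∉ ([] : List ℕ)} = D.posUnipotent F := by
  rw [posUnipotent_eq hA]
  congr 1
  ext q
  simp

end Stmts

section Inst

variable {F : Type*} [Field F] [CharP F 2]

theorem stmt_z {z : GL chevG2.Idx F} (hz : (z : Matrix chevG2.Idx chevG2.Idx F) = chevG2.x F 11 1) :
    chevG2.group F ⊓ Subgroup.centralizer {z} = chevG2.posUnipotent F ⊔ chevG2.rootSubgroup F 4 := by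
  have hR := Cfsg.Agent.Lib.Chevalley.Tbl.G2.sys (F := F)
  have hT := Cfsg.Agent.Lib.ChevBN.FastData.tbl_chevG2
  have hd := ct_z.toCD hR (fun g => sep_one sep_z g)
  have e : z = bl hR.toAddRel [11] (fun _ => 1) := by
    rw [(eq_X hR.toAddRel).mp hz]
    simp
  have hU : ∀ u ∈ chevG2.posUnipotent F, u * bl hR.toAddRel [11] (fun _ => (1 : F)) =
      bl hR.toAddRel [11] (fun _ => (1 : F)) * u → u ∈ RR hR.toAddRel [] [0] := by
    intro u hu _
    rw [RR, gen_union, gen_pos_nil]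
    exact (le_sup_left : chevG2.posUnipotent F ≤ _) hu
  rw [e, cent_eq hR hT hd hU, RR, gen_union, gen_pos_nil, rootSubgroup_eq hR.toAddRel]
  congr 2
  ext s
  simp only [List.mem_singleton, exists_eq_left, Set.mem_ofPred_eq, Set.mem_singleton_iff]
  have : chevG2.neg (chevG2.simple 0) = 4 := by decide +kernel
  rw [this]

theorem stmt_w {w : GL chevF4.Idx F}
    (hw : (w : Matrix chevF4.Idx chevF4.Idx F) = chevF4.x F 47 1 * chevF4.x F 44 1) :
    chevF4.group F ⊓ Subgroup.centralizer {w} =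
      chevF4.posUnipotent F ⊔ chevF4.rootSubgroup F 20 ⊔ chevF4.rootSubgroup F 22 := by
  have hR := Cfsg.Agent.Lib.Chevalley.Tbl.F4.sys (F := F)
  have hT := Cfsg.Agent.Lib.ChevBN.FastData.tbl_chevF4
  have hd := ct_w.toCD hR (fun g => sep_two sep_w g)
  have e : w = bl hR.toAddRel [47, 44] (fun _ => 1) := by
    apply Units.ext
    rw [hw]
    simp
  have hU : ∀ u ∈ chevF4.posUnipotent F, u * bl hR.toAddRel [47, 44] (fun _ => (1 : F)) =
      bl hR.toAddRel [47, 44] (fun _ => (1 : F)) * u → u ∈ RR hR.toAddRel [] [1, 2] := by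
    intro u hu _
    rw [RR, gen_union, gen_pos_nil]
    exact (le_sup_left : chevF4.posUnipotent F ≤ _) hu
  rw [e, cent_eq hR hT hd hU, RR, gen_union, gen_pos_nil, rootSubgroup_eq hR.toAddRel,
    rootSubgroup_eq hR.toAddRel, sup_assoc, ← gen_union]
  congr 2
  ext s
  have h1 : chevF4.neg (chevF4.simple 1) = 20 := by decide +kernel
  have h2 : chevF4.neg (chevF4.simple 2) = 22 := by decide +kernel
  simp [h1, h2, or_comm]

theorem strip_conj {G : Type*} [Group G] {P M Z v : G} (hP : P * v = v * P) (hZ : Z * v = v * Z)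
    (h : (P * M * Z) * v = v * (P * M * Z)) : M * v * M⁻¹ = v := by
  have h1 : P * (M * v) * Z = P * (v * M) * Z := by
    calc P * (M * v) * Z = P * M * (v * Z) := by group
      _ = P * M * (Z * v) := by rw [hZ]
      _ = (P * M * Z) * v := by group
      _ = v * (P * M * Z) := h
      _ = (v * P) * M * Z := by group
      _ = (P * v) * M * Z := by rw [hP]
      _ = _ := by group
  have h2 : M * v = v * M := mul_left_cancel (mul_right_cancel h1)
  rw [h2]
  group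

theorem root_le_RR {D : ChevalleyDatum} (hA : AddRel D F) {Bad K : List ℕ} {r : ℕ}
    (h : (D.IsPosRoot r ∧ r ∉ Bad) ∨ ∃ k ∈ K, r = D.neg (D.simple k)) :
    D.rootSubgroup F r ≤ RR hA Bad K := by
  rw [rootSubgroup_eq hA]
  exact gen_mono hA (Set.singleton_subset_iff.mpr h)

theorem X_mem_root {D : ChevalleyDatum} (hA : AddRel D F) (r : ℕ) (t : F) : X hA r t ∈ D.rootSubgroup F r := by
  rw [rootSubgroup_eq hA]
  exact X_mem_gen hA (Set.mem_singleton r) t

theorem bl_append' {D : ChevalleyDatum} (hA : AddRel D F) (L₁ L₂ : List ℕ) (f : ℕ → F) :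
    bl hA (L₁ ++ L₂) f = bl hA L₁ f * bl hA L₂ f := by
  rw [bl, bl, bl, List.map_append, W_append]

theorem stmt_t {t : GL chevG2.Idx F} (ht : (t : Matrix chevG2.Idx chevG2.Idx F) = chevG2.x F 9 1) :
    chevG2.group F ⊓ Subgroup.centralizer {t} = chevG2.rootSubgroup F 9 ⊔ chevG2.rootSubgroup F 10 ⊔
      chevG2.rootSubgroup F 11 ⊔ chevG2.rootSubgroup F 6 ⊔ chevG2.rootSubgroup F 5 := by
  have hR := Cfsg.Agent.Lib.Chevalley.Tbl.G2.sys (F := F)
  have hT := Cfsg.Agent.Lib.ChevBN.FastData.tbl_chevG2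
  have hd := ct_t.toCD hR (fun g => sep_one sep_t g)
  have e : t = bl hR.toAddRel [9] (fun _ => 1) := by
    rw [(eq_X hR.toAddRel).mp ht]
    simp
  have hmem : ∀ q, chevG2.IsPosRoot q → q ∉ [7, 8] → ∀ c : F, X hR.toAddRel q c ∈ RR hR.toAddRel [7, 8] [1] :=
    fun q hq hb c => pos_mem_RR hR hT hd hq hb c
  have hU : ∀ u ∈ chevG2.posUnipotent F, u * bl hR.toAddRel [9] (fun _ => (1 : F)) =
      bl hR.toAddRel [9] (fun _ => (1 : F)) * u → u ∈ RR hR.toAddRel [7, 8] [1] := by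
    intro u hu huv
    rw [posUnipotent_eq hR.toAddRel] at hu
    have hlist : chevG2.posRoots = [6, 7, 8, 9, 10, 11] := by decide +kernel
    obtain ⟨f, hf⟩ := exists_ordered (hA := hR.toAddRel) hT (commPos hR) [6, 7, 8, 9, 10, 11] (by decide) (by decide +kernel)
      (by decide +kernel) u (gen_mono hR.toAddRel (fun q hq => by
        rw [← hlist]
        exact mem_posRoots.mpr hq) hu)
    simp only [List.map_cons, List.map_nil, W_cons, W_nil, mul_one] at hf
    set P := X hR.toAddRel 6 (f 6) with hPd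
    set B₁ := X hR.toAddRel 7 (f 7) with hB₁
    set B₂ := X hR.toAddRel 8 (f 8) with hB₂
    set Z := X hR.toAddRel 9 (f 9) * (X hR.toAddRel 10 (f 10) * X hR.toAddRel 11 (f 11)) with hZd
    have hPm : P ∈ RR hR.toAddRel [7, 8] [1] := hmem 6 (by decide +kernel) (by decide) _
    have hZm : Z ∈ RR hR.toAddRel [7, 8] [1] :=
      Subgroup.mul_mem _ (hmem 9 (by decide +kernel) (by decide) _)
        (Subgroup.mul_mem _ (hmem 10 (by decide +kernel) (by decide) _) (hmem 11 (by decide +kernel) (by decide) _))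
    have e1 : u = P * (B₁ * B₂) * Z := by
      rw [hf]
      group
    rw [e1] at huv
    have h0 := strip_conj (RR_comm_vv hR hT hd hPm) (RR_comm_vv hR hT hd hZm) huv
    rw [vv_eq hR hT hd] at h0
    have hnd := hd.Ψ_nodup
    have hp := hd.Ψ_pos
    have hC := comm_Ψ hR hT hd
    have e2 : ∀ g : ℕ → F, B₂ * bl hR.toAddRel [9, 10, 11] g * B₂⁻¹ = bl hR.toAddRel [9, 10, 11] (upd g 11 (f 8 * g 9)) :=
      fun g => conj_step hR hnd hp hC (s := 8) (r₀ := 9) (q₀ := 11) (n := 3) (by decide +kernel) (by decide) (by decide) (by decide)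
        (by decide +kernel) (by decide) (by decide +kernel) (f 8) g
    have e3 : ∀ g : ℕ → F, B₁ * bl hR.toAddRel [9, 10, 11] g * B₁⁻¹ = bl hR.toAddRel [9, 10, 11] (upd g 10 (f 7 * g 9)) :=
      fun g => conj_step hR hnd hp hC (s := 7) (r₀ := 9) (q₀ := 10) (n := 3) (by decide +kernel) (by decide) (by decide) (by decide)
        (by decide +kernel) (by decide) (by decide +kernel) (f 7) g
    have e4 : (B₁ * B₂) * bl hR.toAddRel [9, 10, 11] (fun q => if q ∈ [9] then (1 : F) else 0) * (B₁ * B₂)⁻¹ =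
        B₁ * (B₂ * bl hR.toAddRel [9, 10, 11] (fun q => if q ∈ [9] then (1 : F) else 0) * B₂⁻¹) * B₁⁻¹ := by group
    rw [e4, e2, e3] at h0
    have c10 := bl_coeff (hA := hR.toAddRel) hT hnd hnd hp hp hC hC h0 (s := 10) (by decide +kernel)
    have c11 := bl_coeff (hA := hR.toAddRel) hT hnd hnd hp hp hC hC h0 (s := 11) (by decide +kernel)
    simp [upd] at c10 c11
    have hB₁1 : B₁ = 1 := by rw [hB₁, c10, X_zero]
    have hB₂1 : B₂ = 1 := by rw [hB₂, c11, X_zero]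
    rw [e1, hB₁1, hB₂1]
    simpa using Subgroup.mul_mem _ hPm hZm
  rw [e, cent_eq hR hT hd hU]
  apply le_antisymm
  · refine gen_le hR.toAddRel ?_
    rintro r (⟨hq, hb⟩ | ⟨k, hk, rfl⟩) c
    · have h1 : ∀ q < chevG2.nroots, chevG2.IsPosRoot q → q ∉ [7, 8] → q = 9 ∨ q = 10 ∨ q = 11 ∨ q = 6 := by
        decide +kernel
      rcases h1 r hq.1 hq hb with rfl | rfl | rfl | rfl
      · exact (le_sup_of_le_left (le_sup_of_le_left (le_sup_of_le_left le_sup_left)) :
          chevG2.rootSubgroup F 9 ≤ _) (X_mem_root _ _ _)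
      · exact (le_sup_of_le_left (le_sup_of_le_left (le_sup_of_le_left le_sup_right)) :
          chevG2.rootSubgroup F 10 ≤ _) (X_mem_root _ _ _)
      · exact (le_sup_of_le_left (le_sup_of_le_left le_sup_right) :
          chevG2.rootSubgroup F 11 ≤ _) (X_mem_root _ _ _)
      · exact (le_sup_of_le_left le_sup_right : chevG2.rootSubgroup F 6 ≤ _) (X_mem_root _ _ _)
    · have h1 : k = 1 := by simpa using hk
      subst h1
      have h2 : chevG2.neg (chevG2.simple 1) = 5 := by decide +kernel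
      rw [h2]
      exact (le_sup_right : chevG2.rootSubgroup F 5 ≤ _) (X_mem_root _ _ _)
  · refine sup_le (sup_le (sup_le (sup_le ?_ ?_) ?_) ?_) ?_
    · exact root_le_RR _ (Or.inl ⟨by decide +kernel, by decide⟩)
    · exact root_le_RR _ (Or.inl ⟨by decide +kernel, by decide⟩)
    · exact root_le_RR _ (Or.inl ⟨by decide +kernel, by decide⟩)
    · exact root_le_RR _ (Or.inl ⟨by decide +kernel, by decide⟩)
    · exact root_le_RR _ (Or.inr ⟨1, by decide, by decide +kernel⟩)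

theorem stmt_v {v : GL chevF4.Idx F}
    (hv : (v : Matrix chevF4.Idx chevF4.Idx F) = chevF4.x F 39 1 * chevF4.x F 45 1) :
    chevF4.group F ⊓ Subgroup.centralizer {v} = chevF4.rootSubgroup F 33 ⊔ chevF4.rootSubgroup F 14 ⊔
      chevF4.rootSubgroup F 24 ⊔ chevF4.rootSubgroup F 23 ⊔
      Subgroup.closure {g : GL chevF4.Idx F | ∃ (r : ℕ) (c : F), chevF4.IsPosRoot r ∧ r ∉ [27, 25, 34, 26] ∧
        (g : Matrix chevF4.Idx chevF4.Idx F) = chevF4.x F r c} := by
  have hR := Cfsg.Agent.Lib.Chevalley.Tbl.F4.sys (F := F)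
  have hT := Cfsg.Agent.Lib.ChevBN.FastData.tbl_chevF4
  have hd := ct_v.toCD hR (fun g => sep_two sep_v g)
  have e : v = bl hR.toAddRel [39, 45] (fun _ => 1) := by
    apply Units.ext
    rw [hv]
    simp
  have hmem : ∀ q, chevF4.IsPosRoot q → q ∉ [25, 26, 27, 34] → ∀ c : F,
      X hR.toAddRel q c ∈ RR hR.toAddRel [25, 26, 27, 34] [0, 3] :=
    fun q hq hb c => pos_mem_RR hR hT hd hq hb c
  have hU : ∀ u ∈ chevF4.posUnipotent F, u * bl hR.toAddRel [39, 45] (fun _ => (1 : F)) =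
      bl hR.toAddRel [39, 45] (fun _ => (1 : F)) * u → u ∈ RR hR.toAddRel [25, 26, 27, 34] [0, 3] := by
    intro u hu huv
    rw [posUnipotent_eq hR.toAddRel] at hu
    have hlist : chevF4.posRoots = [24] ++ [25] ++ [26] ++ [27] ++ [28, 29, 30, 31, 32, 33] ++ [34] ++
        [35, 36, 37, 38, 39, 40, 41, 42, 43, 44, 45, 46, 47] := by decide +kernel
    obtain ⟨f, hf⟩ := exists_ordered (hA := hR.toAddRel) hT (commPos hR) chevF4.posRoots posRoots_sorted
      (fun r hr => mem_posRoots.mp hr) (by decide +kernel) u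
      (gen_mono hR.toAddRel (fun q hq => mem_posRoots.mpr hq) hu)
    have hf' : u = bl hR.toAddRel chevF4.posRoots f := hf
    rw [hlist] at hf'
    simp only [bl_append'] at hf'
    set P := bl hR.toAddRel [24] f with hPd
    have hB₁ : bl hR.toAddRel [25] f = X hR.toAddRel 25 (f 25) := by simp
    have hB₂ : bl hR.toAddRel [26] f = X hR.toAddRel 26 (f 26) := by simp
    have hB₃ : bl hR.toAddRel [27] f = X hR.toAddRel 27 (f 27) := by simp
    have hB₄ : bl hR.toAddRel [34] f = X hR.toAddRel 34 (f 34) := by simp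
    rw [hB₁, hB₂, hB₃, hB₄] at hf'
    set B₁ := X hR.toAddRel 25 (f 25) with hB₁d
    set B₂ := X hR.toAddRel 26 (f 26) with hB₂d
    set B₃ := X hR.toAddRel 27 (f 27) with hB₃d
    set B₄ := X hR.toAddRel 34 (f 34) with hB₄d
    set Y := bl hR.toAddRel [28, 29, 30, 31, 32, 33] f with hYd
    set Z := bl hR.toAddRel [35, 36, 37, 38, 39, 40, 41, 42, 43, 44, 45, 46, 47] f with hZd
    have hblmem : ∀ S : List ℕ, (∀ q ∈ S, chevF4.IsPosRoot q ∧ q ∉ [25, 26, 27, 34]) →
        bl hR.toAddRel S f ∈ RR hR.toAddRel [25, 26, 27, 34] [0, 3] := by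
      intro S hS
      induction S with
      | nil => exact Subgroup.one_mem _
      | cons a S ih =>
        rw [bl_cons]
        exact Subgroup.mul_mem _ (hmem a (hS a (by simp)).1 (hS a (by simp)).2 _)
          (ih fun q hq => hS q (List.mem_cons_of_mem _ hq))
    have hPm : P ∈ RR hR.toAddRel [25, 26, 27, 34] [0, 3] := hblmem _ (by decide +kernel)
    have hYm : Y ∈ RR hR.toAddRel [25, 26, 27, 34] [0, 3] := hblmem _ (by decide +kernel)
    have hZm : Z ∈ RR hR.toAddRel [25, 26, 27, 34] [0, 3] := hblmem _ (by decide +kernel)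
    have e1 : u = P * (B₁ * B₂ * B₃ * Y * B₄) * Z := by
      rw [hf']
      group
    rw [e1] at huv
    have h0 := strip_conj (RR_comm_vv hR hT hd hPm) (RR_comm_vv hR hT hd hZm) huv
    have hY := RR_comm_vv hR hT hd hYm
    rw [vv_eq hR hT hd] at h0 hY
    have hnd := hd.Ψ_nodup
    have hp := hd.Ψ_pos
    have hC := comm_Ψ hR hT hd
    set Ψ := [39, 40, 44, 45, 46, 47] with hΨ
    set f₀ : ℕ → F := fun q => if q ∈ [39, 45] then (1 : F) else 0 with hf₀
    have e4 : B₄ * bl hR.toAddRel Ψ f₀ * B₄⁻¹ = bl hR.toAddRel Ψ (upd f₀ 44 (f 34 * f₀ 39)) :=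
      conj_step hR hnd hp hC (s := 34) (r₀ := 39) (q₀ := 44) (n := 1) (by decide +kernel) (by decide) (by decide) (by decide)
        (by decide +kernel) (by decide) (by decide +kernel) (f 34) f₀
    -- `Y` commutes with the new element: `x₄₄` is central in `U`
    have hx44 : ∀ c : F, Y * X hR.toAddRel 44 c = X hR.toAddRel 44 c * Y := by
      intro c
      have hall : ∀ S : List ℕ, (∀ q ∈ S, chevF4.IsPosRoot q ∧ q ≠ 44) →
          bl hR.toAddRel S f * X hR.toAddRel 44 c = X hR.toAddRel 44 c * bl hR.toAddRel S f := by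
        intro S hS
        induction S with
        | nil => simp
        | cons a S ih =>
          have h1 : X hR.toAddRel a (f a) * X hR.toAddRel 44 c * (X hR.toAddRel a (f a))⁻¹ = X hR.toAddRel 44 c :=
            X_conj_even hR (hS a (by simp)).1 (by decide +kernel) (hS a (by simp)).2 (by
              have h2 : ∀ q < chevF4.nroots, chevF4.IsPosRoot q → q ≠ 44 → ∀ c ∈ chevF4.commTerms q 44, (2 : ℤ) ∣ c.2.1 := by
                decide +kernel
              exact h2 a (hS a (by simp)).1.1 (hS a (by simp)).1 (hS a (by simp)).2) _ _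
          have h3 : X hR.toAddRel a (f a) * X hR.toAddRel 44 c = X hR.toAddRel 44 c * X hR.toAddRel a (f a) := by
            nth_rewrite 2 [← h1]
            group
          rw [bl_cons, mul_assoc, ih fun q hq => hS q (List.mem_cons_of_mem _ hq), ← mul_assoc, h3, mul_assoc]
      exact hall _ (by decide +kernel)
    have e5 : Y * bl hR.toAddRel Ψ (upd f₀ 44 (f 34 * f₀ 39)) * Y⁻¹ = bl hR.toAddRel Ψ (upd f₀ 44 (f 34 * f₀ 39)) := by
      have h1 : bl hR.toAddRel Ψ (upd f₀ 44 (f 34 * f₀ 39)) = bl hR.toAddRel Ψ f₀ * X hR.toAddRel 44 (f 34 * f₀ 39) := by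
        rw [← bl_single hnd (r := 44) (by decide) (f 34 * f₀ 39), bl_mul hnd hC]
        apply bl_congr
        intro q _
        by_cases h : q = 44
        · simp [upd, h]
        · simp [upd, h]
      rw [h1, ← mul_assoc, hY, mul_assoc _ Y, hx44]
      group
    have e3 : ∀ g : ℕ → F, B₃ * bl hR.toAddRel Ψ g * B₃⁻¹ = bl hR.toAddRel Ψ (upd g 40 (f 27 * g 39)) :=
      fun g => conj_step hR hnd hp hC (s := 27) (r₀ := 39) (q₀ := 40) (n := 1) (by decide +kernel) (by decide) (by decide) (by decide)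
        (by decide +kernel) (by decide) (by decide +kernel) (f 27) g
    have e2 : ∀ g : ℕ → F, B₂ * bl hR.toAddRel Ψ g * B₂⁻¹ = bl hR.toAddRel Ψ (upd g 47 (f 26 * g 45)) :=
      fun g => conj_step hR hnd hp hC (s := 26) (r₀ := 45) (q₀ := 47) (n := 1) (by decide +kernel) (by decide) (by decide) (by decide)
        (by decide +kernel) (by decide) (by decide +kernel) (f 26) g
    have e₁ : ∀ g : ℕ → F, B₁ * bl hR.toAddRel Ψ g * B₁⁻¹ = bl hR.toAddRel Ψ (upd g 46 (f 25 * g 45)) :=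
      fun g => conj_step hR hnd hp hC (s := 25) (r₀ := 45) (q₀ := 46) (n := 1) (by decide +kernel) (by decide) (by decide) (by decide)
        (by decide +kernel) (by decide) (by decide +kernel) (f 25) g
    have e6 : (B₁ * B₂ * B₃ * Y * B₄) * bl hR.toAddRel Ψ f₀ * (B₁ * B₂ * B₃ * Y * B₄)⁻¹ =
        B₁ * (B₂ * (B₃ * (Y * (B₄ * bl hR.toAddRel Ψ f₀ * B₄⁻¹) * Y⁻¹) * B₃⁻¹) * B₂⁻¹) * B₁⁻¹ := by group
    rw [e6, e4, e5, e3, e2, e₁] at h0
    have c40 := bl_coeff (hA := hR.toAddRel) hT hnd hnd hp hp hC hC h0 (s := 40) (by decide +kernel)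
    have c44 := bl_coeff (hA := hR.toAddRel) hT hnd hnd hp hp hC hC h0 (s := 44) (by decide +kernel)
    have c46 := bl_coeff (hA := hR.toAddRel) hT hnd hnd hp hp hC hC h0 (s := 46) (by decide +kernel)
    have c47 := bl_coeff (hA := hR.toAddRel) hT hnd hnd hp hp hC hC h0 (s := 47) (by decide +kernel)
    simp [upd, hΨ, hf₀] at c40 c44 c46 c47
    have hB₁1 : B₁ = 1 := by rw [hB₁d, c46, X_zero]
    have hB₂1 : B₂ = 1 := by rw [hB₂d, c47, X_zero]
    have hB₃1 : B₃ = 1 := by rw [hB₃d, c40, X_zero]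
    have hB₄1 : B₄ = 1 := by rw [hB₄d, c44, X_zero]
    rw [e1, hB₁1, hB₂1, hB₃1, hB₄1]
    simpa [mul_assoc] using Subgroup.mul_mem _ hPm (Subgroup.mul_mem _ hYm hZm)
  rw [e, cent_eq hR hT hd hU]
  have hcl : Subgroup.closure {g : GL chevF4.Idx F | ∃ (r : ℕ) (c : F), chevF4.IsPosRoot r ∧ r ∉ [27, 25, 34, 26] ∧
        (g : Matrix chevF4.Idx chevF4.Idx F) = chevF4.x F r c} =
      gen hR.toAddRel {r | chevF4.IsPosRoot r ∧ r ∉ [27, 25, 34, 26]} := by
    rw [← closure_matrix_eq hR.toAddRel]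
    simp only [and_assoc]
  rw [hcl]
  apply le_antisymm
  · refine gen_le hR.toAddRel ?_
    rintro r (⟨hq, hb⟩ | ⟨k, hk, rfl⟩) c
    · have hb' : r ∉ [27, 25, 34, 26] := by
        intro h
        apply hb
        simp only [List.mem_cons, List.not_mem_nil, or_false] at h ⊢
        omega
      have hmem' : r ∈ {r | chevF4.IsPosRoot r ∧ r ∉ [27, 25, 34, 26]} := ⟨hq, hb'⟩
      exact (le_sup_right : gen hR.toAddRel {r | chevF4.IsPosRoot r ∧ r ∉ [27, 25, 34, 26]} ≤ _) (X_mem_gen _ hmem' c)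
    · have h1 : k = 0 ∨ k = 3 := by simpa using hk
      rcases h1 with rfl | rfl
      · have h2 : chevF4.neg (chevF4.simple 0) = 14 := by decide +kernel
        rw [h2]
        exact (le_sup_of_le_left (le_sup_of_le_left (le_sup_of_le_left le_sup_right)) :
          chevF4.rootSubgroup F 14 ≤ _) (X_mem_root _ _ _)
      · have h2 : chevF4.neg (chevF4.simple 3) = 23 := by decide +kernel
        rw [h2]
        exact (le_sup_of_le_left le_sup_right : chevF4.rootSubgroup F 23 ≤ _) (X_mem_root _ _ _)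
  · refine sup_le (sup_le (sup_le (sup_le ?_ ?_) ?_) ?_) ?_
    · exact root_le_RR _ (Or.inl ⟨by decide +kernel, by decide⟩)
    · exact root_le_RR _ (Or.inr ⟨0, by decide, by decide +kernel⟩)
    · exact root_le_RR _ (Or.inl ⟨by decide +kernel, by decide⟩)
    · exact root_le_RR _ (Or.inr ⟨3, by decide, by decide +kernel⟩)
    · refine gen_mono hR.toAddRel ?_
      rintro r ⟨hq, hb⟩
      refine Or.inl ⟨hq, ?_⟩
      intro h
      apply hb
      simp only [List.mem_cons, List.not_mem_nil, or_false] at h ⊢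
      omega

end Inst

end Cfsg.Agent.Lib.ChevBN.CentTab
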