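import Cfsg.Agent.Lib.ChevBN.GraphFixChk
import Cfsg.Agent.Lib.Chevalley.Graph.D4
import Cfsg.Agent.Lib.Chevalley.Tbl.D4Sys
import Cfsg.Agent.Lib.Chevalley.Tbl.G2Sys
import Cfsg.Agent.Lib.Chevalley.Tbl.G2Cols
import Cfsg.Agent.Lib.ChevBN.FastData

/-!
The tables of triality: the fixed points of a graph automorphism of order three of the group of type `D₄`.
-/

set_option autoImplicit false
set_option maxRecDepth 1000000
set_option linter.unusedSectionVars false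

namespace Cfsg.Agent.Lib.ChevBN.GraphFixD4

open Cfsg.Lie Matrix Cfsg.Agent.Lib.Chevalley.Reflect Cfsg.Agent.Lib.Chevalley.Comm
open Cfsg.Agent.Lib.Chevalley.Graph
open Cfsg.Agent.Lib.ChevBN.Elem Cfsg.Agent.Lib.ChevBN.Rel Cfsg.Agent.Lib.ChevBN.Table
open Cfsg.Agent.Lib.ChevBN.GraphFix Cfsg.Agent.Lib.ChevBN.GraphFixChk

noncomputable section

def orbT : Tr ℕ := (.node 12 7 (.node 6 2 (.node 3 2 (.node 1 1 (.node 0 0 .nil .nil) (.node 2 2 .nil .nil)) (.node 5 4 (.node 4 3 .nil .nil) .nil)) (.node 9 5 (.node 8 3 (.node 7 3 .nil .nil) .nil) (.node 11 4 (.node 10 4 .nil .nil) .nil))) (.node 18 7 (.node 15 8 (.node 14 6 (.node 13 7 .nil .nil) .nil) (.node 17 9 (.node 16 8 .nil .nil) .nil)) (.node 21 9 (.node 20 9 (.node 19 8 .nil .nil) .nil) (.node 23 11 (.node 22 10 .nil .nil) .nil))))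
def OlT : Tr (List ℕ) := (.node 6 [14] (.node 3 [4, 7, 8] (.node 1 [1] (.node 0 [0] .nil .nil) (.node 2 [2, 3, 6] .nil .nil)) (.node 5 [9] (.node 4 [5, 10, 11] .nil .nil) .nil)) (.node 9 [17, 20, 21] (.node 8 [15, 16, 19] (.node 7 [18, 13, 12] .nil .nil) .nil) (.node 11 [23] (.node 10 [22] .nil .nil) .nil)))
def κT : Tr ℤ := (.node 12 (Int.ofNat 1) (.node 6 (Int.ofNat 1) (.node 3 (Int.negSucc 0) (.node 1 (Int.negSucc 0) (.node 0 (Int.negSucc 0) .nil .nil) (.node 2 (Int.negSucc 0) .nil .nil)) (.node 5 (Int.ofNat 1) (.node 4 (Int.ofNat 1) .nil .nil) .nil)) (.node 9 (Int.ofNat 1) (.node 8 (Int.negSucc 0) (.node 7 (Int.negSucc 0) .nil .nil) .nil) (.node 11 (Int.ofNat 1) (.node 10 (Int.ofNat 1) .nil .nil) .nil))) (.node 18 (Int.ofNat 1) (.node 15 (Int.negSucc 0) (.node 14 (Int.ofNat 1) (.node 13 (Int.ofNat 1) .nil .nil) .nil) (.node 17 (Int.ofNat 1) (.node 16 (Int.negSucc 0) .nil .nil)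 .nil)) (.node 21 (Int.negSucc 0) (.node 20 (Int.negSucc 0) (.node 19 (Int.ofNat 1) .nil .nil) .nil) (.node 23 (Int.negSucc 0) (.node 22 (Int.negSucc 0) .nil .nil) .nil))))
def nodesT : Tr (List ℕ) := (.node 1 [1] (.node 0 [0, 2, 3] .nil .nil) .nil)
def nodeOfT : Tr ℕ := (.node 2 0 (.node 1 1 (.node 0 0 .nil .nil) .nil) (.node 3 0 .nil .nil))
def JT : Tr Vc := (.node 7 [⟨13, (Int.ofNat 1), 0, 0⟩] (.node 3 [⟨5, (Int.negSucc 0), 0, 0⟩] (.node 1 [⟨1, (Int.ofNat 1), 0, 0⟩] (.node 0 [⟨0, (Int.ofNat 1), 0, 0⟩, ⟨2, (Int.ofNat 1), 0, 0⟩, ⟨3, (Int.ofNat 1), 0, 0⟩] .nil .nil) (.node 2 [⟨4, (Int.negSucc 0), 0, 0⟩] .nil .nil)) (.node 5 [⟨8, (Int.ofNat 1), 0, 0⟩, ⟨11, (Int.negSucc 0), 0, 0⟩, ⟨12, (Int.negSucc 0), 0, 0⟩] (.node 4 [⟨6, (Int.negSucc 0), 0, 0⟩, ⟨7, (Int.negSucc 0), 0, 0⟩, ⟨10, (Int.ofNat 1), 0, 0⟩] .nil .nil) (.node 6 [⟨9, (Int.ofNat 1), 0, 0⟩, ⟨14, (Int.ofNat 1), 0, 0⟩, ⟨15, (Int.ofNat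 1), 0, 0⟩] .nil .nil))) (.node 11 [⟨21, (Int.ofNat 1), 0, 0⟩, ⟨24, (Int.negSucc 0), 0, 0⟩, ⟨25, (Int.negSucc 0), 0, 0⟩] (.node 9 [⟨16, (Int.ofNat 1), 0, 0⟩, ⟨17, (Int.ofNat 1), 0, 0⟩, ⟨22, (Int.ofNat 1), 0, 0⟩] (.node 8 [⟨18, (Int.ofNat 1), 0, 0⟩] .nil .nil) (.node 10 [⟨19, (Int.negSucc 0), 0, 0⟩, ⟨20, (Int.negSucc 0), 0, 0⟩, ⟨23, (Int.ofNat 1), 0, 0⟩] .nil .nil)) (.node 13 [⟨27, (Int.negSucc 0), 0, 0⟩] (.node 12 [⟨26, (Int.negSucc 0), 0, 0⟩] .nil .nil) .nil)))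
def J0T : Tr Vc := (.node 14 [] (.node 7 [] (.node 3 [] (.node 1 [⟨1, (Int.ofNat 1), 0, 0⟩] (.node 0 [⟨0, (Int.ofNat 1), 0, 0⟩] .nil .nil) (.node 2 [] .nil .nil)) (.node 5 [⟨3, (Int.negSucc 0), 0, 0⟩] (.node 4 [⟨2, (Int.negSucc 0), 0, 0⟩] .nil .nil) (.node 6 [⟨4, (Int.negSucc 0), 0, 0⟩] .nil .nil))) (.node 11 [] (.node 9 [⟨6, (Int.ofNat 1), 0, 0⟩] (.node 8 [⟨5, (Int.ofNat 1), 0, 0⟩] .nil .nil) (.node 10 [] .nil .nil)) (.node 13 [⟨7, (Int.ofNat 1), 0, 0⟩] (.node 12 [] .nil .nil) .nil))) (.node 21 [⟨11, (Int.ofNat 1), 0, 0⟩] (.node 18 [⟨8, (Int.ofNat 1), 0, 0⟩] (.node 16 [] (.node 15 [] .nil .nil) (.node 17 [] .nil .nil)) (.node 20 [] (.node 19 [⟨10, (Int.negSucc 0), 0, 0⟩] .nil .nil) .nil)) (.node 25 [] (.node 23 [] (.node 22 [⟨9, (Int.ofNat 1), 0, 0⟩] .nil .nil) (.node 24 [] .nil .nil)) (.node 27 [⟨13, (Int.negSucc 0), 0, 0⟩] (.node 26 [⟨12, (Int.negSucc 0), 0, 0⟩] .nil .nil) .nil))))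

/-- The tables for the symmetry `[2, 1, 3, 0]`. -/
def tab₁ : Tab chevD4 chevG2 where
  Ol := Tr.find [] OlT
  κ := Tr.find 0 κT
  orb := Tr.find 0 orbT
  nodes := Tr.find [] nodesT
  nodeOf := Tr.find 0 nodeOfT
  ρ := fun r => (Tr.find (0, 0) Chevalley.Tbl.D4.P1.wT r).1
  ρi := Tr.find 0 Chevalley.Tbl.D4.P1.wi
  ε := fun r => (Tr.find (0, 0) Chevalley.Tbl.D4.P1.wT r).2
  π := fun i => ([2, 1, 3, 0] : List ℕ).getD i 0

/-- The tables for the symmetry `[3, 1, 0, 2]`. -/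
def tab₂ : Tab chevD4 chevG2 where
  Ol := Tr.find [] OlT
  κ := Tr.find 0 κT
  orb := Tr.find 0 orbT
  nodes := Tr.find [] nodesT
  nodeOf := Tr.find 0 nodeOfT
  ρ := fun r => (Tr.find (0, 0) Chevalley.Tbl.D4.P2.wT r).1
  ρi := Tr.find 0 Chevalley.Tbl.D4.P2.wi
  ε := fun r => (Tr.find (0, 0) Chevalley.Tbl.D4.P2.wT r).2
  π := fun i => ([3, 1, 0, 2] : List ℕ).getD i 0

theorem tab₁_B : TabB tab₁ := by decide +kernel

theorem tab₂_B : TabB tab₂ := by decide +kernel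

theorem Jf_ok : colsOK (chevD4.rank + chevD4.nroots) (chevG2.rank + chevG2.nroots) (Tr.find [] JT) = true := by
  decide +kernel

theorem J0f_ok : colsOK (chevG2.rank + chevG2.nroots) (chevD4.rank + chevD4.nroots) (Tr.find [] J0T) = true := by
  decide +kernel

theorem J0_check : j0Check (chevG2.rank + chevG2.nroots) (Tr.find [] J0T) (Tr.find [] JT) = true := by
  decide +kernel

theorem J_check : jCheck (colOf Chevalley.Tbl.D4.cols) (colOf Chevalley.Tbl.G2.cols) (chevG2.rank + chevG2.nroots)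
    chevG2.nroots (Tr.find [] OlT) (Tr.find 0 κT) (Tr.find [] JT) = true := by
  decide +kernel

section Torus

variable {F : Type*} [Field F]

theorem chi_D4 (c : ℕ → F) (s : ℕ) : chi chevD4 c s = c 0 ^ chevD4.cartan 0 s * (c 1 ^ chevD4.cartan 1 s * (c 2 ^ chevD4.cartan 2 s * (c 3 ^ chevD4.cartan 3 s * 1))) := rfl

theorem chi_D4_0 (c : ℕ → F) : chi chevD4 c (chevD4.simple 0) = c 0 ^ 2 * ((c 1)⁻¹) := by
  rw [chi_D4, show chevD4.cartan 0 (chevD4.simple 0) = 2 by decide +kernel, show chevD4.cartan 1 (chevD4.simple 0) = -1 by decide +kernel, show chevD4.cartan 2 (chevD4.simple 0) = 0 by decide +kernel, show chevD4.cartan 3 (chevD4.simple 0) = 0 by decide +kernel]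
  simp

theorem chi_D4_1 (c : ℕ → F) : chi chevD4 c (chevD4.simple 1) = (c 0)⁻¹ * (c 1 ^ 2 * ((c 2)⁻¹ * ((c 3)⁻¹))) := by
  rw [chi_D4, show chevD4.cartan 0 (chevD4.simple 1) = -1 by decide +kernel, show chevD4.cartan 1 (chevD4.simple 1) = 2 by decide +kernel, show chevD4.cartan 2 (chevD4.simple 1) = -1 by decide +kernel, show chevD4.cartan 3 (chevD4.simple 1) = -1 by decide +kernel]
  simp

theorem chi_D4_2 (c : ℕ → F) : chi chevD4 c (chevD4.simple 2) = (c 1)⁻¹ * (c 2 ^ 2) := by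
  rw [chi_D4, show chevD4.cartan 0 (chevD4.simple 2) = 0 by decide +kernel, show chevD4.cartan 1 (chevD4.simple 2) = -1 by decide +kernel, show chevD4.cartan 2 (chevD4.simple 2) = 2 by decide +kernel, show chevD4.cartan 3 (chevD4.simple 2) = 0 by decide +kernel]
  simp

theorem chi_D4_3 (c : ℕ → F) : chi chevD4 c (chevD4.simple 3) = (c 1)⁻¹ * (c 3 ^ 2) := by
  rw [chi_D4, show chevD4.cartan 0 (chevD4.simple 3) = 0 by decide +kernel, show chevD4.cartan 1 (chevD4.simple 3) = -1 by decide +kernel, show chevD4.cartan 2 (chevD4.simple 3) = 0 by decide +kernel, show chevD4.cartan 3 (chevD4.simple 3) = 2 by decide +kernel]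
  simp


theorem torus_aux (c : ℕ → F) (hc : ∀ j < chevD4.rank, c j ≠ 0)
    (h2 : chi chevD4 c (chevD4.simple 2) = chi chevD4 c (chevD4.simple 0))
    (h3 : chi chevD4 c (chevD4.simple 3) = chi chevD4 c (chevD4.simple 0)) :
    ∃ a : ℕ → F, (∀ k < chevG2.rank, a k ≠ 0) ∧ ∀ i < chevD4.rank,
      chi chevD4 (fun j => a (Tr.find 0 nodeOfT j)) (chevD4.simple i) = chi chevD4 c (chevD4.simple i) := by
  have c0 := hc 0 (by decide)
  have c1 := hc 1 (by decide)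
  have c2 := hc 2 (by decide)
  have c3 := hc 3 (by decide)
  rw [chi_D4_2, chi_D4_0] at h2
  rw [chi_D4_3, chi_D4_0] at h3
  have h2' : c 2 ^ 2 = c 0 ^ 2 := by
    field_simp at h2
    linear_combination h2
  have h3' : c 3 ^ 2 = c 0 ^ 2 := by
    field_simp at h3
    linear_combination h3
  obtain ⟨x, hx⟩ : ∃ x, x = c 2 * c 3 / c 0 := ⟨_, rfl⟩
  have hx0 : x ≠ 0 := by
    rw [hx]
    exact div_ne_zero (mul_ne_zero c2 c3) c0
  have hx2 : x ^ 2 = c 0 ^ 2 := by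
    rw [hx, div_pow, mul_pow, h2', h3']
    field_simp
  have hx3 : x * (x * x) = c 0 * (c 2 * c 3) := by
    have : x * (x * x) = x * x ^ 2 := by ring
    rw [this, hx2, hx]
    field_simp
  refine ⟨fun k => if k = 0 then x else c 1, ?_, ?_⟩
  · intro k _
    dsimp only
    split_ifs
    · exact hx0
    · exact c1
  · have e0 : Tr.find 0 nodeOfT 0 = 0 := rfl
    have e1 : Tr.find 0 nodeOfT 1 = 1 := rfl
    have e2 : Tr.find 0 nodeOfT 2 = 0 := rfl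
    have e3 : Tr.find 0 nodeOfT 3 = 0 := rfl
    intro i hi
    have hi' : i < 4 := hi
    interval_cases i
    · rw [chi_D4_0, chi_D4_0]
      simp only [e0, e1, if_true, one_ne_zero, if_false, hx2]
    · rw [chi_D4_1, chi_D4_1]
      simp only [e0, e1, e2, e3, if_true, one_ne_zero, if_false]
      field_simp
      linear_combination (-1 : F) * hx3
    · rw [chi_D4_2, chi_D4_2]
      simp only [e1, e2, if_true, one_ne_zero, if_false, hx2, h2']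
    · rw [chi_D4_3, chi_D4_3]
      simp only [e1, e3, if_true, one_ne_zero, if_false, hx2, h3']

theorem torus₁ : TorusHyp tab₁ F := by
  intro c hc h
  refine torus_aux c hc (h 0 (by decide)) ?_
  have h1 := h 0 (by decide)
  have h2 := h 2 (by decide)
  have e : chi chevD4 c (chevD4.simple 3) = chi chevD4 c (chevD4.simple 2) := h2
  exact e.trans h1

theorem torus₂ : TorusHyp tab₂ F := by
  intro c hc h
  have h1 : chi chevD4 c (chevD4.simple 3) = chi chevD4 c (chevD4.simple 0) := h 0 (by decide)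
  have h2 : chi chevD4 c (chevD4.simple 2) = chi chevD4 c (chevD4.simple 3) := h 3 (by decide)
  exact torus_aux c hc (h2.trans h1) h1

theorem iso₁ (φ : ↥(chevD4.group F) ≃* ↥(chevD4.group F))
    (π : Equiv.Perm (Fin chevD4.rank))
    (hl : ∀ i : Fin chevD4.rank, ((π i : Fin chevD4.rank) : ℕ) = ([2, 1, 3, 0] : List ℕ).getD i.val 0)
    (hφ : ∀ (g : ↥(chevD4.group F)) (i : Fin chevD4.rank) (t : F),
      (((g : GL chevD4.Idx F) : Matrix chevD4.Idx chevD4.Idx F) = chevD4.x F (chevD4.simple i) t →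
        ((φ g : GL chevD4.Idx F) : Matrix chevD4.Idx chevD4.Idx F) = chevD4.x F (chevD4.simple (π i)) t) ∧
      (((g : GL chevD4.Idx F) : Matrix chevD4.Idx chevD4.Idx F) = chevD4.x F (chevD4.neg (chevD4.simple i)) t →
        ((φ g : GL chevD4.Idx F) : Matrix chevD4.Idx chevD4.Idx F) = chevD4.x F (chevD4.neg (chevD4.simple (π i))) t))
    (C : Subgroup ↥(chevD4.group F)) (hC : ∀ g, g ∈ C ↔ φ g = g) :
    Nonempty (↥C ≃* ↥(chevG2.group F)) :=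
  fix_main Chevalley.Tbl.D4.sys FastData.tbl_chevD4 Chevalley.Tbl.G2.sys FastData.tbl_chevG2
    Chevalley.Tbl.D4.colOK Chevalley.Tbl.D4.P1.hf Chevalley.Tbl.D4.P1.hg Chevalley.Tbl.D4.P1.hinv
    Chevalley.Tbl.D4.P1.hw Chevalley.Tbl.D4.P1.hperm (good_of_B tab₁_B) (fun _ => rfl) (fun _ => rfl) torus₁
    Chevalley.Tbl.G2.colOK Jf_ok J0f_ok J0_check J_check φ π hl hφ C hC

theorem iso₂ (φ : ↥(chevD4.group F) ≃* ↥(chevD4.group F))
    (π : Equiv.Perm (Fin chevD4.rank))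
    (hl : ∀ i : Fin chevD4.rank, ((π i : Fin chevD4.rank) : ℕ) = ([3, 1, 0, 2] : List ℕ).getD i.val 0)
    (hφ : ∀ (g : ↥(chevD4.group F)) (i : Fin chevD4.rank) (t : F),
      (((g : GL chevD4.Idx F) : Matrix chevD4.Idx chevD4.Idx F) = chevD4.x F (chevD4.simple i) t →
        ((φ g : GL chevD4.Idx F) : Matrix chevD4.Idx chevD4.Idx F) = chevD4.x F (chevD4.simple (π i)) t) ∧
      (((g : GL chevD4.Idx F) : Matrix chevD4.Idx chevD4.Idx F) = chevD4.x F (chevD4.neg (chevD4.simple i)) t →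
        ((φ g : GL chevD4.Idx F) : Matrix chevD4.Idx chevD4.Idx F) = chevD4.x F (chevD4.neg (chevD4.simple (π i))) t))
    (C : Subgroup ↥(chevD4.group F)) (hC : ∀ g, g ∈ C ↔ φ g = g) :
    Nonempty (↥C ≃* ↥(chevG2.group F)) :=
  fix_main Chevalley.Tbl.D4.sys FastData.tbl_chevD4 Chevalley.Tbl.G2.sys FastData.tbl_chevG2
    Chevalley.Tbl.D4.colOK Chevalley.Tbl.D4.P2.hf Chevalley.Tbl.D4.P2.hg Chevalley.Tbl.D4.P2.hinv
    Chevalley.Tbl.D4.P2.hw Chevalley.Tbl.D4.P2.hperm (good_of_B tab₂_B) (fun _ => rfl) (fun _ => rfl) torus₂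
    Chevalley.Tbl.G2.colOK Jf_ok J0f_ok J0_check J_check φ π hl hφ C hC

end Torus

end

end Cfsg.Agent.Lib.ChevBN.GraphFixD4
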