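import Cfsg.Agent.Lib.ChevBN.InvRed

/-!
The classes of involutions in characteristic two, from the tables.
-/

set_option autoImplicit false
set_option linter.unusedSectionVars false

namespace Cfsg.Agent.Lib.ChevBN.InvMain

open Cfsg.Lie Cfsg.Agent.Lib.ChevBN.Elem Cfsg.Agent.Lib.ChevBN.Entries Cfsg.Agent.Lib.ChevBN.Table
open Cfsg.Agent.Lib.ChevBN.Collect Cfsg.Agent.Lib.ChevBN.Rel Cfsg.Agent.Lib.ChevBN.Torus
open Cfsg.Agent.Lib.ChevBN.Monomial Cfsg.Agent.Lib.ChevBN.Core Cfsg.Agent.Lib.ChevBN.Pair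
open Cfsg.Agent.Lib.ChevBN.Stmts Cfsg.Agent.Lib.ChevBN.BruhatForm Cfsg.Agent.Lib.ChevBN.Opp
open Cfsg.Agent.Lib.ChevBN.ConjH Cfsg.Agent.Lib.ChevBN.Cent Cfsg.Agent.Lib.ChevBN.Fix
open Cfsg.Agent.Lib.ChevBN.GraphFix Cfsg.Agent.Lib.ChevBN.RootCent
open Cfsg.Agent.Lib.ChevBN.CentGen Cfsg.Agent.Lib.ChevBN.CentTab Cfsg.Agent.Lib.ChevBN.ParabCent
open Cfsg.Agent.Lib.ChevBN.InvNF Cfsg.Agent.Lib.ChevBN.InvRed
open Cfsg.Agent.Lib.ChevOrder.Chev Cfsg.Agent.Lib.ChevOrder.BNCount Cfsg.Agent.Lib.ChevOrder.Cox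
open Cfsg.Agent.Lib.BNPair.CoxeterExchange
open Cfsg.Agent.Lib.BNPair.Basic Cfsg.Agent.Lib.BNPair.Parabolic

variable {D : ChevalleyDatum} {F : Type*} [Field F] [CharP F 2] {η : ℕ → ℕ → ℤ}

section Conj

variable [Fintype F] (hR : Sys D F η) (hT : Tbl D)
include hR hT

/-- Every involution is conjugate to a representative. -/
theorem inv_conj_rep {T : TT} (hTT : ∀ s r, D.IsPosRoot s → D.IsPosRoot r → T s r = oddT D s r)
    {posL : List ℕ} (hposL : ∀ x ∈ posL, D.IsPosRoot x) {nodes : ℕ → NodeD} {n : ℕ}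
    (hok : ∀ id < n, NodeOK T posL nodes n id) (hn : 0 < n) (h0 : (nodes 0).O = [])
    (h0A : ∀ x, D.IsPosRoot x → x ∈ (nodes 0).A) {path : ℕ → List RStep × List ℕ} {reps : List (List ℕ)}
    (hpath : ∀ id < n, (nodes id).O = [] ∨ ((path id).2 ∈ reps ∧ RunOK D T posL (nodes id).O (path id).1 (path id).2))
    (m : ℕ → ℕ → ℤ)
    (hrep : ∀ L ∈ reps, L.Nodup ∧ (∀ x ∈ L, x < D.nroots) ∧
      ∀ r ∈ L, ∀ r' ∈ L, Ad D (fun j => m j r') r = if r = r' then 1 else 0)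
    {g : GL D.Idx F} (hg : g ∈ D.group F) (h2 : orderOf g = 2) :
    ∃ L ∈ reps, ∃ h ∈ D.group F, h * g * h⁻¹ = bl hR.toAddRel L (fun _ => 1) := by
  obtain ⟨x, hx, hxU⟩ := conj_into_U hR hT hg h2
  have hsq : g * g = 1 := by
    rw [← pow_two, ← h2]
    exact pow_orderOf_eq_one g
  have hg1 : g ≠ 1 := by
    intro h
    rw [h, orderOf_one] at h2
    omega
  set t := x * g * x⁻¹ with ht
  have hsqt : t * t = 1 := by
    rw [ht]
    calc x * g * x⁻¹ * (x * g * x⁻¹) = x * (g * g) * x⁻¹ := by group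
      _ = 1 := by rw [hsq]; group
  have hxU' : t ∈ UU hR.toAddRel := by
    have : t ∈ D.posUnipotent F := hxU
    rwa [posUnipotent_eq hR.toAddRel] at this
  obtain ⟨u, hu, id', hid', a', ha', e⟩ := nf_main hR hT hTT hposL hok hn h0 h0A hxU' hsqt
  have huU : u ∈ D.posUnipotent F := by
    rw [posUnipotent_eq hR.toAddRel]
    exact hu
  have huG := U_le_G hR hT huU
  rcases hpath id' hid' with h3 | ⟨h3, h4⟩
  · exfalso
    rw [h3, bl_nil] at e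
    apply hg1
    have e1 : t = 1 := by
      have : t = u⁻¹ * (u * t * u⁻¹) * u := by group
      rw [this, e]
      group
    rw [ht] at e1
    have : g = x⁻¹ * (x * g * x⁻¹) * x := by group
    rw [this, e1]
    group
  · obtain ⟨g₂, hg₂, a₂, ha₂, e₂⟩ := Red_run hR hT hTT hposL _ _ _ h4 a' ha'
    obtain ⟨hnd, hlt, hmm⟩ := hrep _ h3
    obtain ⟨g₃, hg₃, e₃⟩ := torus_norm hR hT hnd hlt m hmm a₂ ha₂
    refine ⟨_, h3, g₃ * g₂ * u * x, ?_, ?_⟩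
    · exact Subgroup.mul_mem _ (Subgroup.mul_mem _ (Subgroup.mul_mem _ hg₃ hg₂) huG) hx
    · rw [← e₃, ← e₂, ← e, ht]
      group

end Conj

section Sep

variable (hR : Sys D F η) (hT : Tbl D)
include hR hT

theorem bl_eq_block {Ψ L : List ℕ} (hnd : Ψ.Nodup) (hpos : ∀ q ∈ Ψ, D.IsPosRoot q)
    (hC : ∀ q₁ ∈ Ψ, ∀ q₂ ∈ Ψ, q₁ ≠ q₂ → ∀ s t : F, Commute (X hR.toAddRel q₁ s) (X hR.toAddRel q₂ t))
    (hLnd : L.Nodup) (hL : ∀ r ∈ L, r ∈ Ψ) :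
    bl hR.toAddRel L (fun _ => (1 : F)) = bl hR.toAddRel Ψ (fun q => if q ∈ L then (1 : F) else 0) := by
  rw [bl_eq_posRoots hLnd (fun q hq => hpos q (hL q hq))
      (fun q₁ h₁ q₂ h₂ => hC q₁ (hL _ h₁) q₂ (hL _ h₂)),
    bl_eq_posRoots hnd hpos hC]
  congr 1
  apply List.map_congr_left
  intro s _
  by_cases h : s ∈ L
  · simp [h, hL s h]
  · simp [h]

/-- A central representative is conjugate to a representative in a block only via the Weyl group. -/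
theorem sep_central {Ψ L₁ L₂ : List ℕ} (hnd : Ψ.Nodup) (hpos : ∀ q ∈ Ψ, D.IsPosRoot q)
    (hcomm : ∀ q₁ ∈ Ψ, ∀ q₂ ∈ Ψ, q₁ ≠ q₂ → oddT D q₁ q₂ = [])
    (hact : ∀ s, D.IsPosRoot s → ∀ r ∈ Ψ, s ≠ r → ∀ c ∈ oddT D s r, c.1 ∈ Ψ ∧ c.1 ∉ L₂)
    (hL₁nd : L₁.Nodup) (hL₂nd : L₂.Nodup) (hL₁ : ∀ r ∈ L₁, r ∈ Ψ) (hL₂ : ∀ r ∈ L₂, r ∈ Ψ)
    (hcen : ∀ s, D.IsPosRoot s → ∀ r ∈ L₁, s = r ∨ oddT D s r = [])
    {h : GL D.Idx F} (hh : h ∈ D.group F)
    (hc : h * bl hR.toAddRel L₁ (fun _ => (1 : F)) * h⁻¹ = bl hR.toAddRel L₂ (fun _ => (1 : F))) :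
    ∃ w : WW (pair hR hT), ∀ r (hr : r ∈ L₂), ((σW hR hT w ⟨r, (hpos r (hL₂ r hr)).1⟩ : Fin D.nroots) : ℕ) ∈ L₁ := by
  have hC : ∀ q₁ ∈ Ψ, ∀ q₂ ∈ Ψ, q₁ ≠ q₂ → ∀ s t : F, Commute (X hR.toAddRel q₁ s) (X hR.toAddRel q₂ t) :=
    fun q₁ h₁ q₂ h₂ hne s t => X_comm_of_nil hR (hpos _ h₁) (hpos _ h₂) (Or.inr (hcomm _ h₁ _ h₂ hne)) s t
  rw [bl_eq_block hR hT hnd hpos hC hL₁nd hL₁, bl_eq_block hR hT hnd hpos hC hL₂nd hL₂] at hc
  have hcen' : ∀ u ∈ D.posUnipotent F, u * bl hR.toAddRel Ψ (fun q => if q ∈ L₁ then (1 : F) else 0) * u⁻¹ =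
      bl hR.toAddRel Ψ (fun q => if q ∈ L₁ then (1 : F) else 0) := by
    intro u hu
    rw [← bl_eq_block hR hT hnd hpos hC hL₁nd hL₁]
    rw [posUnipotent_eq hR.toAddRel] at hu
    have h1 : Commute u (bl hR.toAddRel L₁ (fun _ => (1 : F))) := by
      refine gen_induction hR.toAddRel (P := fun u => Commute u (bl hR.toAddRel L₁ (fun _ => (1 : F))))
        (Commute.one_left _) ?_ ?_ hu
      · intro s hs t
        refine commute_X_bl (fun q hq s' t' => ?_) _ _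
        exact X_comm_of_nil hR hs (hpos q (hL₁ q hq)) (hcen s hs q hq) s' t'
      · intro x y hx hy
        exact hx.mul_left hy
    rw [h1.eq]
    group
  obtain ⟨w, hw⟩ := conj_central hR hT hnd hpos hC hact hL₂ hcen'
    (f₂ := fun q => if q ∈ L₂ then (1 : F) else 0) (fun r hr => by simp [hr]) hh hc
  refine ⟨w, fun r hr => ?_⟩
  have := (hw r hr).2
  by_contra h3
  exact this (if_neg h3)

/-- The orbit invariant under the Weyl group. -/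
theorem orb_σW {orb : ℕ → ℕ} (horb : ∀ i < D.rank, ∀ s < D.nroots, orb (D.reflectRoot i s) = orb s)
    (w : WW (pair hR hT)) (s : Fin D.nroots) : orb ((σW hR hT w s : Fin D.nroots) : ℕ) = orb s := by
  obtain ⟨l, rfl, -⟩ := (setupW hR hT).ex w
  induction l with
  | nil => simp
  | cons i l ih =>
    rw [pr_cons, map_mul, σW_fW, Equiv.Perm.mul_apply, Tbl.wPerm_val, horb i i.2 _ (Fin.isLt _), ih]

/-- A product over a list of positive commuting roots has order two. -/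
theorem rep_order {L : List ℕ} (hnd : L.Nodup) (hpos : ∀ q ∈ L, D.IsPosRoot q)
    (hcomm : ∀ q₁ ∈ L, ∀ q₂ ∈ L, q₁ ≠ q₂ → oddT D q₁ q₂ = []) (hne : L ≠ []) :
    orderOf (bl hR.toAddRel L (fun _ => (1 : F))) = 2 := by
  have hC : ∀ q₁ ∈ L, ∀ q₂ ∈ L, q₁ ≠ q₂ → ∀ s t : F, Commute (X hR.toAddRel q₁ s) (X hR.toAddRel q₂ t) :=
    fun q₁ h₁ q₂ h₂ hne s t => X_comm_of_nil hR (hpos _ h₁) (hpos _ h₂) (Or.inr (hcomm _ h₁ _ h₂ hne)) s t
  haveI : Fact (Nat.Prime 2) := ⟨Nat.prime_two⟩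
  apply orderOf_eq_prime
  · rw [pow_two, bl_mul hnd hC]
    have : (fun _ : ℕ => (1 : F)) + (fun _ => (1 : F)) = fun _ => 0 := by
      funext x
      simp [CharTwo.add_self_eq_zero]
    rw [this, bl_zero]
  · intro h1
    obtain ⟨r, hr⟩ := List.exists_mem_of_ne_nil L hne
    have h2 := bl_coeff (hA := hR.toAddRel) hT (B₁ := L) (B₂ := []) (f₁ := fun _ => (1 : F)) (f₂ := fun _ => 0)
      hnd List.nodup_nil hpos (by simp) hC (by simp) (by rw [h1]; rfl) (hpos r hr)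
    rw [if_pos hr] at h2
    simp at h2

theorem bl_mem_G {L : List ℕ} (hpos : ∀ q ∈ L, D.IsPosRoot q) (f : ℕ → F) : bl hR.toAddRel L f ∈ D.group F := by
  apply U_le_G hR hT
  rw [posUnipotent_eq hR.toAddRel]
  exact bl_mem_gen hpos f

end Sep

end Cfsg.Agent.Lib.ChevBN.InvMain
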