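import Cfsg.Agent.Lib.ChevBN.ParabCent
import Cfsg.Agent.Lib.ChevBN.CentTab

/-!
Normal forms of the involutions of `U` in characteristic two: a tree of conjugations checked on tables.
-/

set_option autoImplicit false
set_option linter.unusedSectionVars false

namespace Cfsg.Agent.Lib.ChevBN.InvNF

open Cfsg.Lie Cfsg.Agent.Lib.ChevBN.Elem Cfsg.Agent.Lib.ChevBN.Entries Cfsg.Agent.Lib.ChevBN.Table
open Cfsg.Agent.Lib.ChevBN.Collect Cfsg.Agent.Lib.ChevBN.Rel Cfsg.Agent.Lib.ChevBN.Torus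
open Cfsg.Agent.Lib.ChevBN.GraphFix Cfsg.Agent.Lib.ChevBN.CentGen Cfsg.Agent.Lib.ChevBN.CentTab
open Cfsg.Agent.Lib.ChevBN.ParabCent Cfsg.Agent.Lib.ChevBN.Stmts

/-- The terms of odd coefficient of the commutator formula. -/
def oddT (D : ChevalleyDatum) (s r : ℕ) : List (ℕ × ℕ × ℕ) :=
  ((D.commTerms s r).filter (fun c => c.2.1 % 2 = 1)).map (fun c => (c.1, c.2.2.1, c.2.2.2))

variable {D : ChevalleyDatum} {F : Type*} [Field F] [CharP F 2] {η : ℕ → ℕ → ℤ}

/-- The word of the terms. -/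
def tw (l : List (ℕ × ℕ × ℕ)) (b t : F) : List (ℕ × F) :=
  l.map fun c => (c.1, b ^ c.2.1 * t ^ c.2.2)

theorem mem_oddT {s r : ℕ} {c : ℕ × ℕ × ℕ} (h : c ∈ oddT D s r) :
    ∃ n : ℤ, (c.1, n, c.2.1, c.2.2) ∈ D.commTerms s r := by
  rw [oddT, List.mem_map] at h
  obtain ⟨x, hx, rfl⟩ := h
  exact ⟨x.2.1, (List.mem_filter.mp hx).1⟩

theorem odd_int_cast {n : ℤ} (h : n % 2 = 1) : (n : F) = 1 := by
  have h2 : n = 2 * (n / 2) + 1 := by omega
  rw [h2]
  push_cast
  rw [CharTwo.two_eq_zero]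
  simp

theorem even_int_cast {n : ℤ} (h : ¬ n % 2 = 1) : (n : F) = 0 :=
  int_cast_even (by omega)

theorem W_odd (hA : AddRel D F) (b t : F) (T : List (ℕ × ℤ × ℕ × ℕ)) :
    W hA (T.map fun c => (c.1, (c.2.1 : F) * b ^ c.2.2.1 * t ^ c.2.2.2)) =
      W hA (tw ((T.filter (fun c => c.2.1 % 2 = 1)).map (fun c => (c.1, c.2.2.1, c.2.2.2))) b t) := by
  induction T with
  | nil => simp [tw]
  | cons c T ih =>
    by_cases h : c.2.1 % 2 = 1
    · simp only [List.map_cons, W_cons, List.filter_cons, h, decide_true, if_true, tw] at ih ⊢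
      rw [ih, odd_int_cast h, one_mul]
    · simp only [List.map_cons, W_cons, List.filter_cons, h, decide_false, if_false, tw, Bool.false_eq_true] at ih ⊢
      rw [ih, even_int_cast h]
      simp

section Conj

variable (hR : Sys D F η)
include hR

/-- Conjugation of a root element by a positive root element. -/
theorem X_conj_odd {s r : ℕ} (hs : D.IsPosRoot s) (hr : D.IsPosRoot r) (hsr : s ≠ r) (b t : F) :
    X hR.toAddRel s b * X hR.toAddRel r t * (X hR.toAddRel s b)⁻¹ =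
      X hR.toAddRel r t * W hR.toAddRel (tw (oddT D s r) b t) := by
  have h1 := commPos hR s r hs hr (fun e => hsr e.symm) (-b) t
  have h4 : X hR.toAddRel r t * X hR.toAddRel s (-b) = X hR.toAddRel s (-b) * X hR.toAddRel r t *
      W hR.toAddRel ((D.commTerms s r).map fun c' => (c'.1, (c'.2.1 : F) * (- (-b)) ^ c'.2.2.1 * t ^ c'.2.2.2)) := h1
  rw [W_odd, neg_neg] at h4
  have h5 : (X hR.toAddRel s b)⁻¹ = X hR.toAddRel s (-b) := X_inv _ _ _
  have h6 : X hR.toAddRel s b = (X hR.toAddRel s (-b))⁻¹ := by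
    rw [X_inv, neg_neg]
  rw [h5]
  nth_rewrite 1 [h6]
  rw [mul_assoc, h4, oddT]
  group

theorem X_comm_of_nil {s r : ℕ} (hs : D.IsPosRoot s) (hr : D.IsPosRoot r)
    (h : s = r ∨ oddT D s r = []) (b t : F) : Commute (X hR.toAddRel s b) (X hR.toAddRel r t) := by
  by_cases hsr : s = r
  · subst hsr
    show X hR.toAddRel s b * X hR.toAddRel s t = X hR.toAddRel s t * X hR.toAddRel s b
    rw [X_mul, X_mul, add_comm]
  · have h1 := X_conj_odd hR hs hr hsr b t
    rw [h.resolve_left hsr] at h1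
    simp only [tw, List.map_nil, W_nil, mul_one] at h1
    show X hR.toAddRel s b * X hR.toAddRel r t = X hR.toAddRel r t * X hR.toAddRel s b
    nth_rewrite 2 [← h1]
    group

theorem X_sq (r : ℕ) (c : F) : X hR.toAddRel r c * X hR.toAddRel r c = 1 := by
  rw [X_mul, CharTwo.add_self_eq_zero, X_zero]

theorem X_inv_eq (r : ℕ) (c : F) : (X hR.toAddRel r c)⁻¹ = X hR.toAddRel r c := by
  rw [X_inv, CharTwo.neg_eq]

end Conj

/-! ### Congruence modulo the roots above `q` -/

section Eqv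

variable {hA : AddRel D F}

/-- The subgroup of the roots above `q`. -/
noncomputable def MM (hA : AddRel D F) (q : ℕ) : Subgroup (GL D.Idx F) := gen hA {s | D.IsPosRoot s ∧ q < s}

/-- Congruence modulo `MM q`. -/
def Eqv (hA : AddRel D F) (q : ℕ) (x y : GL D.Idx F) : Prop := x⁻¹ * y ∈ MM hA q

/-- The group `U`. -/
noncomputable def UU (hA : AddRel D F) : Subgroup (GL D.Idx F) := gen hA {r | D.IsPosRoot r}

theorem MM_le_UU (q : ℕ) : MM hA q ≤ UU hA := gen_mono hA (fun _ h => h.1)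

theorem X_mem_UU {r : ℕ} (hr : D.IsPosRoot r) (t : F) : X hA r t ∈ UU hA := X_mem_gen hA hr t

theorem bl_mem_UU {L : List ℕ} (hL : ∀ r ∈ L, D.IsPosRoot r) (f : ℕ → F) : bl hA L f ∈ UU hA :=
  bl_mem_gen hL f

theorem Eqv.refl (q : ℕ) (x : GL D.Idx F) : Eqv hA q x x := by
  simp [Eqv]

theorem Eqv.symm {q : ℕ} {x y : GL D.Idx F} (h : Eqv hA q x y) : Eqv hA q y x := by
  have := Subgroup.inv_mem _ h
  simpa [Eqv] using this

theorem Eqv.trans {q : ℕ} {x y z : GL D.Idx F} (h : Eqv hA q x y) (h' : Eqv hA q y z) : Eqv hA q x z := by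
  have := Subgroup.mul_mem _ h h'
  have e : x⁻¹ * y * (y⁻¹ * z) = x⁻¹ * z := by group
  rwa [e] at this

theorem Eqv.mul_left {q : ℕ} {x y : GL D.Idx F} (c : GL D.Idx F) (h : Eqv hA q x y) :
    Eqv hA q (c * x) (c * y) := by
  have e : (c * x)⁻¹ * (c * y) = x⁻¹ * y := by group
  rw [Eqv, e]
  exact h

theorem Eqv.mul_right (hc : CommPos hA) (hT : Tbl D) {q : ℕ} {x y c : GL D.Idx F} (hcU : c ∈ UU hA)
    (h : Eqv hA q x y) : Eqv hA q (x * c) (y * c) := by
  have e : (x * c)⁻¹ * (y * c) = c⁻¹ * (x⁻¹ * y) * (c⁻¹)⁻¹ := by group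
  rw [Eqv, e]
  exact above_norm hc hT (Subgroup.inv_mem _ hcU) _ h

theorem Eqv.mul (hc : CommPos hA) (hT : Tbl D) {q : ℕ} {x x' y y' : GL D.Idx F} (hyU : y ∈ UU hA)
    (h : Eqv hA q x x') (h' : Eqv hA q y y') : Eqv hA q (x * y) (x' * y') :=
  (h.mul_right hc hT hyU).trans (h'.mul_left x')

theorem Eqv.of_mem {q : ℕ} {m : GL D.Idx F} (h : m ∈ MM hA q) : Eqv hA q m 1 := by
  have := Subgroup.inv_mem _ h
  simpa [Eqv] using this

theorem Eqv_central (hc : CommPos hA) (hT : Tbl D) {q : ℕ} (hq : D.IsPosRoot q) {u : GL D.Idx F}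
    (hu : u ∈ UU hA) (e : F) : Eqv hA q (u * X hA q e) (X hA q e * u) := by
  have h1 := conj_lead hc hT hq (Subgroup.inv_mem _ hu) e
  have e1 : (u * X hA q e)⁻¹ * (X hA q e * u) = (X hA q e)⁻¹ * (u⁻¹ * X hA q e * u⁻¹⁻¹) := by group
  rw [Eqv, e1]
  exact h1

/-- Products of roots above `q`. -/
theorem W_mem_MM {q : ℕ} {l : List (ℕ × F)} (h : ∀ p ∈ l, D.IsPosRoot p.1 ∧ q < p.1) : W hA l ∈ MM hA q :=
  W_mem_gen hA h

/-- The low term of a word of terms. -/
theorem W_low (hc : CommPos hA) (hT : Tbl D) {q i j : ℕ} (b t : F) :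
    ∀ l : List (ℕ × ℕ × ℕ), (∀ c ∈ l, D.IsPosRoot c.1) → l.filter (fun c => c.1 ≤ q) = [(q, i, j)] →
      Eqv hA q (W hA (tw l b t)) (X hA q (b ^ i * t ^ j)) := by
  intro l
  induction l with
  | nil =>
    intro _ h
    simp at h
  | cons c l ih =>
    intro hp hf
    have hpl : ∀ c ∈ l, D.IsPosRoot c.1 := fun x hx => hp x (List.mem_cons_of_mem _ hx)
    by_cases hcq : c.1 ≤ q
    · rw [List.filter_cons_of_pos (by simpa using hcq)] at hf
      have h1 : c = (q, i, j) := (List.cons.inj hf).1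
      have h2 := (List.cons.inj hf).2
      subst h1
      have h3 : ∀ x ∈ l, q < x.1 := by
        intro x hx
        by_contra hcon
        have : x ∈ l.filter (fun c => c.1 ≤ q) := List.mem_filter.mpr ⟨hx, by simpa using hcon⟩
        rw [h2] at this
        simp at this
      have h4 : W hA (tw l b t) ∈ MM hA q := by
        apply W_mem_MM
        intro p hp'
        obtain ⟨x, hx, rfl⟩ := List.mem_map.mp hp'
        exact ⟨hpl x hx, h3 x hx⟩
      simp only [tw, List.map_cons, W_cons]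
      have h5 := (Eqv.of_mem h4).mul_left (X hA q (b ^ i * t ^ j))
      simpa [tw] using h5
    · rw [List.filter_cons_of_neg (by simpa using hcq)] at hf
      have h2 := ih hpl hf
      simp only [tw, List.map_cons, W_cons]
      have h3 : X hA c.1 (b ^ c.2.1 * t ^ c.2.2) ∈ MM hA q :=
        X_mem_gen hA (show c.1 ∈ {s | D.IsPosRoot s ∧ q < s} from ⟨hp c (by simp), by omega⟩) _
      have h4 : W hA (tw l b t) ∈ UU hA := by
        apply W_mem_gen
        intro p hp'
        obtain ⟨x, hx, rfl⟩ := List.mem_map.mp hp'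
        exact hpl x hx
      have h5 := (Eqv.of_mem h3).mul hc hT h4 (Eqv.refl q _)
      rw [one_mul] at h5
      exact h5.trans h2

end Eqv

/-! ### Conjugation modulo `MM q` -/

section Main

variable (hR : Sys D F η) (hT : Tbl D)
include hR hT

theorem conj_eqv {s r q i j : ℕ} (hs : D.IsPosRoot s) (hr : D.IsPosRoot r) (hq : D.IsPosRoot q) (hsr : s ≠ r)
    (hlow : (oddT D s r).filter (fun c => c.1 ≤ q) = [(q, i, j)]) (b : F) (G : ℕ → F) :
    ∀ L : List ℕ, L.Nodup → (∀ a ∈ L, D.IsPosRoot a) →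
      (∀ a ∈ L, a ≠ r → G a = 0 ∨ a = s ∨ ∀ c ∈ oddT D s a, q < c.1) →
      Eqv hR.toAddRel q (X hR.toAddRel s b * bl hR.toAddRel L G * (X hR.toAddRel s b)⁻¹)
        (bl hR.toAddRel L G * (if r ∈ L then X hR.toAddRel q (b ^ i * (G r) ^ j) else 1)) := by
  have hcp := commPos hR
  have hXU : ∀ {a : ℕ}, D.IsPosRoot a → ∀ t : F, X hR.toAddRel a t ∈ UU hR.toAddRel :=
    fun ha t => X_mem_UU ha t
  intro L
  induction L with
  | nil =>
    intro _ _ _
    simp only [bl_nil, List.not_mem_nil, if_false, mul_one, mul_inv_cancel]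
    exact Eqv.refl _ _
  | cons a L ih =>
    intro hnd hp hcond
    rw [List.nodup_cons] at hnd
    have hpa : D.IsPosRoot a := hp a (by simp)
    have hpL : ∀ x ∈ L, D.IsPosRoot x := fun x hx => hp x (List.mem_cons_of_mem _ hx)
    have ih' := ih hnd.2 hpL (fun x hx => hcond x (List.mem_cons_of_mem _ hx))
    have e : X hR.toAddRel s b * bl hR.toAddRel (a :: L) G * (X hR.toAddRel s b)⁻¹ =
        (X hR.toAddRel s b * X hR.toAddRel a (G a) * (X hR.toAddRel s b)⁻¹) *
          (X hR.toAddRel s b * bl hR.toAddRel L G * (X hR.toAddRel s b)⁻¹) := by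
      rw [bl_cons]
      group
    have hU : X hR.toAddRel s b * bl hR.toAddRel L G * (X hR.toAddRel s b)⁻¹ ∈ UU hR.toAddRel :=
      Subgroup.mul_mem _ (Subgroup.mul_mem _ (hXU hs b) (bl_mem_UU hpL G)) (Subgroup.inv_mem _ (hXU hs b))
    rw [e, bl_cons]
    by_cases har : a = r
    · subst har
      rw [if_neg hnd.1, mul_one] at ih'
      rw [if_pos (by simp)]
      have h1 : Eqv hR.toAddRel q (X hR.toAddRel s b * X hR.toAddRel a (G a) * (X hR.toAddRel s b)⁻¹)
          (X hR.toAddRel a (G a) * X hR.toAddRel q (b ^ i * (G a) ^ j)) := by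
        rw [X_conj_odd hR hs hpa hsr]
        refine Eqv.mul_left _ (W_low hcp hT b _ _ ?_ hlow)
        intro c hc
        obtain ⟨n, hn⟩ := mem_oddT hc
        exact (hT.comm_keys s a hs hpa hsr _ hn).2.2.1
      have h2 := h1.mul hcp hT hU ih'
      refine h2.trans ?_
      have h3 := Eqv_central hcp hT hq (bl_mem_UU hpL G) (b ^ i * (G a) ^ j)
      have h4 := (h3.symm).mul_left (X hR.toAddRel a (G a))
      simpa [mul_assoc] using h4
    · have hmem : (r ∈ a :: L) ↔ r ∈ L := by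
        simp [Ne.symm har]
      simp only [hmem]
      have h1 : Eqv hR.toAddRel q (X hR.toAddRel s b * X hR.toAddRel a (G a) * (X hR.toAddRel s b)⁻¹)
          (X hR.toAddRel a (G a)) := by
        by_cases hne : s = a
        · subst hne
          have e2 : X hR.toAddRel s b * X hR.toAddRel s (G s) * (X hR.toAddRel s b)⁻¹ = X hR.toAddRel s (G s) := by
            rw [X_inv, X_mul, X_mul]
            congr 1
            ring
          rw [e2]
          exact Eqv.refl _ _
        rcases hcond a (by simp) har with h0 | h0 | h0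
        · rw [h0, X_zero]
          simp only [mul_one, mul_inv_cancel]
          exact Eqv.refl _ _
        · exact absurd h0.symm hne
        · rw [X_conj_odd hR hs hpa hne]
          have h3 : W hR.toAddRel (tw (oddT D s a) b (G a)) ∈ MM hR.toAddRel q := by
            apply W_mem_MM
            intro p hp'
            obtain ⟨x, hx, rfl⟩ := List.mem_map.mp hp'
            obtain ⟨n, hn⟩ := mem_oddT hx
            exact ⟨(hT.comm_keys s a hs hpa hne _ hn).2.2.1, h0 x hx⟩
          have h4 := (Eqv.of_mem h3).mul_left (X hR.toAddRel a (G a))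
          simpa using h4
      have h2 := h1.mul hcp hT hU ih'
      simpa [mul_assoc] using h2

theorem bl_mul_X_eqv {q : ℕ} (hq : D.IsPosRoot q) (e : F) (G : ℕ → F) :
    ∀ L : List ℕ, L.Nodup → (∀ a ∈ L, D.IsPosRoot a) → q ∈ L →
      Eqv hR.toAddRel q (bl hR.toAddRel L G * X hR.toAddRel q e) (bl hR.toAddRel L (upd G q e)) := by
  have hcp := commPos hR
  intro L
  induction L with
  | nil =>
    intro _ _ h
    simp at h
  | cons a L ih =>
    intro hnd hp hqL
    rw [List.nodup_cons] at hnd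
    have hpL : ∀ x ∈ L, D.IsPosRoot x := fun x hx => hp x (List.mem_cons_of_mem _ hx)
    rw [bl_cons, bl_cons]
    by_cases haq : a = q
    · subst haq
      have h1 : bl hR.toAddRel L (upd G a e) = bl hR.toAddRel L G := by
        apply bl_congr
        intro x hx
        have : x ≠ a := fun h => hnd.1 (h ▸ hx)
        simp [upd, this]
      have h2 := (Eqv_central hcp hT hq (bl_mem_UU hpL G) e).mul_left (X hR.toAddRel a (G a))
      rw [h1]
      have e1 : upd G a e a = G a + e := by simp [upd]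
      rw [e1, ← X_mul, mul_assoc]
      have e2 : X hR.toAddRel a (G a) * X hR.toAddRel a e * bl hR.toAddRel L G =
          X hR.toAddRel a (G a) * (X hR.toAddRel a e * bl hR.toAddRel L G) := by group
      rw [e2]
      exact h2
    · have hq' : q ∈ L := by
        rcases List.mem_cons.mp hqL with h | h
        · exact absurd h.symm haq
        · exact h
      have e1 : upd G q e a = G a := by simp [upd, haq]
      rw [e1, mul_assoc]
      exact (ih hnd.2 hpL hq').mul_left _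

theorem bl_eqv_coord {q : ℕ} : ∀ L : List ℕ, L.Pairwise (· < ·) → (∀ a ∈ L, D.IsPosRoot a) →
    ∀ G₁ G₂ : ℕ → F, Eqv hR.toAddRel q (bl hR.toAddRel L G₁) (bl hR.toAddRel L G₂) →
      ∀ p ∈ L, p ≤ q → G₁ p = G₂ p := by
  intro L
  induction L with
  | nil => simp
  | cons a L ih =>
    intro hs hp G₁ G₂ h p hpL hpq
    rw [List.pairwise_cons] at hs
    have hpL' : ∀ x ∈ L, D.IsPosRoot x := fun x hx => hp x (List.mem_cons_of_mem _ hx)
    have hpa : D.IsPosRoot a := hp a (by simp)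
    have haq : a ≤ q := by
      rcases List.mem_cons.mp hpL with rfl | h'
      · exact hpq
      · have := hs.1 p h'
        omega
    rw [bl_cons, bl_cons] at h
    have hmem : ∀ G : ℕ → F, bl hR.toAddRel L G ∈ gen hR.toAddRel {s | D.IsPosRoot s ∧ a < s} := by
      intro G
      exact bl_mem_gen (Ψ := {s | D.IsPosRoot s ∧ a < s}) (fun x hx => ⟨hpL' x hx, hs.1 x hx⟩) G
    have hle : MM hR.toAddRel q ≤ gen hR.toAddRel {s | D.IsPosRoot s ∧ a < s} :=
      gen_mono _ (fun s hs' => ⟨hs'.1, lt_of_le_of_lt haq hs'.2⟩)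
    have h1 : X hR.toAddRel a (-G₁ a + G₂ a) ∈ gen hR.toAddRel {s | D.IsPosRoot s ∧ a < s} := by
      have h2 := hle h
      have e : X hR.toAddRel a (-G₁ a + G₂ a) = bl hR.toAddRel L G₁ *
          ((X hR.toAddRel a (G₁ a) * bl hR.toAddRel L G₁)⁻¹ * (X hR.toAddRel a (G₂ a) * bl hR.toAddRel L G₂)) *
          (bl hR.toAddRel L G₂)⁻¹ := by
        rw [← X_mul, ← X_inv]
        group
      rw [e]
      exact Subgroup.mul_mem _ (Subgroup.mul_mem _ (hmem _) h2) (Subgroup.inv_mem _ (hmem _))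
    have h3 := eq_zero_of_X_mem hT hpa h1
    have h4 : G₁ a = G₂ a := by
      have e : G₂ a = G₁ a + (-G₁ a + G₂ a) := by ring
      rw [e, h3, add_zero]
    rcases List.mem_cons.mp hpL with rfl | h'
    · exact h4
    · refine ih hs.2 hpL' G₁ G₂ ?_ p h' hpq
      rw [h4] at h
      have e : (X hR.toAddRel a (G₂ a) * bl hR.toAddRel L G₁)⁻¹ * (X hR.toAddRel a (G₂ a) * bl hR.toAddRel L G₂) =
          (bl hR.toAddRel L G₁)⁻¹ * bl hR.toAddRel L G₂ := by group
      rw [Eqv, e] at h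
      exact h

/-- The elements in normal form. -/
noncomputable def Z (hA : AddRel D F) (G : ℕ → F) : GL D.Idx F := bl hA D.posRoots G

theorem Z_mem_gen {C : Set ℕ} {G : ℕ → F} (h : ∀ p, G p ≠ 0 → p ∈ C) : Z hR.toAddRel G ∈ gen hR.toAddRel C := by
  have : ∀ L : List ℕ, bl hR.toAddRel L G ∈ gen hR.toAddRel C := by
    intro L
    induction L with
    | nil => exact Subgroup.one_mem _
    | cons a L ih =>
      rw [bl_cons]
      refine Subgroup.mul_mem _ ?_ ih
      by_cases h0 : G a = 0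
      · rw [h0, X_zero]
        exact Subgroup.one_mem _
      · exact X_mem_gen _ (h a h0) _
  exact this _

theorem Z_mem_UU (G : ℕ → F) : Z hR.toAddRel G ∈ UU hR.toAddRel :=
  bl_mem_UU (fun _ h => mem_posRoots.mp h) G

theorem Z_eqv_coord {q : ℕ} {G₁ G₂ : ℕ → F} (h : Eqv hR.toAddRel q (Z hR.toAddRel G₁) (Z hR.toAddRel G₂))
    {p : ℕ} (hp : D.IsPosRoot p) (hpq : p ≤ q) : G₁ p = G₂ p :=
  bl_eqv_coord hR hT _ posRoots_sorted (fun _ h => mem_posRoots.mp h) G₁ G₂ h p (mem_posRoots.mpr hp) hpq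

/-- A positive root element normalises a subgroup if the odd keys stay in the set. -/
theorem X_norm {s : ℕ} (hs : D.IsPosRoot s) {C : Set ℕ} (hp : ∀ x ∈ C, D.IsPosRoot x)
    (hk : ∀ x ∈ C, x ≠ s → ∀ c ∈ oddT D s x, c.1 ∈ C) (b : F) {g : GL D.Idx F} (hg : g ∈ gen hR.toAddRel C) :
    X hR.toAddRel s b * g * (X hR.toAddRel s b)⁻¹ ∈ gen hR.toAddRel C := by
  refine gen_induction hR.toAddRel (P := fun g => X hR.toAddRel s b * g * (X hR.toAddRel s b)⁻¹ ∈ gen hR.toAddRel C)
    ?_ ?_ ?_ hg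
  · simp
  · intro x hx t
    by_cases hxs : x = s
    · subst hxs
      have e : X hR.toAddRel x b * X hR.toAddRel x t * (X hR.toAddRel x b)⁻¹ = X hR.toAddRel x t := by
        rw [X_inv, X_mul, X_mul]
        congr 1
        ring
      rw [e]
      exact X_mem_gen _ hx _
    · rw [X_conj_odd hR hs (hp x hx) (Ne.symm hxs)]
      refine Subgroup.mul_mem _ (X_mem_gen _ hx _) (W_mem_gen _ ?_)
      intro p hp'
      obtain ⟨c, hc, rfl⟩ := List.mem_map.mp hp'
      exact hk x hx hxs c hc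
  · intro x y hx hy
    have e : X hR.toAddRel s b * (x * y) * (X hR.toAddRel s b)⁻¹ =
        (X hR.toAddRel s b * x * (X hR.toAddRel s b)⁻¹) * (X hR.toAddRel s b * y * (X hR.toAddRel s b)⁻¹) := by group
    rw [e]
    exact Subgroup.mul_mem _ hx hy

/-- Ordered products in closed sets of positive roots, with odd keys only. -/
theorem exists_ordered_odd : ∀ (L : List ℕ), L.Pairwise (· < ·) → (∀ r ∈ L, D.IsPosRoot r) →
    (∀ r ∈ L, ∀ s ∈ L, r < s → ∀ c ∈ oddT D r s, c.1 ∈ L) →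
    ∀ g ∈ gen hR.toAddRel {r | r ∈ L}, ∃ t : ℕ → F, g = W hR.toAddRel (L.map fun r => (r, t r)) := by
  intro L
  induction L with
  | nil =>
    intro _ _ _ g hg
    refine ⟨fun _ => 0, ?_⟩
    have : gen hR.toAddRel {r | r ∈ ([] : List ℕ)} = ⊥ := by
      rw [gen, Subgroup.closure_eq_bot_iff]
      rintro g ⟨r, hr, _⟩
      simp at hr
    rw [this, Subgroup.mem_bot] at hg
    simp [hg]
  | cons a L ih =>
    intro hs hp hcl g hg
    rw [List.pairwise_cons] at hs
    have hal : ∀ r ∈ L, a < r := hs.1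
    have hpa : D.IsPosRoot a := hp a (by simp)
    have hpL : ∀ r ∈ L, D.IsPosRoot r := fun r hr => hp r (by simp [hr])
    have hkey : ∀ {x y : ℕ} {c : ℕ × ℕ × ℕ}, D.IsPosRoot x → D.IsPosRoot y → x ≠ y → c ∈ oddT D x y →
        x < c.1 ∧ y < c.1 := by
      intro x y c hx hy hxy hc
      obtain ⟨n, hn⟩ := mem_oddT hc
      obtain ⟨h1, h2, _⟩ := hT.comm_keys x y hx hy hxy _ hn
      exact ⟨h1, h2⟩
    have hclL : ∀ r ∈ L, ∀ s ∈ L, r < s → ∀ c ∈ oddT D r s, c.1 ∈ L := by
      intro r hr s hs' hrs c hc'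
      have h1 := hcl r (by simp [hr]) s (by simp [hs']) hrs c hc'
      have h2 := hkey (hpL r hr) (hpL s hs') (ne_of_lt hrs) hc'
      rcases List.mem_cons.mp h1 with h3 | h3
      · exfalso
        have := hal r hr
        omega
      · exact h3
    have hn : ∀ (t : F) (k : GL D.Idx F), k ∈ gen hR.toAddRel {r | r ∈ L} →
        (X hR.toAddRel a t)⁻¹ * k * X hR.toAddRel a t ∈ gen hR.toAddRel {r | r ∈ L} := by
      intro t k hk
      have h1 := X_norm hR hT hpa (C := {r | r ∈ L}) hpL ?_ (-t) hk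
      · have e : X hR.toAddRel a (-t) = (X hR.toAddRel a t)⁻¹ := (X_inv _ _ _).symm
        rw [e, inv_inv] at h1
        exact h1
      · intro s hs' _ c hc'
        have h1 := hcl a (by simp) s (by simp [show s ∈ L from hs']) (hal s hs') c hc'
        have h2 := hkey hpa (hpL s hs') (ne_of_lt (hal s hs')) hc'
        rcases List.mem_cons.mp h1 with h3 | h3
        · exfalso
          omega
        · exact h3
    rw [gen_cons] at hg
    obtain ⟨t₀, k, hk, rfl⟩ := mem_sup_X hn hg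
    obtain ⟨t', rfl⟩ := ih hs.2 hpL hclL k hk
    refine ⟨fun r => if r = a then t₀ else t' r, ?_⟩
    rw [List.map_cons, W_cons]
    simp only [if_true]
    congr 2
    apply List.map_congr_left
    intro r hr
    have : r ≠ a := (ne_of_lt (hal r hr)).symm
    simp [this]

theorem exists_Z {C : List ℕ} (hp : ∀ x ∈ C, D.IsPosRoot x)
    (hcl : ∀ x ∈ C, ∀ y ∈ C, x < y → ∀ c ∈ oddT D x y, c.1 ∈ C) {g : GL D.Idx F}
    (hg : g ∈ gen hR.toAddRel {r | r ∈ C}) : ∃ H : ℕ → F, (∀ p, H p ≠ 0 → p ∈ C) ∧ g = Z hR.toAddRel H := by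
  classical
  set L := D.posRoots.filter (fun x => x ∈ C) with hL
  have hLmem : ∀ x, x ∈ L ↔ x ∈ C := by
    intro x
    rw [hL, List.mem_filter]
    simp only [mem_posRoots, decide_eq_true_eq]
    exact ⟨fun h => h.2, fun h => ⟨hp x h, h⟩⟩
  have hset : {r | r ∈ L} = {r | r ∈ C} := by
    ext x
    exact hLmem x
  obtain ⟨t, ht⟩ := exists_ordered_odd hR hT L (posRoots_sorted.filter _)
    (fun x hx => hp x ((hLmem x).mp hx))
    (fun x hx y hy hxy c hc => (hLmem _).mpr (hcl x ((hLmem x).mp hx) y ((hLmem y).mp hy) hxy c hc))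
    g (by rw [hset]; exact hg)
  refine ⟨fun p => if p ∈ C then t p else 0, ?_, ?_⟩
  · intro p hp'
    by_contra h
    exact hp' (if_neg h)
  · rw [ht, Z, bl, W_map_ite]
    rfl

theorem Z_first {r : ℕ} {G : ℕ → F} (hr : D.IsPosRoot r) (h0 : ∀ p < r, G p = 0) :
    Z hR.toAddRel G = X hR.toAddRel r (G r) * Z hR.toAddRel (fun x => if x = r then 0 else G x) := by
  have : ∀ L : List ℕ, L.Pairwise (· < ·) → r ∈ L → bl hR.toAddRel L G =
      X hR.toAddRel r (G r) * bl hR.toAddRel L (fun x => if x = r then 0 else G x) := by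
    intro L
    induction L with
    | nil => simp
    | cons a L ih =>
      intro hs hrL
      rw [List.pairwise_cons] at hs
      rw [bl_cons, bl_cons]
      by_cases har : a = r
      · subst har
        have h1 : bl hR.toAddRel L (fun x => if x = a then 0 else G x) = bl hR.toAddRel L G := by
          apply bl_congr
          intro x hx
          have : x ≠ a := (ne_of_lt (hs.1 x hx)).symm
          simp [this]
        simp [h1]
      · have hr' : r ∈ L := by
          rcases List.mem_cons.mp hrL with h | h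
          · exact absurd h.symm har
          · exact h
        have hlt := hs.1 r hr'
        have e1 : G a = 0 := h0 a hlt
        simp only [e1, X_zero, one_mul, har, if_false]
        exact ih hs.2 hr'
  exact this _ posRoots_sorted (mem_posRoots.mpr hr)

theorem Z_zero {G : ℕ → F} (h0 : ∀ p, G p = 0) : Z hR.toAddRel G = 1 := by
  have : G = fun _ => 0 := funext h0
  rw [this, Z, bl_zero]

end Main

/-! ### The certificates -/

/-- A step of clearing: conjugation by `x_s` removes the coordinate at `q`. -/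
structure ClearStep where
  q : ℕ
  s : ℕ
  i : ℕ
  j : ℕ

/-- A step of elimination: the commutator with `x_r` at `k` shows that the coordinate at `q` vanishes. -/
structure KillStep where
  q : ℕ
  C : List ℕ
  k : ℕ
  i : ℕ
  j : ℕ

/-- A child of a node. -/
structure Child where
  r : ℕ
  clear : List ClearStep
  kills : List KillStep
  cid : ℕ

/-- A node of the tree. -/
structure NodeD where
  O : List ℕ
  A : List ℕ
  ch : List Child

/-- Tables of terms. -/
abbrev TT := ℕ → ℕ → List (ℕ × ℕ × ℕ)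

def ClearOK (T : TT) (posL O Lr Q : List ℕ) (r : ℕ) (st : ClearStep) : Prop :=
  st.s ∈ posL ∧ st.s ≠ r ∧ (∀ o ∈ O, st.s = o ∨ T st.s o = []) ∧
  (∀ p ∈ Lr, p ≠ st.s → ∀ c ∈ T st.s p, c.1 ∈ Lr) ∧
  (T st.s r).filter (fun c => c.1 ≤ st.q) = [(st.q, st.i, st.j)] ∧
  (st.i = 1 ∨ st.i = 2) ∧
  (∀ p ∈ Lr, p ≠ r → p ≠ st.s → (p ∈ Q ∧ p < st.q) ∨ ∀ c ∈ T st.s p, st.q < c.1)

instance (T : TT) (posL O Lr Q : List ℕ) (r : ℕ) (st : ClearStep) : Decidable (ClearOK T posL O Lr Q r st) := by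
  unfold ClearOK
  infer_instance

def KillOK (T : TT) (posL : List ℕ) (r : ℕ) (S : List ℕ) (st : KillStep) : Prop :=
  st.q ∈ S ∧ (∀ p ∈ S, p ∈ st.C) ∧ (∀ x ∈ st.C, x ∈ posL) ∧
  (∀ x ∈ st.C, ∀ y ∈ st.C, x < y → ∀ c ∈ T x y, c.1 ∈ st.C) ∧ st.k ∉ st.C ∧
  (T r st.q).filter (fun c => c.1 ≤ st.k) = [(st.k, st.i, st.j)] ∧
  (∀ p ∈ S, p ≠ st.q → ∀ c ∈ T r p, st.k < c.1)

instance (T : TT) (posL : List ℕ) (r : ℕ) (S : List ℕ) (st : KillStep) : Decidable (KillOK T posL r S st) := by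
  unfold KillOK
  infer_instance

/-- What is left after the eliminations. -/
def killEnd : List ℕ → List KillStep → List ℕ
  | S, [] => S
  | S, st :: rest => killEnd (S.filter (fun p => p ≠ st.q)) rest

def KillChain (T : TT) (posL : List ℕ) (r : ℕ) : List ℕ → List KillStep → Prop
  | _, [] => True
  | S, st :: rest => KillOK T posL r S st ∧ KillChain T posL r (S.filter (fun p => p ≠ st.q)) rest

instance decKillChain (T : TT) (posL : List ℕ) (r : ℕ) : ∀ (S : List ℕ) (l : List KillStep),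
    Decidable (KillChain T posL r S l)
  | _, [] => isTrue trivial
  | S, st :: rest => by
    unfold KillChain
    haveI := decKillChain T posL r (S.filter (fun p => p ≠ st.q)) rest
    infer_instance

def ChildAr (nd : NodeD) (c : Child) : List ℕ := nd.A.filter (fun x => c.r < x)

def ChildQ (c : Child) : List ℕ := c.clear.map (fun st => st.q)

def Child0 (nd : NodeD) (c : Child) : List ℕ := (ChildAr nd c).filter (fun x => x ∉ ChildQ c)

def ChildOK (T : TT) (posL : List ℕ) (nodes : ℕ → NodeD) (n id : ℕ) (nd : NodeD) (c : Child) : Prop :=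
  c.r ∈ nd.A ∧ c.r ∉ nd.O ∧ id < c.cid ∧ c.cid < n ∧ (nodes c.cid).O = nd.O ++ [c.r] ∧
  (ChildQ c).Pairwise (· < ·) ∧ (∀ q ∈ ChildQ c, q ∈ ChildAr nd c) ∧
  (∀ st ∈ c.clear, ClearOK T posL nd.O (c.r :: ChildAr nd c) (ChildQ c) c.r st) ∧
  KillChain T posL c.r (Child0 nd c) c.kills ∧
  (∀ p ∈ killEnd (Child0 nd c) c.kills, p ≠ c.r ∧ T c.r p = []) ∧
  (nodes c.cid).A = killEnd (Child0 nd c) c.kills

instance (T : TT) (posL : List ℕ) (nodes : ℕ → NodeD) (n id : ℕ) (nd : NodeD) (c : Child) :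
    Decidable (ChildOK T posL nodes n id nd c) := by
  unfold ChildOK
  infer_instance

def NodeOK (T : TT) (posL : List ℕ) (nodes : ℕ → NodeD) (n id : ℕ) : Prop :=
  (∀ x ∈ (nodes id).O, x ∈ posL) ∧ (∀ x ∈ (nodes id).A, x ∈ posL) ∧
  (∀ x ∈ (nodes id).A, ∀ y ∈ (nodes id).A, x < y → ∀ c ∈ T x y, c.1 ∈ (nodes id).A) ∧
  (∀ r ∈ (nodes id).A, ∃ c ∈ (nodes id).ch, c.r = r) ∧
  (∀ c ∈ (nodes id).ch, ChildOK T posL nodes n id (nodes id) c)

instance (T : TT) (posL : List ℕ) (nodes : ℕ → NodeD) (n id : ℕ) : Decidable (NodeOK T posL nodes n id) := by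
  unfold NodeOK
  infer_instance

section Run

variable {hA : AddRel D F}

/-- The root elements commuting with the given list. -/
noncomputable def StabO (hA : AddRel D F) (O : List ℕ) : Subgroup (GL D.Idx F) :=
  gen hA {s | D.IsPosRoot s ∧ ∀ o ∈ O, s = o ∨ oddT D s o = []}

theorem StabO_le_UU (O : List ℕ) : StabO hA O ≤ UU hA := gen_mono hA (fun _ h => h.1)

theorem exists_solve [Fintype F] {i : ℕ} (hi : i = 1 ∨ i = 2) {c : F} (hc : c ≠ 0) (d : F) :
    ∃ b : F, b ^ i * c = d := by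
  rcases hi with rfl | rfl
  · exact ⟨d / c, by field_simp⟩
  · obtain ⟨y, hy⟩ := FiniteField.isSquare_of_char_two (ringChar.eq F 2) (d / c)
    refine ⟨y, ?_⟩
    rw [pow_two, ← hy]
    field_simp

theorem commute_gen {x : GL D.Idx F} {C : Set ℕ} (h : ∀ p ∈ C, ∀ t : F, Commute x (X hA p t)) {g : GL D.Idx F}
    (hg : g ∈ gen hA C) : Commute x g := by
  refine gen_induction hA (P := fun g => Commute x g) (Commute.one_right _) ?_ ?_ hg
  · exact h
  · intro a b ha hb
    exact ha.mul_right hb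

end Run

section Run2

variable [Fintype F] (hR : Sys D F η) (hT : Tbl D)
include hR hT

theorem StabO_comm {O : List ℕ} (hO : ∀ o ∈ O, D.IsPosRoot o) {u : GL D.Idx F} (hu : u ∈ StabO hR.toAddRel O)
    (a : ℕ → F) : Commute u (bl hR.toAddRel O a) := by
  refine gen_induction hR.toAddRel (P := fun u => Commute u (bl hR.toAddRel O a)) (Commute.one_left _) ?_ ?_ hu
  · intro s hs t
    refine commute_X_bl (fun q hq s' t' => ?_) _ _
    exact X_comm_of_nil hR hs.1 (hO q hq) (hs.2 q hq) s' t'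
  · intro x y hx hy
    exact hx.mul_left hy

theorem clear_one {T : TT} (hTT : ∀ s r, D.IsPosRoot s → D.IsPosRoot r → T s r = oddT D s r)
    {posL : List ℕ} (hposL : ∀ x ∈ posL, D.IsPosRoot x) {O Lr Q : List ℕ} {r : ℕ}
    (hO : ∀ o ∈ O, D.IsPosRoot o) (hLr : ∀ x ∈ Lr, D.IsPosRoot x) (hrLr : r ∈ Lr)
    (hcl : ∀ x ∈ Lr, ∀ y ∈ Lr, x < y → ∀ c ∈ oddT D x y, c.1 ∈ Lr) {st : ClearStep}
    (h : ClearOK T posL O Lr Q r st) (hq : D.IsPosRoot st.q) {G : ℕ → F}
    (hG : ∀ p, G p ≠ 0 → p ∈ Lr) (hGr : G r ≠ 0) (hQ : ∀ p ∈ Q, p < st.q → G p = 0) :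
    ∃ u ∈ StabO hR.toAddRel O, ∃ G' : ℕ → F, (∀ p, G' p ≠ 0 → p ∈ Lr) ∧ (∀ p < st.q, G' p = G p) ∧ G' st.q = 0 ∧
      u * Z hR.toAddRel G * u⁻¹ = Z hR.toAddRel G' := by
  obtain ⟨h1, h2, h3, h4, h5, h6, h7⟩ := h
  have hs : D.IsPosRoot st.s := hposL _ h1
  have hr := hLr r hrLr
  have hTs : ∀ p, D.IsPosRoot p → T st.s p = oddT D st.s p := fun p hp => hTT _ _ hs hp
  have hlow : (oddT D st.s r).filter (fun c => c.1 ≤ st.q) = [(st.q, st.i, st.j)] := by
    rw [← hTs r hr]
    exact h5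
  obtain ⟨b, hb⟩ := exists_solve h6 (pow_ne_zero st.j hGr) (G st.q)
  refine ⟨X hR.toAddRel st.s b, ?_, ?_⟩
  · refine X_mem_gen _ (show st.s ∈ {s | D.IsPosRoot s ∧ ∀ o ∈ O, s = o ∨ oddT D s o = []} from
      ⟨hs, fun o ho => ?_⟩) b
    rcases h3 o ho with e | e
    · exact Or.inl e
    · exact Or.inr (by rw [← hTs o (hO o ho)]; exact e)
  have hconj := conj_eqv hR hT hs hr hq h2 hlow b G D.posRoots posRoots_nodup (fun _ h => mem_posRoots.mp h)
    (by
      intro a ha har
      by_cases h0 : G a = 0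
      · exact Or.inl h0
      · have haL := hG a h0
        by_cases has : a = st.s
        · exact Or.inr (Or.inl has)
        · rcases h7 a haL har has with h8 | h8
          · exact absurd (hQ a h8.1 h8.2) h0
          · refine Or.inr (Or.inr ?_)
            rw [← hTs a (mem_posRoots.mp ha)]
            exact h8)
  rw [if_pos (mem_posRoots.mpr hr), hb] at hconj
  have hmem : X hR.toAddRel st.s b * Z hR.toAddRel G * (X hR.toAddRel st.s b)⁻¹ ∈ gen hR.toAddRel {x | x ∈ Lr} := by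
    refine X_norm hR hT hs hLr ?_ b (Z_mem_gen hR hT hG)
    intro x hx hxs c hc
    refine h4 x hx hxs c ?_
    rw [hTs x (hLr x hx)]
    exact hc
  obtain ⟨G', hG', e⟩ := exists_Z hR hT hLr hcl hmem
  refine ⟨G', hG', ?_, ?_, e⟩
  all_goals
    have hcoord : Eqv hR.toAddRel st.q (Z hR.toAddRel G') (Z hR.toAddRel (upd G st.q (G st.q))) := by
      rw [← e]
      exact hconj.trans (bl_mul_X_eqv hR hT hq _ G D.posRoots posRoots_nodup (fun _ h => mem_posRoots.mp h)
        (mem_posRoots.mpr hq))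
  · intro p hp
    by_cases hpp : D.IsPosRoot p
    · have h8 := Z_eqv_coord hR hT hcoord hpp hp.le
      rw [h8]
      simp [upd, ne_of_lt hp]
    · have h8 : G' p = 0 := by
        by_contra h9
        exact hpp (hLr p (hG' p h9))
      have h9 : G p = 0 := by
        by_contra h9
        exact hpp (hLr p (hG p h9))
      rw [h8, h9]
  · have h8 := Z_eqv_coord hR hT hcoord hq le_rfl
    rw [h8]
    simp [upd, CharTwo.add_self_eq_zero]

theorem clear_run {T : TT} (hTT : ∀ s r, D.IsPosRoot s → D.IsPosRoot r → T s r = oddT D s r)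
    {posL : List ℕ} (hposL : ∀ x ∈ posL, D.IsPosRoot x) {O Lr Q : List ℕ} {r : ℕ}
    (hO : ∀ o ∈ O, D.IsPosRoot o) (hLr : ∀ x ∈ Lr, D.IsPosRoot x) (hrLr : r ∈ Lr)
    (hcl : ∀ x ∈ Lr, ∀ y ∈ Lr, x < y → ∀ c ∈ oddT D x y, c.1 ∈ Lr) :
    ∀ cl : List ClearStep, (cl.map (fun st => st.q)).Pairwise (· < ·) →
      (∀ st ∈ cl, ClearOK T posL O Lr Q r st ∧ r < st.q ∧ D.IsPosRoot st.q) →
      ∀ G : ℕ → F, (∀ p, G p ≠ 0 → p ∈ Lr) → G r ≠ 0 →
      (∀ p ∈ Q, p ∉ cl.map (fun st => st.q) → G p = 0 ∧ ∀ st ∈ cl, p < st.q) →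
      ∃ u ∈ StabO hR.toAddRel O, ∃ G' : ℕ → F, (∀ p, G' p ≠ 0 → p ∈ Lr) ∧ G' r = G r ∧ (∀ p ∈ Q, G' p = 0) ∧
        u * Z hR.toAddRel G * u⁻¹ = Z hR.toAddRel G' := by
  intro cl
  induction cl with
  | nil =>
    intro _ _ G hG _ hQ
    refine ⟨1, Subgroup.one_mem _, G, hG, rfl, fun p hp => (hQ p hp (by simp)).1, by simp⟩
  | cons st cl ih =>
    intro hs hst G hG hGr hQ
    rw [List.map_cons, List.pairwise_cons] at hs
    obtain ⟨h1, h2, h3⟩ := hst st (by simp)
    have hQ' : ∀ p ∈ Q, p < st.q → G p = 0 := by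
      intro p hp hlt
      by_cases hpm : p ∈ (st :: cl).map (fun st => st.q)
      · exfalso
        rw [List.map_cons] at hpm
        rcases List.mem_cons.mp hpm with h | h
        · omega
        · have := hs.1 p h
          omega
      · exact (hQ p hp hpm).1
    obtain ⟨u₁, hu₁, G₁, hG₁, hcoord, hq0, e₁⟩ := clear_one hR hT hTT hposL hO hLr hrLr hcl h1 h3 hG hGr hQ'
    have hG₁r : G₁ r = G r := hcoord r h2
    obtain ⟨u₂, hu₂, G₂, hG₂, hG₂r, hG₂Q, e₂⟩ := ih hs.2 (fun x hx => hst x (List.mem_cons_of_mem _ hx)) G₁ hG₁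
      (by rw [hG₁r]; exact hGr) (by
        intro p hp hpn
        by_cases hpq : p = st.q
        · subst hpq
          refine ⟨hq0, fun x hx => hs.1 x.q (List.mem_map_of_mem hx)⟩
        · have hpn' : p ∉ (st :: cl).map (fun st => st.q) := by
            rw [List.map_cons]
            intro h
            rcases List.mem_cons.mp h with h | h
            · exact hpq h
            · exact hpn h
          obtain ⟨h5, h6⟩ := hQ p hp hpn'
          have h7 := h6 st (by simp)
          refine ⟨by rw [hcoord p h7]; exact h5, fun x hx => h6 x (List.mem_cons_of_mem _ hx)⟩)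
    refine ⟨u₂ * u₁, Subgroup.mul_mem _ hu₂ hu₁, G₂, hG₂, by rw [hG₂r, hG₁r], hG₂Q, ?_⟩
    rw [← e₂, ← e₁]
    group

theorem kill_one {T : TT} (hTT : ∀ s r, D.IsPosRoot s → D.IsPosRoot r → T s r = oddT D s r)
    {posL : List ℕ} (hposL : ∀ x ∈ posL, D.IsPosRoot x) {r : ℕ} (hr : D.IsPosRoot r) {c : F} (hc : c ≠ 0)
    {S : List ℕ} (hSr : ∀ p ∈ S, r ≠ p) {st : KillStep} (h : KillOK T posL r S st) {G : ℕ → F}
    (hG : ∀ p, G p ≠ 0 → p ∈ S)
    (hsq : (X hR.toAddRel r c * Z hR.toAddRel G) * (X hR.toAddRel r c * Z hR.toAddRel G) = 1) : G st.q = 0 := by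
  obtain ⟨h1, h2, h3, h4, h5, h6, h7⟩ := h
  have hCp : ∀ x ∈ st.C, D.IsPosRoot x := fun x hx => hposL x (h3 x hx)
  have hq : D.IsPosRoot st.q := hCp _ (h2 _ h1)
  have hrq : r ≠ st.q := hSr _ h1
  have hlow : (oddT D r st.q).filter (fun c => c.1 ≤ st.k) = [(st.k, st.i, st.j)] := by
    rw [← hTT _ _ hr hq]
    exact h6
  have hk : D.IsPosRoot st.k := by
    have h8 : (st.k, st.i, st.j) ∈ (oddT D r st.q).filter (fun c => c.1 ≤ st.k) := by
      rw [hlow]
      simp
    obtain ⟨n, hn⟩ := mem_oddT (List.mem_filter.mp h8).1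
    exact (hT.comm_keys r st.q hr hq hrq _ hn).2.2.1
  have hconj := conj_eqv hR hT hr hq hk hrq hlow c G D.posRoots posRoots_nodup (fun _ h => mem_posRoots.mp h)
    (by
      intro a ha haq
      by_cases h0 : G a = 0
      · exact Or.inl h0
      · have haS := hG a h0
        refine Or.inr (Or.inr ?_)
        rw [← hTT _ _ hr (mem_posRoots.mp ha)]
        exact h7 a haS haq)
  rw [if_pos (mem_posRoots.mpr hq)] at hconj
  set e := c ^ st.i * G st.q ^ st.j with he
  set z := Z hR.toAddRel G with hz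
  have hx : X hR.toAddRel r c * z * (X hR.toAddRel r c)⁻¹ = z⁻¹ := by
    rw [X_inv_eq hR]
    rw [eq_inv_iff_mul_eq_one]
    rw [← hsq]
    group
  have hconj' : Eqv hR.toAddRel st.k z⁻¹ (z * X hR.toAddRel st.k e) := by
    rw [← hx]
    exact hconj
  have h8 := hconj'.mul_left z⁻¹
  rw [inv_mul_cancel_left] at h8
  have hzC : z ∈ gen hR.toAddRel {x | x ∈ st.C} := Z_mem_gen hR hT (fun p hp => h2 p (hG p hp))
  have hcl : ∀ x ∈ st.C, ∀ y ∈ st.C, x < y → ∀ c ∈ oddT D x y, c.1 ∈ st.C := by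
    intro x hx y hy hxy c hc
    refine h4 x hx y hy hxy c ?_
    rw [hTT _ _ (hCp x hx) (hCp y hy)]
    exact hc
  obtain ⟨H, hH, eH⟩ := exists_Z hR hT hCp hcl
    (Subgroup.mul_mem _ (Subgroup.inv_mem _ hzC) (Subgroup.inv_mem _ hzC))
  have eX : X hR.toAddRel st.k e = Z hR.toAddRel (fun x => if x = st.k then e else 0) :=
    (bl_single posRoots_nodup (mem_posRoots.mpr hk) e).symm
  rw [eH, eX] at h8
  have h9 := Z_eqv_coord hR hT h8 hk le_rfl
  have h10 : H st.k = 0 := by
    by_contra h11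
    exact h5 (hH _ h11)
  rw [h10, if_pos rfl] at h9
  have h11 : c ^ st.i * G st.q ^ st.j = 0 := h9.symm
  rcases mul_eq_zero.mp h11 with h12 | h12
  · exact absurd h12 (pow_ne_zero _ hc)
  · by_contra h13
    exact pow_ne_zero _ h13 h12

theorem kill_run {T : TT} (hTT : ∀ s r, D.IsPosRoot s → D.IsPosRoot r → T s r = oddT D s r)
    {posL : List ℕ} (hposL : ∀ x ∈ posL, D.IsPosRoot x) {r : ℕ} (hr : D.IsPosRoot r) {c : F} (hc : c ≠ 0)
    {G : ℕ → F}
    (hsq : (X hR.toAddRel r c * Z hR.toAddRel G) * (X hR.toAddRel r c * Z hR.toAddRel G) = 1) :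
    ∀ (l : List KillStep) (S : List ℕ), (∀ p ∈ S, r ≠ p) → KillChain T posL r S l → (∀ p, G p ≠ 0 → p ∈ S) →
      ∀ p, G p ≠ 0 → p ∈ killEnd S l := by
  intro l
  induction l with
  | nil =>
    intro S _ _ hG
    exact hG
  | cons st l ih =>
    intro S hS hch hG
    obtain ⟨h1, h2⟩ := hch
    have h3 := kill_one hR hT hTT hposL hr hc hS h1 hG hsq
    refine ih _ (fun p hp => hS p (List.mem_filter.mp hp).1) h2 ?_
    intro p hp
    refine List.mem_filter.mpr ⟨hG p hp, ?_⟩
    simp only [decide_eq_true_eq]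
    rintro rfl
    exact hp h3

/-- The main induction on the tree. -/
theorem nf_claim {T : TT} (hTT : ∀ s r, D.IsPosRoot s → D.IsPosRoot r → T s r = oddT D s r)
    {posL : List ℕ} (hposL : ∀ x ∈ posL, D.IsPosRoot x) {nodes : ℕ → NodeD} {n : ℕ}
    (hok : ∀ id < n, NodeOK T posL nodes n id) :
    ∀ (m id : ℕ), n - id = m → id < n → ∀ (a G : ℕ → F), (∀ o ∈ (nodes id).O, a o ≠ 0) →
      (∀ p, G p ≠ 0 → p ∈ (nodes id).A) → Z hR.toAddRel G * Z hR.toAddRel G = 1 →
      ∃ u ∈ UU hR.toAddRel, ∃ id' < n, ∃ a' : ℕ → F, (∀ o ∈ (nodes id').O, a' o ≠ 0) ∧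
        u * (bl hR.toAddRel (nodes id).O a * Z hR.toAddRel G) * u⁻¹ = bl hR.toAddRel (nodes id').O a' := by
  classical
  intro m
  induction m using Nat.strong_induction_on with
  | _ m ih =>
    intro id hm hid a G ha hG hsq
    obtain ⟨hOp, hAp, hAcl, hcov, hch⟩ := hok id hid
    set nd := nodes id with hnd
    by_cases hall : ∀ p, G p = 0
    · refine ⟨1, Subgroup.one_mem _, id, hid, a, ha, ?_⟩
      rw [Z_zero hR hT hall]
      simp [hnd]
    have hex : ∃ p, G p ≠ 0 := by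
      push Not at hall
      exact hall
    obtain ⟨r, hGr, hmin⟩ : ∃ r, G r ≠ 0 ∧ ∀ p < r, G p = 0 :=
      ⟨Nat.find hex, Nat.find_spec hex, fun p hp => by
        by_contra h
        exact Nat.find_min hex hp h⟩
    have hrA : r ∈ nd.A := hG r hGr
    obtain ⟨c, hcm, hcr⟩ := hcov r hrA
    subst hcr
    obtain ⟨h1, h2, h3, h4, h5, h6, h7, h8, h9, h10, h11⟩ := hch c hcm
    have hAp' : ∀ x ∈ nd.A, D.IsPosRoot x := fun x hx => hposL x (hAp x hx)
    have hOp' : ∀ x ∈ nd.O, D.IsPosRoot x := fun x hx => hposL x (hOp x hx)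
    have hr : D.IsPosRoot c.r := hAp' _ h1
    set Ar := ChildAr nd c with hAr
    set Lr := c.r :: Ar with hLr
    have hmemAr : ∀ x, x ∈ Ar ↔ x ∈ nd.A ∧ c.r < x := by
      intro x
      rw [hAr, ChildAr, List.mem_filter]
      simp
    have hLrp : ∀ x ∈ Lr, D.IsPosRoot x := by
      intro x hx
      rcases List.mem_cons.mp hx with rfl | hx
      · exact hr
      · exact hAp' x ((hmemAr x).mp hx).1
    have hLrA : ∀ x ∈ Lr, x ∈ nd.A ∧ c.r ≤ x := by
      intro x hx
      rcases List.mem_cons.mp hx with rfl | hx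
      · exact ⟨h1, le_rfl⟩
      · exact ⟨((hmemAr x).mp hx).1, ((hmemAr x).mp hx).2.le⟩
    have hLrcl : ∀ x ∈ Lr, ∀ y ∈ Lr, x < y → ∀ c' ∈ oddT D x y, c'.1 ∈ Lr := by
      intro x hx y hy hxy c' hc'
      have hpx := hLrp x hx
      have hpy := hLrp y hy
      have h12 := hAcl x (hLrA x hx).1 y (hLrA y hy).1 hxy c' (by rw [hTT x y hpx hpy]; exact hc')
      obtain ⟨n', hn'⟩ := mem_oddT hc'
      have h13 := (hT.comm_keys x y hpx hpy (ne_of_lt hxy) _ hn').1
      refine List.mem_cons_of_mem _ ((hmemAr _).mpr ⟨h12, ?_⟩)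
      have := (hLrA x hx).2
      show c.r < c'.1
      simp only at h13
      omega
    have hsupp : ∀ p, G p ≠ 0 → p ∈ Lr := by
      intro p hp
      have hpA := hG p hp
      have hge : ¬ p < c.r := fun hlt => hp (hmin p hlt)
      by_cases hpr : p = c.r
      · rw [hpr]
        exact List.mem_cons_self
      · refine List.mem_cons_of_mem _ ((hmemAr p).mpr ⟨hpA, by omega⟩)
    have hstep : ∀ st ∈ c.clear, ClearOK T posL nd.O Lr (ChildQ c) c.r st ∧ c.r < st.q ∧ D.IsPosRoot st.q := by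
      intro st hst
      have hqA := (hmemAr _).mp (h7 st.q (List.mem_map_of_mem hst))
      exact ⟨h8 st hst, hqA.2, hAp' _ hqA.1⟩
    obtain ⟨u₁, hu₁, G', hG', hG'r, hG'Q, e₁⟩ := clear_run hR hT hTT hposL hOp' hLrp List.mem_cons_self hLrcl
      c.clear h6 hstep G hsupp hGr (by
        intro p hp hp'
        exact absurd hp hp')
    have hG'min : ∀ p < c.r, G' p = 0 := by
      intro p hp
      by_contra h12
      have := (hLrA p (hG' p h12)).2
      omega
    have hG'c : G' c.r ≠ 0 := by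
      rw [hG'r]
      exact hGr
    set G₁ : ℕ → F := fun x => if x = c.r then 0 else G' x with hG₁
    have eZ := Z_first hR hT hr hG'min
    have hsq' : Z hR.toAddRel G' * Z hR.toAddRel G' = 1 := by
      rw [← e₁]
      calc u₁ * Z hR.toAddRel G * u₁⁻¹ * (u₁ * Z hR.toAddRel G * u₁⁻¹) =
          u₁ * (Z hR.toAddRel G * Z hR.toAddRel G) * u₁⁻¹ := by group
        _ = 1 := by rw [hsq]; group
    have hsq'' : (X hR.toAddRel c.r (G' c.r) * Z hR.toAddRel G₁) * (X hR.toAddRel c.r (G' c.r) * Z hR.toAddRel G₁) = 1 := by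
      rw [← eZ]
      exact hsq'
    have hG₁0 : ∀ p, G₁ p ≠ 0 → p ∈ Child0 nd c := by
      intro p hp
      have hpr : p ≠ c.r := by
        intro h12
        apply hp
        simp [hG₁, h12]
      have hp' : G' p ≠ 0 := by
        intro h12
        apply hp
        simp [hG₁, h12]
      have hpL := hG' p hp'
      have hpAr : p ∈ Ar := by
        rcases List.mem_cons.mp hpL with h12 | h12
        · exact absurd h12 hpr
        · exact h12
      refine List.mem_filter.mpr ⟨hpAr, ?_⟩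
      simp only [decide_eq_true_eq]
      intro h12
      exact hp' (hG'Q p h12)
    have h00 : ∀ p ∈ Child0 nd c, c.r ≠ p := by
      intro p hp
      have := ((hmemAr p).mp (List.mem_filter.mp hp).1).2
      omega
    have hG₁S := kill_run hR hT hTT hposL hr hG'c hsq'' c.kills (Child0 nd c) h00 h9 hG₁0
    set S := killEnd (Child0 nd c) c.kills with hS
    have hcomm : Commute (X hR.toAddRel c.r (G' c.r)) (Z hR.toAddRel G₁) := by
      have hmem : Z hR.toAddRel G₁ ∈ gen hR.toAddRel {x | x ∈ S} := Z_mem_gen hR hT hG₁S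
      refine commute_gen ?_ hmem
      intro p hp t
      have hpS : p ∈ S := hp
      -- positivity of the elements of `S`
      have hpo : D.IsPosRoot p := by
        have h12 : p ∈ (nodes c.cid).A := by
          rw [h11]
          exact hpS
        exact hposL p ((hok c.cid h4).2.1 p h12)
      refine X_comm_of_nil hR hr hpo (Or.inr ?_) _ _
      rw [← hTT _ _ hr hpo]
      exact (h10 p hpS).2
    have hsq3 : Z hR.toAddRel G₁ * Z hR.toAddRel G₁ = 1 := by
      have e2 : (X hR.toAddRel c.r (G' c.r) * Z hR.toAddRel G₁) * (X hR.toAddRel c.r (G' c.r) * Z hR.toAddRel G₁) =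
          (X hR.toAddRel c.r (G' c.r) * X hR.toAddRel c.r (G' c.r)) * (Z hR.toAddRel G₁ * Z hR.toAddRel G₁) := by
        rw [mul_assoc, ← mul_assoc (Z hR.toAddRel G₁), ← hcomm.eq]
        group
      rw [e2, X_sq hR, one_mul] at hsq''
      exact hsq''
    set a₁ : ℕ → F := fun x => if x = c.r then G' c.r else a x with ha₁
    have hlt : n - c.cid < m := by omega
    obtain ⟨u₂, hu₂, id', hid', a', ha', e₂⟩ := ih _ hlt c.cid rfl h4 a₁ G₁ (by
        intro o ho
        rw [h5] at ho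
        rcases List.mem_append.mp ho with ho | ho
        · have : o ≠ c.r := fun h12 => h2 (h12 ▸ ho)
          simp only [ha₁, this, if_false]
          exact ha o ho
        · have : o = c.r := by simpa using ho
          simp only [ha₁, this, if_true]
          exact hG'c) (by
        rw [h11]
        exact hG₁S) hsq3
    refine ⟨u₂ * u₁, Subgroup.mul_mem _ hu₂ (StabO_le_UU _ hu₁), id', hid', a', ha', ?_⟩
    have hB : bl hR.toAddRel (nodes c.cid).O a₁ = bl hR.toAddRel nd.O a * X hR.toAddRel c.r (G' c.r) := by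
      rw [h5, bl_append']
      have e3 : bl hR.toAddRel nd.O a₁ = bl hR.toAddRel nd.O a := by
        apply bl_congr
        intro x hx
        have : x ≠ c.r := fun h12 => h2 (h12 ▸ hx)
        simp [ha₁, this]
      rw [e3]
      simp [ha₁]
    have hC := StabO_comm hR hT hOp' hu₁ a
    have e4 : u₁ * (bl hR.toAddRel nd.O a * Z hR.toAddRel G) * u₁⁻¹ =
        bl hR.toAddRel (nodes c.cid).O a₁ * Z hR.toAddRel G₁ := by
      rw [hB, mul_assoc (bl hR.toAddRel nd.O a), ← eZ, ← e₁, ← mul_assoc, hC.eq]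
      group
    calc u₂ * u₁ * (bl hR.toAddRel nd.O a * Z hR.toAddRel G) * (u₂ * u₁)⁻¹ =
        u₂ * (u₁ * (bl hR.toAddRel nd.O a * Z hR.toAddRel G) * u₁⁻¹) * u₂⁻¹ := by group
      _ = _ := by rw [e4, e₂]

/-- Normal forms of the involutions of `U`. -/
theorem nf_main {T : TT} (hTT : ∀ s r, D.IsPosRoot s → D.IsPosRoot r → T s r = oddT D s r)
    {posL : List ℕ} (hposL : ∀ x ∈ posL, D.IsPosRoot x) {nodes : ℕ → NodeD} {n : ℕ}
    (hok : ∀ id < n, NodeOK T posL nodes n id) (hn : 0 < n) (h0 : (nodes 0).O = [])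
    (h0A : ∀ x, D.IsPosRoot x → x ∈ (nodes 0).A) {t : GL D.Idx F} (ht : t ∈ UU hR.toAddRel) (hsq : t * t = 1) :
    ∃ u ∈ UU hR.toAddRel, ∃ id' < n, ∃ a' : ℕ → F, (∀ o ∈ (nodes id').O, a' o ≠ 0) ∧
      u * t * u⁻¹ = bl hR.toAddRel (nodes id').O a' := by
  have hset : ({r | r ∈ D.posRoots} : Set ℕ) = {r | D.IsPosRoot r} := by
    ext x
    exact mem_posRoots
  obtain ⟨G, hG, rfl⟩ := exists_Z hR hT (C := D.posRoots) (fun _ h => mem_posRoots.mp h) (by
      intro x hx y hy hxy c hc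
      obtain ⟨n', hn'⟩ := mem_oddT hc
      exact mem_posRoots.mpr (hT.comm_keys x y (mem_posRoots.mp hx) (mem_posRoots.mp hy) (ne_of_lt hxy) _ hn').2.2.1)
    (by rw [hset]; exact ht)
  have := nf_claim hR hT hTT hposL hok _ 0 rfl hn (fun _ => 1) G (by simp) (fun p hp => h0A p (mem_posRoots.mp (hG p hp))) hsq
  rw [h0, bl_nil, one_mul] at this
  exact this

end Run2

end Cfsg.Agent.Lib.ChevBN.InvNF
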