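import Cfsg.Agent.Lib.ChevBN.InvRed

/-!
The tree of normal forms of the involutions for type G2 in characteristic two.
-/

set_option autoImplicit false

namespace Cfsg.Agent.Lib.ChevBN.InvNFG2

open Cfsg.Lie Cfsg.Agent.Lib.ChevBN.InvNF Cfsg.Agent.Lib.ChevBN.InvRed

/-- The odd terms. -/
def tab : List (List (List (ℕ × ℕ × ℕ))) :=
  [[],
  [],
  [],
  [],
  [],
  [],
  [[], [], [], [], [], [], [], [(8, 1, 1), (9, 1, 2), (10, 1, 3)], [], [], [(11, 1, 1)]],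
  [[], [], [], [], [], [], [(8, 1, 1), (9, 2, 1), (10, 3, 1), (11, 3, 2)], [], [(10, 2, 1), (11, 1, 2)], [(10, 1, 1)]],
  [[], [], [], [], [], [], [], [(11, 2, 1), (10, 1, 2)], [], [(11, 1, 1)]],
  [[], [], [], [], [], [], [], [(10, 1, 1)], [(11, 1, 1)]],
  [[], [], [], [], [], [], [(11, 1, 1)]],
  []]

/-- The odd terms as a function. -/
def tt : TT := fun s r => (tab.getD s []).getD r []

/-- The positive roots. -/
def posL : List ℕ := [6, 7, 8, 9, 10, 11]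

/-- The nodes. -/
def nodesL : List NodeD :=
  [⟨[], [6, 7, 8, 9, 10, 11], [⟨6, [⟨8, 7, 1, 1⟩, ⟨11, 10, 1, 1⟩], [⟨7, [7, 9, 10], 8, 1, 1⟩, ⟨10, [9, 10], 11, 1, 1⟩], 1⟩, ⟨7, [⟨8, 6, 1, 1⟩, ⟨10, 8, 1, 2⟩], [⟨9, [9, 11], 10, 1, 1⟩], 3⟩, ⟨8, [⟨11, 9, 1, 1⟩], [⟨9, [9, 10], 11, 1, 1⟩], 5⟩, ⟨9, [⟨10, 7, 1, 1⟩, ⟨11, 8, 1, 1⟩], [], 7⟩, ⟨10, [⟨11, 6, 1, 1⟩], [], 8⟩, ⟨11, [], [], 9⟩]⟩,
  ⟨[6], [9], [⟨9, [], [], 2⟩]⟩,
  ⟨[6, 9], [], []⟩,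
  ⟨[7], [11], [⟨11, [], [], 4⟩]⟩,
  ⟨[7, 11], [], []⟩,
  ⟨[8], [10], [⟨10, [], [], 6⟩]⟩,
  ⟨[8, 10], [], []⟩,
  ⟨[9], [], []⟩,
  ⟨[10], [], []⟩,
  ⟨[11], [], []⟩]

/-- The nodes as a function. -/
def nodes (i : ℕ) : NodeD := nodesL.getD i ⟨[], [], []⟩

set_option maxHeartbeats 0 in
theorem tt_eq : ∀ s ∈ posL, ∀ r ∈ posL, tt s r = oddT chevG2 s r := by decide +kernel

set_option maxHeartbeats 0 in
theorem nodes_ok : ∀ id < 10, NodeOK tt posL nodes 10 id := by decide +kernel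

/-- The paths to the representatives. -/
def pathsL : List (List RStep × List ℕ) :=
  [([], []),
  ([.refl 0, .refl 1], [11]),
  ([.refl 0, .mv1 7 8 10 2 1 11 1 2, .mv0 9 8 11 1 1, .refl 0], [9]),
  ([.refl 1, .refl 0], [9]),
  ([.refl 1, .mv1 7 8 10 2 1 11 1 2, .mv0 9 8 11 1 1, .refl 0], [9]),
  ([.refl 0], [9]),
  ([.mv1 7 8 10 2 1 11 1 2, .mv0 9 8 11 1 1, .refl 0], [9]),
  ([], [9]),
  ([.refl 1], [11]),
  ([], [11])]

/-- The paths as a function. -/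
def path (i : ℕ) : List RStep × List ℕ := pathsL.getD i ([], [])

/-- The representatives. -/
def reps : List (List ℕ) := [[11], [9]]

set_option maxHeartbeats 0 in
theorem paths_ok : ∀ id < 10, (nodes id).O = [] ∨
    ((path id).2 ∈ reps ∧ RunOK chevG2 tt posL (nodes id).O (path id).1 (path id).2) := by decide +kernel

end Cfsg.Agent.Lib.ChevBN.InvNFG2

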