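import Cfsg.Agent.Lib.ChevBN.InvNF

/-!
Reductions between the normal forms of involutions in characteristic two, and the separation of classes.
-/

set_option autoImplicit false
set_option linter.unusedSectionVars false

namespace Cfsg.Agent.Lib.ChevBN.InvRed

open Cfsg.Lie Cfsg.Agent.Lib.ChevBN.Elem Cfsg.Agent.Lib.ChevBN.Entries Cfsg.Agent.Lib.ChevBN.Table
open Cfsg.Agent.Lib.ChevBN.Collect Cfsg.Agent.Lib.ChevBN.Rel Cfsg.Agent.Lib.ChevBN.Torus
open Cfsg.Agent.Lib.ChevBN.Monomial Cfsg.Agent.Lib.ChevBN.Core Cfsg.Agent.Lib.ChevBN.Pair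
open Cfsg.Agent.Lib.ChevBN.Stmts Cfsg.Agent.Lib.ChevBN.BruhatForm Cfsg.Agent.Lib.ChevBN.Opp
open Cfsg.Agent.Lib.ChevBN.ConjH Cfsg.Agent.Lib.ChevBN.Cent Cfsg.Agent.Lib.ChevBN.Fix
open Cfsg.Agent.Lib.ChevBN.GraphFix Cfsg.Agent.Lib.ChevBN.RootCent
open Cfsg.Agent.Lib.ChevBN.CentGen Cfsg.Agent.Lib.ChevBN.CentTab Cfsg.Agent.Lib.ChevBN.ParabCent
open Cfsg.Agent.Lib.ChevBN.InvNF
open Cfsg.Agent.Lib.ChevOrder.Chev Cfsg.Agent.Lib.ChevOrder.BNCount Cfsg.Agent.Lib.ChevOrder.Cox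
open Cfsg.Agent.Lib.BNPair.CoxeterExchange
open Cfsg.Agent.Lib.BNPair.Basic Cfsg.Agent.Lib.BNPair.Parabolic

variable {D : ChevalleyDatum} {F : Type*} [Field F] [CharP F 2] {η : ℕ → ℕ → ℤ}

/-- Reduction of one shape of element to another one, in the group. -/
def Red (D : ChevalleyDatum) {F : Type*} [Field F] (hA : AddRel D F) (L L' : List ℕ) : Prop :=
  ∀ a : ℕ → F, (∀ o ∈ L, a o ≠ 0) → ∃ g ∈ D.group F, ∃ a' : ℕ → F, (∀ o ∈ L', a' o ≠ 0) ∧
    g * bl hA L a * g⁻¹ = bl hA L' a'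

theorem Red.trans {hA : AddRel D F} {L₁ L₂ L₃ : List ℕ} (h : Red D hA L₁ L₂) (h' : Red D hA L₂ L₃) :
    Red D hA L₁ L₃ := by
  intro a ha
  obtain ⟨g, hg, a', ha', e⟩ := h a ha
  obtain ⟨g', hg', a'', ha'', e'⟩ := h' a' ha'
  refine ⟨g' * g, Subgroup.mul_mem _ hg' hg, a'', ha'', ?_⟩
  rw [← e', ← e]
  group

/-- The data of a move: conjugation by `x_s` cancels the coefficient of `k`. -/
def MoveOK (T : TT) (posL O : List ℕ) (s o₀ k i j : ℕ) (rest : List (ℕ × ℕ × ℕ)) : Prop :=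
  O.Nodup ∧ (∀ x ∈ O, x ∈ posL) ∧ (∀ x ∈ O, ∀ y ∈ O, x ≠ y → T x y = []) ∧ s ∈ posL ∧ s ∉ O ∧ o₀ ∈ O ∧ k ∈ O ∧
  (∀ o ∈ O, o ≠ o₀ → T s o = []) ∧
  (T s o₀).filter (fun c => c.1 = k) = [(k, i, j)] ∧ (i = 1 ∨ i = 2) ∧
  (T s o₀).filter (fun c => c.1 ≠ k) = rest ∧
  (∀ c ∈ T s o₀, c.1 ∈ posL ∧ ∀ o ∈ O, c.1 = o ∨ T c.1 o = []) ∧ (∀ c ∈ rest, c.1 ∉ O)

instance (T : TT) (posL O : List ℕ) (s o₀ k i j : ℕ) (rest : List (ℕ × ℕ × ℕ)) :
    Decidable (MoveOK T posL O s o₀ k i j rest) := by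
  unfold MoveOK
  infer_instance

/-- A step of a reduction. -/
inductive RStep
  | refl (i : ℕ)
  | mv0 (s o₀ k i j : ℕ)
  | mv1 (s o₀ k i j k' i' j' : ℕ)

/-- The list after a step. -/
def rnext (D : ChevalleyDatum) : RStep → List ℕ → List ℕ
  | .refl i, L => L.map (D.reflectRoot i)
  | .mv0 _ _ k _ _, L => L.erase k
  | .mv1 _ _ k _ _ k' _ _, L => L.erase k ++ [k']

/-- The conditions of a step. -/
def rok (D : ChevalleyDatum) (T : TT) (posL : List ℕ) : RStep → List ℕ → Prop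
  | .refl i, L => i < D.rank ∧ ∀ x ∈ L, x < D.nroots
  | .mv0 s o₀ k i j, L => MoveOK T posL L s o₀ k i j []
  | .mv1 s o₀ k i j k' i' j', L => MoveOK T posL L s o₀ k i j [(k', i', j')]

instance (D : ChevalleyDatum) (T : TT) (posL : List ℕ) (st : RStep) (L : List ℕ) : Decidable (rok D T posL st L) := by
  cases st <;> unfold rok <;> infer_instance

/-- The conditions of a chain of steps. -/
def RunOK (D : ChevalleyDatum) (T : TT) (posL : List ℕ) : List ℕ → List RStep → List ℕ → Prop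
  | L, [], L' => L.Perm L' ∧ L.Nodup ∧ (∀ x ∈ L, x ∈ posL) ∧ (∀ x ∈ L, ∀ y ∈ L, x ≠ y → T x y = [])
  | L, st :: rest, L' => rok D T posL st L ∧ RunOK D T posL (rnext D st L) rest L'

instance decRunOK (D : ChevalleyDatum) (T : TT) (posL : List ℕ) : ∀ (L : List ℕ) (l : List RStep) (L' : List ℕ),
    Decidable (RunOK D T posL L l L')
  | L, [], L' => by
    unfold RunOK
    infer_instance
  | L, st :: rest, L' => by
    unfold RunOK
    haveI := decRunOK D T posL (rnext D st L) rest L'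
    infer_instance

section Moves

variable [Fintype F] (hR : Sys D F η) (hT : Tbl D)
include hR hT

theorem eta_cast {i s : ℕ} (hi : i < D.rank) (hs : s < D.nroots) : (η i s : F) = 1 := by
  rcases hR.eta_sign i hi s hs with h | h
  · rw [h]
    simp
  · rw [h]
    push_cast
    rw [CharTwo.neg_eq]

theorem Red_reflect {i : ℕ} (hi : i < D.rank) {L : List ℕ} (hL : ∀ x ∈ L, x < D.nroots) :
    Red D hR.toAddRel L (L.map (D.reflectRoot i)) := by
  intro a ha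
  refine ⟨A hR i, N_le_G hR hT (A_mem_N hR hT hi), fun x => a (D.reflectRoot i x), ?_, ?_⟩
  · intro o ho
    obtain ⟨x, hx, rfl⟩ := List.mem_map.mp ho
    simp only
    rw [hT.w_w i hi x (hL x hx)]
    exact ha x hx
  · clear ha
    induction L with
    | nil => simp
    | cons x L ih =>
      have hx := hL x (by simp)
      have e : A hR i * bl hR.toAddRel (x :: L) a * (A hR i)⁻¹ =
          (A hR i * X hR.toAddRel x (a x) * (A hR i)⁻¹) * (A hR i * bl hR.toAddRel L a * (A hR i)⁻¹) := by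
        rw [bl_cons]
        group
      rw [e, ih (fun y hy => hL y (List.mem_cons_of_mem _ hy)), A_conj_X hR hi hx, eta_cast hR hT hi hx, one_mul,
        List.map_cons, bl_cons, hT.w_w i hi x hx]

/-- Splitting off a term of a word. -/
theorem W_split {k i j : ℕ} (hk : D.IsPosRoot k) (b t : F) :
    ∀ l : List (ℕ × ℕ × ℕ), (∀ c ∈ l, c.1 ≠ k → D.IsPosRoot c.1 ∧ oddT D c.1 k = []) →
      l.filter (fun c => c.1 = k) = [(k, i, j)] →
      W hR.toAddRel (tw l b t) = X hR.toAddRel k (b ^ i * t ^ j) * W hR.toAddRel (tw (l.filter (fun c => c.1 ≠ k)) b t) := by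
  intro l
  induction l with
  | nil =>
    intro _ h
    simp at h
  | cons c l ih =>
    intro hc hf
    by_cases hck : c.1 = k
    · rw [List.filter_cons_of_pos (by simpa using hck)] at hf
      have h1 : c = (k, i, j) := (List.cons.inj hf).1
      have h2 := (List.cons.inj hf).2
      subst h1
      have h3 : ∀ x ∈ l, x.1 ≠ k := by
        intro x hx hxk
        have : x ∈ l.filter (fun c => c.1 = k) := List.mem_filter.mpr ⟨hx, by simpa using hxk⟩
        rw [h2] at this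
        simp at this
      have h4 : (((k, i, j) : ℕ × ℕ × ℕ) :: l).filter (fun c => c.1 ≠ k) = l := by
        rw [List.filter_cons_of_neg (by simp)]
        apply List.filter_eq_self.mpr
        intro x hx
        simpa using h3 x hx
      rw [h4]
      simp [tw]
    · rw [List.filter_cons_of_neg (by simpa using hck)] at hf
      have h1 := ih (fun x hx => hc x (List.mem_cons_of_mem _ hx)) hf
      have h2 := hc c (by simp) hck
      rw [List.filter_cons_of_pos (by simpa using hck)]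
      simp only [tw, List.map_cons, W_cons]
      simp only [tw] at h1
      rw [h1, ← mul_assoc, ← mul_assoc]
      congr 1
      exact (X_comm_of_nil hR h2.1 hk (Or.inr h2.2) _ _).eq

/-- Conjugation of a product over a list where only one root matters. -/
theorem conj_bl_one {s o₀ : ℕ} (hs : D.IsPosRoot s) (b : F) (a : ℕ → F) {Y : GL D.Idx F} :
    ∀ L : List ℕ, L.Nodup → (∀ x ∈ L, D.IsPosRoot x) → s ∉ L → (∀ o ∈ L, o ≠ o₀ → oddT D s o = []) →
      (∀ o ∈ L, Commute Y (X hR.toAddRel o (a o))) → (W hR.toAddRel (tw (oddT D s o₀) b (a o₀)) = Y) →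
      X hR.toAddRel s b * bl hR.toAddRel L a * (X hR.toAddRel s b)⁻¹ =
        bl hR.toAddRel L a * (if o₀ ∈ L then Y else 1) := by
  intro L
  induction L with
  | nil => simp
  | cons x L ih =>
    intro hnd hp hsL hO hC hY
    rw [List.nodup_cons] at hnd
    have hsx : s ≠ x := fun e => hsL (by simp [e])
    have hpx : D.IsPosRoot x := hp x (by simp)
    have ih' := ih hnd.2 (fun y hy => hp y (List.mem_cons_of_mem _ hy)) (fun h => hsL (List.mem_cons_of_mem _ h))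
      (fun o ho => hO o (List.mem_cons_of_mem _ ho)) (fun o ho => hC o (List.mem_cons_of_mem _ ho)) hY
    have e : X hR.toAddRel s b * bl hR.toAddRel (x :: L) a * (X hR.toAddRel s b)⁻¹ =
        (X hR.toAddRel s b * X hR.toAddRel x (a x) * (X hR.toAddRel s b)⁻¹) *
          (X hR.toAddRel s b * bl hR.toAddRel L a * (X hR.toAddRel s b)⁻¹) := by
      rw [bl_cons]
      group
    rw [e, ih', X_conj_odd hR hs hpx hsx, bl_cons]
    by_cases hx : x = o₀
    · subst hx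
      rw [if_neg hnd.1, if_pos (by simp), hY, mul_one]
      have hcomm : Commute Y (bl hR.toAddRel L a) := by
        have : ∀ M : List ℕ, (∀ o ∈ M, Commute Y (X hR.toAddRel o (a o))) → Commute Y (bl hR.toAddRel M a) := by
          intro M
          induction M with
          | nil => simp
          | cons y M ihM =>
            intro hM
            rw [bl_cons]
            exact (hM y (by simp)).mul_right (ihM fun o ho => hM o (List.mem_cons_of_mem _ ho))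
        exact this L (fun o ho => hC o (List.mem_cons_of_mem _ ho))
      rw [mul_assoc, hcomm.eq, mul_assoc]
    · have h1 := hO x (by simp) hx
      have hmem : (o₀ ∈ x :: L) ↔ o₀ ∈ L := by
        simp [Ne.symm hx]
      simp only [hmem]
      rw [h1]
      simp [mul_assoc, tw]

/-- The common part of the moves. -/
theorem move_core {T : TT} (hTT : ∀ s r, D.IsPosRoot s → D.IsPosRoot r → T s r = oddT D s r)
    {posL : List ℕ} (hposL : ∀ x ∈ posL, D.IsPosRoot x) {O : List ℕ} {s o₀ k i j : ℕ} {rest : List (ℕ × ℕ × ℕ)}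
    (h : MoveOK T posL O s o₀ k i j rest) (a : ℕ → F) (ha : ∀ o ∈ O, a o ≠ 0) :
    ∃ b : F, b ≠ 0 ∧ X hR.toAddRel s b * bl hR.toAddRel O a * (X hR.toAddRel s b)⁻¹ =
      bl hR.toAddRel (O.erase k) a * W hR.toAddRel (tw rest b (a o₀)) := by
  obtain ⟨h1, h2, h3, h4, h5, h6, h7, h8, h9, h10, h11, h12, -⟩ := h
  have hOp : ∀ x ∈ O, D.IsPosRoot x := fun x hx => hposL x (h2 x hx)
  have hs := hposL s h4
  have hk := hOp k h7
  have hoo := hOp o₀ h6
  have e0 : T s o₀ = oddT D s o₀ := hTT _ _ hs hoo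
  rw [e0] at h9 h11 h12
  obtain ⟨b, hb⟩ := exists_solve h10 (pow_ne_zero j (ha o₀ h6)) (a k)
  have hb0 : b ≠ 0 := by
    rintro rfl
    have : (0 : F) ^ i = 0 := by
      rcases h10 with rfl | rfl <;> simp
    rw [this, zero_mul] at hb
    exact ha k h7 hb.symm
  refine ⟨b, hb0, ?_⟩
  have hkeyc : ∀ c ∈ oddT D s o₀, D.IsPosRoot c.1 ∧ ∀ o ∈ O, ∀ t u : F, Commute (X hR.toAddRel c.1 t) (X hR.toAddRel o u) := by
    intro c hc
    have hcp := hposL _ (h12 c hc).1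
    refine ⟨hcp, fun o ho t u => ?_⟩
    rcases (h12 c hc).2 o ho with e | e
    · exact X_comm_of_nil hR hcp (hOp o ho) (Or.inl e) t u
    · rw [hTT _ _ hcp (hOp o ho)] at e
      exact X_comm_of_nil hR hcp (hOp o ho) (Or.inr e) t u
  have hYc : ∀ l : List (ℕ × ℕ × ℕ), (∀ c ∈ l, c ∈ oddT D s o₀) → ∀ o ∈ O,
      Commute (W hR.toAddRel (tw l b (a o₀))) (X hR.toAddRel o (a o)) := by
    intro l
    induction l with
    | nil =>
      intro _ o _
      simp [tw]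
    | cons c l ih =>
      intro hl o ho
      simp only [tw, List.map_cons, W_cons]
      exact ((hkeyc c (hl c (by simp))).2 o ho _ _).mul_left (ih (fun x hx => hl x (List.mem_cons_of_mem _ hx)) o ho)
  have e1 := conj_bl_one hR hT hs b a O h1 hOp h5
    (fun o ho hne => by
      rw [← hTT _ _ hs (hOp o ho)]
      exact h8 o ho hne)
    (hYc _ (fun _ h => h)) rfl
  rw [e1, if_pos h6]
  have e2 := W_split hR hT (i := i) (j := j) hk b (a o₀) (oddT D s o₀)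
    (by
      intro c hc hne
      have hc1 := hkeyc c hc
      refine ⟨hc1.1, ?_⟩
      rcases (h12 c hc).2 k h7 with e | e
      · exact absurd e hne
      · rw [hTT _ _ hc1.1 hk] at e
        exact e) h9
  rw [e2, h11, hb]
  have hperm : O.Perm (k :: O.erase k) := List.perm_cons_erase h7
  have hCO : ∀ q₁ ∈ O, ∀ q₂ ∈ O, q₁ ≠ q₂ → ∀ s t : F, Commute (X hR.toAddRel q₁ s) (X hR.toAddRel q₂ t) := by
    intro q₁ h₁ q₂ h₂ hne s t
    have := h3 q₁ h₁ q₂ h₂ hne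
    rw [hTT _ _ (hOp _ h₁) (hOp _ h₂)] at this
    exact X_comm_of_nil hR (hOp _ h₁) (hOp _ h₂) (Or.inr this) s t
  have e3 : bl hR.toAddRel O a = X hR.toAddRel k (a k) * bl hR.toAddRel (O.erase k) a := by
    rw [bl_perm hperm h1 hCO, bl_cons]
  have e4 : Commute (X hR.toAddRel k (a k)) (bl hR.toAddRel O a) := by
    refine commute_X_bl (fun q hq s t => ?_) _ _
    by_cases hkq : k = q
    · subst hkq
      exact X_comm_of_nil hR hk hk (Or.inl rfl) s t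
    · exact hCO k h7 q hq hkq s t
  rw [← mul_assoc, ← e4.eq, e3, ← mul_assoc, X_sq hR, one_mul]

theorem Red_mv0 {T : TT} (hTT : ∀ s r, D.IsPosRoot s → D.IsPosRoot r → T s r = oddT D s r)
    {posL : List ℕ} (hposL : ∀ x ∈ posL, D.IsPosRoot x) {O : List ℕ} {s o₀ k i j : ℕ}
    (h : MoveOK T posL O s o₀ k i j []) : Red D hR.toAddRel O (O.erase k) := by
  intro a ha
  obtain ⟨b, -, e⟩ := move_core hR hT hTT hposL h a ha
  have hs : D.IsPosRoot s := hposL s h.2.2.2.1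
  refine ⟨X hR.toAddRel s b, U_le_G hR hT (X_mem_U hR hT hs b), a, fun o ho => ha o (List.mem_of_mem_erase ho), ?_⟩
  rw [e]
  simp [tw]

theorem Red_mv1 {T : TT} (hTT : ∀ s r, D.IsPosRoot s → D.IsPosRoot r → T s r = oddT D s r)
    {posL : List ℕ} (hposL : ∀ x ∈ posL, D.IsPosRoot x) {O : List ℕ} {s o₀ k i j k' i' j' : ℕ}
    (h : MoveOK T posL O s o₀ k i j [(k', i', j')]) : Red D hR.toAddRel O (O.erase k ++ [k']) := by
  intro a ha
  obtain ⟨b, hb, e⟩ := move_core hR hT hTT hposL h a ha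
  have hs : D.IsPosRoot s := hposL s h.2.2.2.1
  have hk' : k' ∉ O := by
    have := h.2.2.2.2.2.2.2.2.2.2.2.2 (k', i', j') (by simp)
    simpa using this
  have ho₀ : a o₀ ≠ 0 := ha o₀ h.2.2.2.2.2.1
  refine ⟨X hR.toAddRel s b, U_le_G hR hT (X_mem_U hR hT hs b),
    fun x => if x = k' then b ^ i' * a o₀ ^ j' else a x, ?_, ?_⟩
  · intro o ho
    rcases List.mem_append.mp ho with ho | ho
    · have ho' := List.mem_of_mem_erase ho
      have : o ≠ k' := fun e => hk' (e ▸ ho')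
      simp only [this, if_false]
      exact ha o ho'
    · have : o = k' := by simpa using ho
      simp only [this, if_true]
      exact mul_ne_zero (pow_ne_zero _ hb) (pow_ne_zero _ ho₀)
  · rw [e, bl_append']
    congr 1
    · apply bl_congr
      intro q hq
      have hq' := List.mem_of_mem_erase hq
      have : q ≠ k' := fun e => hk' (e ▸ hq')
      simp [this]
    · simp [tw]

theorem Red_run {T : TT} (hTT : ∀ s r, D.IsPosRoot s → D.IsPosRoot r → T s r = oddT D s r)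
    {posL : List ℕ} (hposL : ∀ x ∈ posL, D.IsPosRoot x) :
    ∀ (l : List RStep) (L L' : List ℕ), RunOK D T posL L l L' → Red D hR.toAddRel L L' := by
  intro l
  induction l with
  | nil =>
    intro L L' h
    obtain ⟨h1, h2, h3, h4⟩ := h
    intro a ha
    have hOp : ∀ x ∈ L, D.IsPosRoot x := fun x hx => hposL x (h3 x hx)
    refine ⟨1, Subgroup.one_mem _, a, fun o ho => ha o (h1.symm.subset ho), ?_⟩
    simp only [one_mul, inv_one, mul_one]
    apply bl_perm h1 h2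
    intro q₁ h₁ q₂ h₂ hne s t
    have := h4 q₁ h₁ q₂ h₂ hne
    rw [hTT _ _ (hOp _ h₁) (hOp _ h₂)] at this
    exact X_comm_of_nil hR (hOp _ h₁) (hOp _ h₂) (Or.inr this) s t
  | cons st l ih =>
    intro L L' h
    obtain ⟨h1, h2⟩ := h
    refine Red.trans ?_ (ih _ L' h2)
    cases st with
    | refl i => exact Red_reflect hR hT h1.1 h1.2
    | mv0 s o₀ k i j => exact Red_mv0 hR hT hTT hposL h1
    | mv1 s o₀ k i j k' i' j' => exact Red_mv1 hR hT hTT hposL h1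

/-! ### The torus -/

theorem conj_hP_bl {c : ℕ → F} (hc : ∀ j < D.rank, c j ≠ 0) (S : List ℕ) (hS : ∀ q ∈ S, q < D.nroots) (f : ℕ → F) :
    hP hR c * bl hR.toAddRel S f * (hP hR c)⁻¹ = bl hR.toAddRel S (fun q => chi D c q * f q) := by
  induction S with
  | nil => simp
  | cons x S ih =>
    rw [bl_cons, bl_cons, ← hP_conj hR hc (hS x (by simp)) (f x), ← ih (fun q hq => hS q (List.mem_cons_of_mem _ hq))]
    group

/-- The coefficients can be normalised if the Cartan matrix on the list has an integral inverse. -/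
theorem torus_norm {L : List ℕ} (hnd : L.Nodup) (hL : ∀ x ∈ L, x < D.nroots) (m : ℕ → ℕ → ℤ)
    (hm : ∀ r ∈ L, ∀ r' ∈ L, Ad D (fun j => m j r') r = if r = r' then 1 else 0) (a : ℕ → F) (ha : ∀ r ∈ L, a r ≠ 0) :
    ∃ g ∈ D.group F, g * bl hR.toAddRel L a * g⁻¹ = bl hR.toAddRel L (fun _ => 1) := by
  have key : ∀ M : List ℕ, M.Nodup → (∀ x ∈ M, x ∈ L) → ∃ c : ℕ → F, (∀ j, c j ≠ 0) ∧
      ∀ s ∈ L, chi D c s = if s ∈ M then (a s)⁻¹ else 1 := by
    intro M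
    induction M with
    | nil =>
      intro _ _
      exact ⟨fun _ => 1, fun _ => one_ne_zero, fun s _ => by simp [chi_one]⟩
    | cons x M ih =>
      intro hM hsub
      rw [List.nodup_cons] at hM
      obtain ⟨c, hc, hcs⟩ := ih hM.2 (fun y hy => hsub y (List.mem_cons_of_mem _ hy))
      have hxL := hsub x (by simp)
      have hax : (a x)⁻¹ ≠ 0 := inv_ne_zero (ha x hxL)
      refine ⟨(fun j => ((a x)⁻¹) ^ (m j x)) * c, fun j => ?_, fun s hs => ?_⟩
      · exact mul_ne_zero (zpow_ne_zero _ hax) (hc j)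
      · rw [chi_mul, chi_pow hax, hm s hs x hxL, hcs s hs]
        by_cases hsx : s = x
        · subst hsx
          simp [hM.1]
        · have : (s ∈ x :: M) ↔ s ∈ M := by
            simp [hsx]
          simp [hsx, this]
  obtain ⟨c, hc, hcs⟩ := key L hnd (fun _ h => h)
  refine ⟨hP hR c, H_le_G hR hT (hP_mem_H hR hT (fun j _ => hc j)), ?_⟩
  rw [conj_hP_bl hR hT (fun j _ => hc j) L hL]
  apply bl_congr
  intro q hq
  rw [hcs q hq, if_pos hq, inv_mul_cancel₀ (ha q hq)]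

end Moves

section Separation

variable (hR : Sys D F η) (hT : Tbl D)
include hR hT

/-- The image of a coefficient of the block under an element of `N` is in the block, with a nonzero coefficient. -/
theorem mono_supp {Ψ : List ℕ} (hΨnd : Ψ.Nodup) (hpos : ∀ q ∈ Ψ, D.IsPosRoot q)
    (hC : ∀ q₁ ∈ Ψ, ∀ q₂ ∈ Ψ, q₁ ≠ q₂ → ∀ s t : F, Commute (X hR.toAddRel q₁ s) (X hR.toAddRel q₂ t))
    {n : GL D.Idx F} (hn : n ∈ D.monomialSubgroup F) (hm : n ∈ monoSub D F) {f₂ f₃ : ℕ → F}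
    (h : n * bl hR.toAddRel Ψ f₂ * n⁻¹ = bl hR.toAddRel Ψ f₃) {r : ℕ} (hr : r ∈ Ψ) (hf : f₂ r ≠ 0) :
    ((permOf ⟨n, hm⟩ ⟨r, (hpos r hr).1⟩ : Fin D.nroots) : ℕ) ∈ Ψ ∧
      f₃ ((permOf ⟨n, hm⟩ ⟨r, (hpos r hr).1⟩ : Fin D.nroots) : ℕ) ≠ 0 := by
  classical
  set π := permOf (⟨n, hm⟩ : monoSub D F) with hπ
  let ρ : ℕ → ℕ := fun q => if h : q < D.nroots then (π ⟨q, h⟩).val else q
  let ρ' : ℕ → ℕ := fun q => if h : q < D.nroots then (π⁻¹ ⟨q, h⟩).val else q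
  have hρ : ∀ q (h : q < D.nroots), ρ q = (π ⟨q, h⟩).val := fun q h => dif_pos h
  have hρ' : ∀ q (_ : q < D.nroots), ρ' (ρ q) = q := by
    intro q h
    rw [hρ q h]
    show (if h' : (π ⟨q, h⟩).val < D.nroots then (π⁻¹ ⟨(π ⟨q, h⟩).val, h'⟩).val else _) = q
    rw [dif_pos (Fin.isLt _)]
    simp
  have hρlt : ∀ q (_ : q < D.nroots), ρ q < D.nroots := by
    intro q h
    rw [hρ q h]
    exact Fin.isLt _
  have hex : ∀ q : ℕ, ∃ κ : F, q < D.nroots → κ ≠ 0 ∧ ∀ t : F,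
      n * X hR.toAddRel q t * n⁻¹ = X hR.toAddRel (ρ q) (κ * t) := by
    intro q
    by_cases hq : q < D.nroots
    · obtain ⟨κ, h0, h1⟩ := conj_of_mem_N hR hT hn hm ⟨q, hq⟩
      refine ⟨κ, fun _ => ⟨h0, fun t => ?_⟩⟩
      rw [hρ q hq]
      exact h1 t
    · exact ⟨1, fun h => absurd h hq⟩
  choose κ hκ using hex
  have hΨlt : ∀ q ∈ Ψ, q < D.nroots := fun q hq => (hpos q hq).1
  have hconj : ∀ (P : List ℕ) (_ : ∀ q ∈ P, q ∈ Ψ) (f : ℕ → F), n * bl hR.toAddRel P f * n⁻¹ =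
      W hR.toAddRel (P.map fun q => (ρ q, κ q * f q)) := by
    intro P
    induction P with
    | nil =>
      intro _ f
      simp
    | cons q P ih =>
      intro hP f
      have e1 := (hκ q (hΨlt q (hP q (by simp)))).2 (f q)
      rw [bl_cons, List.map_cons, W_cons, ← ih (fun x hx => hP x (List.mem_cons_of_mem _ hx)) f, ← e1]
      group
  set Pp := Ψ.filter (fun q => decide (D.IsPosRoot (ρ q))) with hPp
  set Pn := Ψ.filter (fun q => !decide (D.IsPosRoot (ρ q))) with hPn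
  have hsubp : ∀ q ∈ Pp, q ∈ Ψ := fun q hq => (List.mem_filter.mp hq).1
  have hsubn : ∀ q ∈ Pn, q ∈ Ψ := fun q hq => (List.mem_filter.mp hq).1
  have hperm : (Pn ++ Pp).Perm Ψ := by
    refine List.Perm.trans List.perm_append_comm ?_
    exact List.filter_append_perm _ _
  have hsplit : bl hR.toAddRel Ψ f₂ = bl hR.toAddRel Pn f₂ * bl hR.toAddRel Pp f₂ := by
    rw [bl_perm hperm.symm hΨnd (hC), bl, bl, bl, List.map_append, W_append]
  have hyn : n * bl hR.toAddRel Pn f₂ * n⁻¹ ∈ D.negUnipotent F := by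
    rw [hconj Pn hsubn, negUnipotent_eq hR.toAddRel]
    apply W_mem_gen
    intro p hp
    obtain ⟨q, hq, rfl⟩ := List.mem_map.mp hp
    have h1 := (List.mem_filter.mp hq).2
    have h2 : ¬ D.IsPosRoot (ρ q) := by simpa using h1
    rcases hT.pos_or_neg (hρlt q (hΨlt q (hsubn q hq))) with h3 | h3
    · exact absurd h3 h2
    · exact h3
  have hyp : n * bl hR.toAddRel Pp f₂ * n⁻¹ ∈ D.posUnipotent F := by
    rw [hconj Pp hsubp, posUnipotent_eq hR.toAddRel]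
    apply W_mem_gen
    intro p hp
    obtain ⟨q, hq, rfl⟩ := List.mem_map.mp hp
    have h1 := (List.mem_filter.mp hq).2
    simpa using h1
  have hprod : (n * bl hR.toAddRel Pn f₂ * n⁻¹) * (n * bl hR.toAddRel Pp f₂ * n⁻¹) = bl hR.toAddRel Ψ f₃ := by
    rw [← h, hsplit]
    group
  have h3U : bl hR.toAddRel Ψ f₃ ∈ D.posUnipotent F := by
    rw [posUnipotent_eq hR.toAddRel]
    exact bl_mem_gen hpos _
  have hynU : n * bl hR.toAddRel Pn f₂ * n⁻¹ ∈ D.posUnipotent F := by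
    have e : n * bl hR.toAddRel Pn f₂ * n⁻¹ = bl hR.toAddRel Ψ f₃ * (n * bl hR.toAddRel Pp f₂ * n⁻¹)⁻¹ := by
      rw [← hprod]
      group
    rw [e]
    exact Subgroup.mul_mem _ h3U (Subgroup.inv_mem _ hyp)
  have hy1 : n * bl hR.toAddRel Pn f₂ * n⁻¹ = 1 := by
    have : n * bl hR.toAddRel Pn f₂ * n⁻¹ ∈ D.borelSubgroup F ⊓ D.negUnipotent F :=
      ⟨U_le_B hR hT hynU, hyn⟩
    rw [B_inf_V hR hT, Subgroup.mem_bot] at this
    exact this
  have hb1 : bl hR.toAddRel Pn f₂ = 1 := by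
    have e : bl hR.toAddRel Pn f₂ = n⁻¹ * (n * bl hR.toAddRel Pn f₂ * n⁻¹) * n := by group
    rw [e, hy1]
    group
  have hnot : r ∉ Pn := by
    intro hrn
    have h4 := bl_coeff (hA := hR.toAddRel) hT (B₁ := Pn) (B₂ := []) (f₁ := f₂) (f₂ := fun _ => 0)
      (hΨnd.filter _) List.nodup_nil (fun q hq => hpos q (hsubn q hq)) (by simp)
      ((fun q₁ h₁ q₂ h₂ => hC q₁ (hsubn _ h₁) q₂ (hsubn _ h₂))) (by simp) (by rw [hb1]; rfl) (hpos r hr)
    rw [if_pos hrn] at h4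
    simp at h4
    exact hf h4
  have hrp : r ∈ Pp := by
    have h1 : r ∈ Ψ := hr
    refine List.mem_filter.mpr ⟨h1, ?_⟩
    by_contra h2
    exact hnot (List.mem_filter.mpr ⟨h1, by simpa using h2⟩)
  -- the positive part
  have hyp2 : n * bl hR.toAddRel Pp f₂ * n⁻¹ = bl hR.toAddRel Ψ f₃ := by
    rw [← hprod, hy1, one_mul]
  set f₄ : ℕ → F := fun s => κ (ρ' s) * f₂ (ρ' s) with hf₄
  have hbl : n * bl hR.toAddRel Pp f₂ * n⁻¹ = bl hR.toAddRel (Pp.map ρ) f₄ := by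
    rw [hconj Pp hsubp, bl, List.map_map]
    congr 1
    apply List.map_congr_left
    intro q hq
    have h1 := hρ' q (hΨlt q (hsubp q hq))
    simp [hf₄, h1]
  have hinj : ∀ x ∈ Pp, ∀ y ∈ Pp, ρ x = ρ y → x = y := by
    intro x hx y hy e
    have e1 := hρ' x (hΨlt x (hsubp x hx))
    have e2 := hρ' y (hΨlt y (hsubp y hy))
    rw [← e1, ← e2, e]
  have hnd : (Pp.map ρ).Nodup := by
    refine List.Nodup.map_on ?_ (hΨnd.filter _)
    exact hinj
  have hposB : ∀ s ∈ Pp.map ρ, D.IsPosRoot s := by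
    intro s hs
    obtain ⟨q, hq, rfl⟩ := List.mem_map.mp hs
    have h1 := (List.mem_filter.mp hq).2
    simpa using h1
  have hCB : ∀ q₁ ∈ Pp.map ρ, ∀ q₂ ∈ Pp.map ρ, q₁ ≠ q₂ → ∀ s t : F,
      Commute (X hR.toAddRel q₁ s) (X hR.toAddRel q₂ t) := by
    intro q₁ h₁ q₂ h₂ hne s t
    obtain ⟨x, hx, rfl⟩ := List.mem_map.mp h₁
    obtain ⟨y, hy, rfl⟩ := List.mem_map.mp h₂
    have hxy : x ≠ y := fun e => hne (by rw [e])
    have hxl := hΨlt x (hsubp x hx)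
    have hyl := hΨlt y (hsubp y hy)
    obtain ⟨hκx, ex⟩ := hκ x hxl
    obtain ⟨hκy, ey⟩ := hκ y hyl
    have e1 : X hR.toAddRel (ρ x) s = n * X hR.toAddRel x ((κ x)⁻¹ * s) * n⁻¹ := by
      rw [ex, ← mul_assoc, mul_inv_cancel₀ hκx, one_mul]
    have e2 : X hR.toAddRel (ρ y) t = n * X hR.toAddRel y ((κ y)⁻¹ * t) * n⁻¹ := by
      rw [ey, ← mul_assoc, mul_inv_cancel₀ hκy, one_mul]
    rw [e1, e2]
    have hc := hC x (hsubp x hx) y (hsubp y hy) hxy ((κ x)⁻¹ * s) ((κ y)⁻¹ * t)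
    show n * X hR.toAddRel x ((κ x)⁻¹ * s) * n⁻¹ * (n * X hR.toAddRel y ((κ y)⁻¹ * t) * n⁻¹) =
      n * X hR.toAddRel y ((κ y)⁻¹ * t) * n⁻¹ * (n * X hR.toAddRel x ((κ x)⁻¹ * s) * n⁻¹)
    calc n * X hR.toAddRel x ((κ x)⁻¹ * s) * n⁻¹ * (n * X hR.toAddRel y ((κ y)⁻¹ * t) * n⁻¹)
        = n * (X hR.toAddRel x ((κ x)⁻¹ * s) * X hR.toAddRel y ((κ y)⁻¹ * t)) * n⁻¹ := by group
      _ = n * (X hR.toAddRel y ((κ y)⁻¹ * t) * X hR.toAddRel x ((κ x)⁻¹ * s)) * n⁻¹ := by rw [hc.eq]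
      _ = _ := by group
  have hmem : ρ r ∈ Pp.map ρ := List.mem_map.mpr ⟨r, hrp, rfl⟩
  have h5 := bl_coeff (hA := hR.toAddRel) hT hnd hΨnd hposB hpos hCB (hC)
    (hbl.symm.trans hyp2) (hposB _ hmem)
  rw [if_pos hmem] at h5
  have hrl := hΨlt r hr
  have h6 : f₄ (ρ r) ≠ 0 := by
    simp only [hf₄]
    rw [hρ' r hrl]
    exact mul_ne_zero (hκ r hrl).1 hf
  have h7 : ρ r ∈ Ψ := by
    by_contra h8
    rw [if_neg h8] at h5
    exact h6 h5
  rw [if_pos h7] at h5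
  rw [hρ r hrl] at h7 h5 h6
  exact ⟨h7, fun h8 => h6 (h5.trans h8)⟩

/-- Conjugation of a block by `U` keeps the coordinates in `L`. -/
theorem conj_block_U {Ψ L : List ℕ} (hnd : Ψ.Nodup) (hpos : ∀ q ∈ Ψ, D.IsPosRoot q)
    (hC : ∀ q₁ ∈ Ψ, ∀ q₂ ∈ Ψ, q₁ ≠ q₂ → ∀ s t : F, Commute (X hR.toAddRel q₁ s) (X hR.toAddRel q₂ t))
    (hact : ∀ s, D.IsPosRoot s → ∀ r ∈ Ψ, s ≠ r → ∀ c ∈ oddT D s r, c.1 ∈ Ψ ∧ c.1 ∉ L)
    {y : GL D.Idx F} (hy : y ∈ D.posUnipotent F) : ∀ f : ℕ → F,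
    ∃ f' : ℕ → F, (∀ q ∈ L, f' q = f q) ∧ y * bl hR.toAddRel Ψ f * y⁻¹ = bl hR.toAddRel Ψ f' := by
  have hmem : ∀ {g : GL D.Idx F}, g ∈ gen hR.toAddRel {q | q ∈ Ψ ∧ q ∉ L} →
      ∃ f : ℕ → F, (∀ q ∈ L, f q = 0) ∧ g = bl hR.toAddRel Ψ f := by
    intro g hg
    refine gen_induction hR.toAddRel (P := fun g => ∃ f : ℕ → F, (∀ q ∈ L, f q = 0) ∧ g = bl hR.toAddRel Ψ f)
      ⟨fun _ => 0, fun _ _ => rfl, (bl_zero _).symm⟩ ?_ ?_ hg
    · rintro r ⟨hr, hrL⟩ t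
      refine ⟨fun q => if q = r then t else 0, fun q hq => if_neg (fun e : q = r => hrL (e ▸ hq)), ?_⟩
      rw [bl_single hnd hr]
    · rintro x y ⟨f, hf, rfl⟩ ⟨g, hg, rfl⟩
      refine ⟨f + g, fun q hq => by simp [hf q hq, hg q hq], ?_⟩
      rw [bl_mul hnd hC]
  have hroot : ∀ {s : ℕ}, D.IsPosRoot s → ∀ c : F, ∀ P : List ℕ, (∀ q ∈ P, q ∈ Ψ) → ∀ f : ℕ → F,
      ∃ g : ℕ → F, (∀ q ∈ L, g q = 0) ∧ X hR.toAddRel s c * bl hR.toAddRel P f * (X hR.toAddRel s c)⁻¹ =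
        bl hR.toAddRel P f * bl hR.toAddRel Ψ g := by
    intro s hs c P
    induction P with
    | nil =>
      intro _ f
      refine ⟨fun _ => 0, fun _ _ => rfl, ?_⟩
      simp [bl_zero]
    | cons q P ih =>
      intro hP f
      obtain ⟨g₁, hg₁, h1⟩ := ih (fun x hx => hP x (List.mem_cons_of_mem _ hx)) f
      have hqΨ := hP q (by simp)
      obtain ⟨g₂, hg₂, h2⟩ : ∃ g₂ : ℕ → F, (∀ x ∈ L, g₂ x = 0) ∧
          X hR.toAddRel s c * X hR.toAddRel q (f q) * (X hR.toAddRel s c)⁻¹ =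
            X hR.toAddRel q (f q) * bl hR.toAddRel Ψ g₂ := by
        by_cases hsq : s = q
        · subst hsq
          refine ⟨fun _ => 0, fun _ _ => rfl, ?_⟩
          rw [bl_zero, X_inv, X_mul, X_mul, mul_one]
          congr 1
          ring
        · rw [X_conj_odd hR hs (hpos q hqΨ) hsq]
          have h3 : W hR.toAddRel (tw (oddT D s q) c (f q)) ∈ gen hR.toAddRel {q | q ∈ Ψ ∧ q ∉ L} := by
            apply W_mem_gen
            intro p hp
            obtain ⟨x, hx, rfl⟩ := List.mem_map.mp hp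
            exact hact s hs q hqΨ hsq x hx
          obtain ⟨g₂, hg₂, e⟩ := hmem h3
          exact ⟨g₂, hg₂, by rw [e]⟩
      refine ⟨g₂ + g₁, fun x hx => by simp [hg₁ x hx, hg₂ x hx], ?_⟩
      have hc : Commute (bl hR.toAddRel Ψ g₂) (bl hR.toAddRel P f) :=
        gen_comm (Ψ := {q | q ∈ Ψ}) hC (bl_mem_gen (fun _ h => h) _)
          (bl_mem_gen (fun x hx => hP x (List.mem_cons_of_mem _ hx)) _)
      rw [bl_cons, ← bl_mul hnd hC]
      calc X hR.toAddRel s c * (X hR.toAddRel q (f q) * bl hR.toAddRel P f) * (X hR.toAddRel s c)⁻¹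
          = (X hR.toAddRel s c * X hR.toAddRel q (f q) * (X hR.toAddRel s c)⁻¹) *
            (X hR.toAddRel s c * bl hR.toAddRel P f * (X hR.toAddRel s c)⁻¹) := by group
        _ = X hR.toAddRel q (f q) * (bl hR.toAddRel Ψ g₂ * bl hR.toAddRel P f) * bl hR.toAddRel Ψ g₁ := by
            rw [h1, h2]
            group
        _ = X hR.toAddRel q (f q) * (bl hR.toAddRel P f * bl hR.toAddRel Ψ g₂) * bl hR.toAddRel Ψ g₁ := by
            rw [hc.eq]
        _ = _ := by group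
  rw [posUnipotent_eq hR.toAddRel] at hy
  refine gen_induction hR.toAddRel (P := fun y => ∀ f : ℕ → F,
    ∃ f' : ℕ → F, (∀ q ∈ L, f' q = f q) ∧ y * bl hR.toAddRel Ψ f * y⁻¹ = bl hR.toAddRel Ψ f') ?_ ?_ ?_ hy
  · intro f
    exact ⟨f, fun _ _ => rfl, by simp⟩
  · intro s hs c f
    obtain ⟨g, hg, h1⟩ := hroot hs c Ψ (fun _ h => h) f
    refine ⟨f + g, fun q hq => by simp [hg q hq], ?_⟩
    rw [h1, bl_mul hnd hC]
  · intro a b ha hb f
    obtain ⟨f₁, hf₁, h1⟩ := hb f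
    obtain ⟨f₂, hf₂, h2⟩ := ha f₁
    refine ⟨f₂, fun q hq => by rw [hf₂ q hq, hf₁ q hq], ?_⟩
    rw [← h2, ← h1]
    group

/-- If `y₁` is central in `U` and conjugate to an element of a block with nonzero coefficients on `L`, then
an element of the Weyl group takes `L` into the support of `y₁`. -/
theorem conj_central {Ψ L : List ℕ} (hnd : Ψ.Nodup) (hpos : ∀ q ∈ Ψ, D.IsPosRoot q)
    (hC : ∀ q₁ ∈ Ψ, ∀ q₂ ∈ Ψ, q₁ ≠ q₂ → ∀ s t : F, Commute (X hR.toAddRel q₁ s) (X hR.toAddRel q₂ t))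
    (hact : ∀ s, D.IsPosRoot s → ∀ r ∈ Ψ, s ≠ r → ∀ c ∈ oddT D s r, c.1 ∈ Ψ ∧ c.1 ∉ L)
    (hL : ∀ r ∈ L, r ∈ Ψ) {f₁ f₂ : ℕ → F}
    (hcen : ∀ u ∈ D.posUnipotent F, u * bl hR.toAddRel Ψ f₁ * u⁻¹ = bl hR.toAddRel Ψ f₁)
    (hf₂ : ∀ r ∈ L, f₂ r ≠ 0) {h : GL D.Idx F} (hh : h ∈ D.group F)
    (hc : h * bl hR.toAddRel Ψ f₁ * h⁻¹ = bl hR.toAddRel Ψ f₂) :
    ∃ w : WW (pair hR hT), ∀ r (hr : r ∈ L), ((σW hR hT w ⟨r, (hpos r (hL r hr)).1⟩ : Fin D.nroots) : ℕ) ∈ Ψ ∧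
      f₁ ((σW hR hT w ⟨r, (hpos r (hL r hr)).1⟩ : Fin D.nroots) : ℕ) ≠ 0 := by
  obtain ⟨b, hb, n, hn, u, hu, rfl⟩ := normal_form_exists hR hT hh
  have huU := Un_le_U hR hT n hu
  obtain ⟨u₁, hu₁, h₁, hh₁, rfl⟩ := (mem_B_iff hR hT).mp hb
  set y₁ := bl hR.toAddRel Ψ f₁ with hy₁
  obtain ⟨f₃, hf₃, e₃⟩ := conj_block_U hR hT hnd hpos hC hact (Subgroup.inv_mem _ hu₁) f₂
  rw [inv_inv] at e₃
  obtain ⟨ξ, hξ, -, hξc⟩ := exists_of_mem_H hR hT (Subgroup.inv_mem _ hh₁)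
  have hconjH : ∀ (S : List ℕ), (∀ q ∈ S, q < D.nroots) → ∀ f : ℕ → F,
      h₁⁻¹ * bl hR.toAddRel S f * (h₁⁻¹)⁻¹ = bl hR.toAddRel S (fun q => ξ q * f q) := by
    intro S
    induction S with
    | nil =>
      intro _ f
      simp
    | cons x S ih =>
      intro hS f
      rw [bl_cons, bl_cons, ← hξc x (hS x (by simp)) (f x), ← ih (fun q hq => hS q (List.mem_cons_of_mem _ hq)) f]
      group
  have hrel : n * y₁ * n⁻¹ = bl hR.toAddRel Ψ (fun q => ξ q * f₃ q) := by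
    rw [← hconjH Ψ (fun q hq => (hpos q hq).1) f₃, ← e₃, ← hc]
    have h2 := hcen u huU
    have e : u₁ * h₁ * n * u * y₁ * (u₁ * h₁ * n * u)⁻¹ = u₁ * h₁ * (n * (u * y₁ * u⁻¹) * n⁻¹) * h₁⁻¹ * u₁⁻¹ := by group
    rw [e, h2]
    group
  have hrel' : n⁻¹ * bl hR.toAddRel Ψ (fun q => ξ q * f₃ q) * (n⁻¹)⁻¹ = y₁ := by
    rw [← hrel]
    group
  have hmi : n⁻¹ ∈ monoSub D F := mem_mono_of_N hR hT (Subgroup.inv_mem _ hn)
  have hnG : n⁻¹ ∈ D.group F := N_le_G hR hT (Subgroup.inv_mem _ hn)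
  have hnP : (⟨n⁻¹, hnG⟩ : ↥(D.group F)) ∈ (pair hR hT).N := (mem_PN hR hT).2 (Subgroup.inv_mem _ hn)
  refine ⟨QuotientGroup.mk (⟨⟨n⁻¹, hnG⟩, hnP⟩ : (pair hR hT).N), fun r hr => ?_⟩
  have hσ : ∀ s, σW hR hT (QuotientGroup.mk (⟨⟨n⁻¹, hnG⟩, hnP⟩ : (pair hR hT).N)) s = permOf ⟨n⁻¹, hmi⟩ s := by
    intro s
    rw [σW_mk]
    rfl
  rw [hσ]
  have hrΨ := hL r hr
  have := mono_supp hR hT hnd hpos hC (Subgroup.inv_mem _ hn) hmi hrel' hrΨ
    (by
      show ξ r * f₃ r ≠ 0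
      rw [hf₃ r hr]
      exact mul_ne_zero (hξ _) (hf₂ r hr))
  exact this

end Separation

section SylowStep

variable [Fintype F] (hR : Sys D F η) (hT : Tbl D)
include hR hT

/-- An involution of the group is conjugate into `U`. -/
theorem conj_into_U {g : GL D.Idx F} (hg : g ∈ D.group F) (h2 : orderOf g = 2) :
    ∃ x ∈ D.group F, x * g * x⁻¹ ∈ D.posUnipotent F := by
  classical
  haveI : Fact (Nat.Prime 2) := ⟨Nat.prime_two⟩
  obtain ⟨P, hP⟩ := Cfsg.Agent.Lib.ChevBN.SylowU.exists_sylow hR hT 2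
  set g' : ↥(D.group F) := ⟨g, hg⟩ with hg'
  have hord : orderOf g' = 2 := by
    rw [← h2, hg']
    exact Subgroup.orderOf_mk g hg
  have hpg : IsPGroup 2 (Subgroup.zpowers g') := by
    apply IsPGroup.of_card (n := 1)
    rw [Nat.card_zpowers, hord, pow_one]
  obtain ⟨Q, hQ⟩ := hpg.exists_le_sylow
  obtain ⟨x, hx⟩ := MulAction.exists_smul_eq ↥(D.group F) Q P
  have h3 : g' ∈ (Q : Subgroup ↥(D.group F)) := hQ (Subgroup.mem_zpowers g')
  have h4 : x * g' * x⁻¹ ∈ (P : Subgroup ↥(D.group F)) := by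
    rw [← hx, Sylow.coe_subgroup_smul]
    exact ⟨g', h3, by simp [MulAut.conj_apply]⟩
  rw [hP] at h4
  refine ⟨x.1, x.2, ?_⟩
  exact Subgroup.mem_subgroupOf.mp h4

end SylowStep

end Cfsg.Agent.Lib.ChevBN.InvRed
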